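import Cfsg.Agent.TwistedLie.D4Facts
import Cfsg.Agent.Chevalley.Parabolic

/-!
Products of two conjugates of one element of `³D₄(q)`: elements that act without fixed points on
unipotent subgroups, and torus elements.
-/

set_option autoImplicit false
set_option linter.unusedSectionVars false
set_option linter.unusedFintypeInType false

namespace CfsgLib.D4Cover

open Cfsg.Lie CfsgLib.Chevalley CfsgLib.TwistedLie

local notation "S" => sysD4

section

variable {Γ : Type*} [Group Γ]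

/-- `g` is a product of two `G`-conjugates of `x`. -/
def Covered (G : Subgroup Γ) (x g : Γ) : Prop :=
  ∃ u ∈ G, ∃ v ∈ G, g = (u * x * u⁻¹) * (v * x * v⁻¹)

theorem Covered.of_conj {G : Subgroup Γ} {x g h : Γ} (hh : h ∈ G) (hc : Covered G x (h * g * h⁻¹)) :
    Covered G x g := by
  obtain ⟨u, hu, v, hv, e⟩ := hc
  refine ⟨h⁻¹ * u, mul_mem (inv_mem hh) hu, h⁻¹ * v, mul_mem (inv_mem hh) hv, ?_⟩
  calc g = h⁻¹ * (h * g * h⁻¹) * h := by group
    _ = h⁻¹ * (u * x * u⁻¹ * (v * x * v⁻¹)) * h := by rw [e]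
    _ = _ := by group

/-- `a` normalises `U` and fixes only the identity. -/
structure Free (U : Subgroup Γ) (a : Γ) : Prop where
  norm : ∀ u ∈ U, a * u * a⁻¹ ∈ U
  free : ∀ u ∈ U, a * u = u * a → u = 1

theorem Free.exists_conj [Finite Γ] {U : Subgroup Γ} {a : Γ} (h : Free U a) {s : Γ} (hs : s ∈ U) :
    ∃ t ∈ U, t * a * t⁻¹ = s * a := by
  let f : U → U := fun t => ⟨(t : Γ) * (a * (t : Γ)⁻¹ * a⁻¹), mul_mem t.2 (h.norm _ (inv_mem t.2))⟩
  have hinj : Function.Injective f := by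
    intro t t' he
    have h' : (t : Γ) * (a * (t : Γ)⁻¹ * a⁻¹) = (t' : Γ) * (a * (t' : Γ)⁻¹ * a⁻¹) :=
      congrArg Subtype.val he
    have h1 : (t : Γ) * a * (t : Γ)⁻¹ = (t' : Γ) * a * (t' : Γ)⁻¹ := by
      have := congrArg (· * a) h'
      simpa [mul_assoc] using this
    have h2 : a * ((t' : Γ)⁻¹ * t) = ((t' : Γ)⁻¹ * t) * a := by
      calc a * ((t' : Γ)⁻¹ * t) = (t' : Γ)⁻¹ * ((t' : Γ) * a * (t' : Γ)⁻¹) * t := by group
        _ = (t' : Γ)⁻¹ * ((t : Γ) * a * (t : Γ)⁻¹) * t := by rw [h1]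
        _ = _ := by group
    exact Subtype.ext (inv_mul_eq_one.1 (h.free _ (mul_mem (inv_mem t'.2) t.2) h2)).symm
  obtain ⟨t, ht⟩ := Finite.surjective_of_injective hinj ⟨s, hs⟩
  refine ⟨t, t.2, ?_⟩
  rw [← show (t : Γ) * (a * (t : Γ)⁻¹ * a⁻¹) = s from congrArg Subtype.val ht]
  group

theorem Free.conj {U : Subgroup Γ} {a n : Γ} (h : Free U a) :
    Free (U.map (MulAut.conj n).toMonoidHom) (n * a * n⁻¹) := by
  refine ⟨?_, ?_⟩
  · rintro _ ⟨u, hu, rfl⟩
    refine ⟨a * u * a⁻¹, h.norm u hu, ?_⟩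
    simp only [MulEquiv.coe_toMonoidHom, MulAut.conj_apply]
    group
  · rintro _ ⟨u, hu, rfl⟩ e
    simp only [MulEquiv.coe_toMonoidHom, MulAut.conj_apply] at e ⊢
    have e' : a * u = u * a := by
      calc a * u = n⁻¹ * (n * a * n⁻¹ * (n * u * n⁻¹)) * n := by group
        _ = n⁻¹ * (n * u * n⁻¹ * (n * a * n⁻¹)) * n := by rw [e]
        _ = _ := by group
    rw [h.free u hu e']
    group

theorem Free.conj_of_normalizes {U : Subgroup Γ} {a n : Γ} (h : Free U a)
    (hn : ∀ u ∈ U, n * u * n⁻¹ ∈ U) (hn' : ∀ u ∈ U, n⁻¹ * u * n ∈ U) : Free U (n * a * n⁻¹) := by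
  have e : U.map (MulAut.conj n).toMonoidHom = U := by
    refine le_antisymm ?_ fun u hu => ⟨n⁻¹ * u * n, hn' u hu, ?_⟩
    · rintro _ ⟨u, hu, rfl⟩
      exact hn u hu
    · simp only [MulEquiv.coe_toMonoidHom, MulAut.conj_apply]
      group
  have := h.conj (n := n)
  rwa [e] at this

/-- `v a b u` is covered when `a` and `b` are conjugates of `x` acting freely. -/
theorem covered_mul [Finite Γ] {G U V : Subgroup Γ} {x v a b u : Γ} (hU : U ≤ G) (hV : V ≤ G)
    (hv : v ∈ V) (hu : u ∈ U) (ha : Free V a) (hb : Free U b)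
    (hax : ∃ k ∈ G, a = k * x * k⁻¹) (hbx : ∃ k ∈ G, b = k * x * k⁻¹) :
    Covered G x (v * (a * b) * u) := by
  obtain ⟨k, hk, rfl⟩ := hax
  obtain ⟨l, hl, rfl⟩ := hbx
  obtain ⟨t, ht, et⟩ := ha.exists_conj hv
  obtain ⟨s, hs, es⟩ := hb.exists_conj (hb.norm u hu)
  refine ⟨t * k, mul_mem (hV ht) hk, s * l, mul_mem (hU hs) hl, ?_⟩
  calc v * (k * x * k⁻¹ * (l * x * l⁻¹)) * u
      = v * (k * x * k⁻¹) * ((l * x * l⁻¹) * u * (l * x * l⁻¹)⁻¹ * (l * x * l⁻¹)) := by group
    _ = t * (k * x * k⁻¹) * t⁻¹ * (s * (l * x * l⁻¹) * s⁻¹) := by rw [et, es]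
    _ = _ := by group

end

variable {K : Type*} [Field K] [Fintype K] {q : ℕ}

local notation "G1" => chevD4.genSubgroup K (d4Words K q)

/-- The fixed positive unipotent elements. -/
noncomputable def Upos (K : Type*) [Field K] (q : ℕ) : Subgroup (GL chevD4.Idx K) :=
  chevD4.posUnipotent K ⊓ chevD4.genSubgroup K (d4Words K q)

/-- The longest word. -/
def w0L : List ℕ := D4.wdN [0, 1, 0, 1, 0, 1]

/-- The longest element. -/
noncomputable def n0 (K : Type*) [Field K] : GL chevD4.Idx K := nL S K w0L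

/-- The fixed negative unipotent elements. -/
noncomputable def Uneg (K : Type*) [Field K] (q : ℕ) : Subgroup (GL chevD4.Idx K) :=
  (Upos K q).map (MulAut.conj (n0 K)).toMonoidHom

theorem wdN_lt (L : List (Fin 2)) : ∀ i ∈ D4.wdN L, i < chevD4.rank := by
  intro i hi
  obtain ⟨j, -, hj⟩ := List.mem_flatMap.1 hi
  exact D4.blkN_lt j i hj

theorem w0L_neg : ∀ r : Fin chevD4.nroots, 12 ≤ (r : ℕ) ↔ wL chevD4 w0L (r : ℕ) < 12 := by
  decide +kernel

/-- Conjugation of the root elements by a product of `n_p`. -/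
theorem nL_conj {L : List ℕ} (hL : ∀ i ∈ L, i < chevD4.rank) {r : ℕ} (hr : r < chevD4.nroots) :
    ∃ e : K, (e = 1 ∨ e = -1) ∧
      ∀ t, nL S K L * Sys.xG S K r t = Sys.xG S K (wL chevD4 L r) (e * t) * nL S K L := by
  induction L with
  | nil => exact ⟨1, Or.inl rfl, fun t => by simp [nL, wL]⟩
  | cons i L ih =>
    have hi := hL i (List.mem_cons_self ..)
    have hL' : ∀ j ∈ L, j < chevD4.rank := fun j hj => hL j (List.mem_cons_of_mem _ hj)
    obtain ⟨e, he, h⟩ := ih hL'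
    refine ⟨(Sys.eta S i (wL chevD4 L r) : K) * e, ?_, fun t => ?_⟩
    · rcases Sys.eta_sign S i hi _ (wL_lt S hL' hr) with e' | e' <;> rcases he with rfl | rfl <;>
        simp [e']
    · rw [nL_cons, mul_assoc, h, ← mul_assoc, Sys.nG_conj_xG S K hi (wL_lt S hL' hr), mul_assoc,
        mul_assoc ((Sys.eta S i (wL chevD4 L r) : K))]
      rfl

/-- A product of `n_p` permutes the values of torus elements. -/
theorem nL_torusVal {L : List ℕ} (hL : ∀ i ∈ L, i < chevD4.rank) {c d : ℕ → Kˣ}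
    (h : nL S K L * tor chevD4 K c = tor chevD4 K d * nL S K L) {r : ℕ} (hr : r < chevD4.nroots) :
    torusVal chevD4 d (wL chevD4 L r) = torusVal chevD4 c r := by
  obtain ⟨e, he, hn⟩ := nL_conj (K := K) hL hr
  have hlt : wL chevD4 L r < chevD4.nroots := wL_lt S hL hr
  have h1 : nL S K L * (tor chevD4 K c * Sys.xG S K r 1 * (tor chevD4 K c)⁻¹) =
      (tor chevD4 K d * Sys.xG S K (wL chevD4 L r) (e * 1) * (tor chevD4 K d)⁻¹) * nL S K L := by
    calc nL S K L * (tor chevD4 K c * Sys.xG S K r 1 * (tor chevD4 K c)⁻¹)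
        = (nL S K L * tor chevD4 K c) * Sys.xG S K r 1 * (tor chevD4 K c)⁻¹ := by group
      _ = tor chevD4 K d * (nL S K L * Sys.xG S K r 1) * (tor chevD4 K c)⁻¹ := by rw [h]; group
      _ = tor chevD4 K d * Sys.xG S K (wL chevD4 L r) (e * 1) * (tor chevD4 K d)⁻¹ *
          ((tor chevD4 K d * nL S K L) * (tor chevD4 K c)⁻¹) := by rw [hn]; group
      _ = _ := by rw [← h, mul_inv_cancel_right]
  rw [Sys.tor_conj S K c hr, Sys.tor_conj S K d hlt, hn] at h1
  have h2 := xG_inj S K hlt (mul_right_cancel h1)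
  have he0 : e ≠ 0 := by rcases he with rfl | rfl <;> simp
  exact Units.ext (mul_left_cancel₀ he0 (by linear_combination -h2))

/-- No root value is `1`. -/
def Regular (c : ℕ → Kˣ) : Prop := ∀ r < chevD4.nroots, torusVal chevD4 c r ≠ 1

/-- A product of root elements supported on `P` that commutes with a torus element which moves the
roots of `P` is trivial. -/
theorem tor_free {P : Set ℕ} (hP : Sys.Closed S P) {c : ℕ → Kˣ}
    (hc : ∀ r ∈ P, 12 ≤ r → r < 24 → torusVal chevD4 c r ≠ 1) {u : GL chevD4.Idx K}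
    (hu : u ∈ uSub chevD4 K P) (h : tor chevD4 K c * u = u * tor chevD4 K c) : u = 1 := by
  obtain ⟨t, ht, rfl⟩ := Sys.exists_ordProd_half S K hP hu
  have key : ∀ L : List ℕ, (∀ r ∈ L, r < chevD4.nroots) →
      tor chevD4 K c * Sys.wG S K (L.map fun r => (r, t r)) * (tor chevD4 K c)⁻¹ =
        Sys.wG S K (L.map fun r => (r, (torusVal chevD4 c r : K) * t r)) := by
    intro L
    induction L with
    | nil => intro; simp [Sys.wG]
    | cons a L ih =>
      intro hL
      have ih' := ih fun r hr => hL r (List.mem_cons_of_mem _ hr)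
      simp only [Sys.wG, List.map_cons, List.prod_cons] at ih' ⊢
      rw [← ih', ← Sys.tor_conj S K c (hL a (List.mem_cons_self ..))]
      group
  have e : tor chevD4 K c * Sys.ordProd S K t (chevD4.nroots / 2) * (tor chevD4 K c)⁻¹ =
      Sys.ordProd S K (fun r => (torusVal chevD4 c r : K) * t r) (chevD4.nroots / 2) :=
    key _ fun r hr => by
      rw [List.mem_range'_1] at hr
      omega
  rw [h, mul_inv_cancel_right] at e
  have hz : ∀ r, chevD4.nroots / 2 ≤ r → r < chevD4.nroots → t r = 0 := by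
    intro r h1 h2
    by_contra h0
    have h3 := Sys.ordProd_inj_half S K e h1 h2
    refine hc r (ht r h0).1 h1 h2 (Units.ext ?_)
    exact (mul_eq_right₀ h0).1 h3.symm
  have h4 : ∀ L : List ℕ, (∀ r ∈ L, chevD4.nroots / 2 ≤ r ∧ r < chevD4.nroots) →
      Sys.wG S K (L.map fun r => (r, t r)) = 1 := by
    intro L
    induction L with
    | nil => intro; simp [Sys.wG]
    | cons a L ih =>
      intro hL
      have ih' := ih fun r hr => hL r (List.mem_cons_of_mem _ hr)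
      have ha := hL a (List.mem_cons_self ..)
      simp only [Sys.wG, List.map_cons, List.prod_cons] at ih' ⊢
      rw [ih', hz a ha.1 ha.2, Sys.xG_zero, one_mul]
  exact h4 _ fun r hr => by
    rw [List.mem_range'_1] at hr
    omega

variable (hq : IsPrimePow q) (hK : Fintype.card K = q ^ 3)
include hq hK

theorem tor_mem {c : ℕ → Kˣ} (hc : c ∈ D4.Cset K q) : tor chevD4 K c ∈ G1 :=
  D4.TT_mem hq hK ⟨c, hc, rfl⟩

theorem nL_mem (L : List (Fin 2)) : nL S K (D4.wdN L) ∈ G1 := by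
  have := (D4.tw hq hK).nW_mem L
  rw [Tw.nW, wN_nL, List.map_flatMap] at this
  simpa [D4.wdN, D4.blkF_val, D4.tw] using this

theorem n0_mem : n0 K ∈ G1 := nL_mem hq hK _

theorem Upos_le : Upos K q ≤ G1 := inf_le_right

theorem Uneg_le : Uneg K q ≤ G1 := by
  rintro _ ⟨u, hu, rfl⟩
  exact mul_mem (mul_mem (n0_mem hq hK) hu.2) (inv_mem (n0_mem hq hK))

theorem nL_tor (L : List (Fin 2)) {c : ℕ → Kˣ} (hc : c ∈ D4.Cset K q) :
    ∃ d ∈ D4.Cset K q, nL S K (D4.wdN L) * tor chevD4 K c = tor chevD4 K d * nL S K (D4.wdN L) := by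
  induction L generalizing c with
  | nil => exact ⟨c, hc, by simp [D4.wdN, nL]⟩
  | cons i L ih =>
    obtain ⟨d, hd, e⟩ := ih hc
    obtain ⟨d', hd', e'⟩ := D4.n_conj_tor hq hK i d hd
    refine ⟨d', hd', ?_⟩
    have hi : nL S K (D4.blkN i) = (Sys.wN S K (D4.blkF i) : GL chevD4.Idx K) := by
      rw [wN_nL, D4.blkF_val]
    rw [D4.wdN, List.flatMap_cons, nL_append, ← D4.wdN, mul_assoc, e, hi, ← mul_assoc, e', mul_assoc]

theorem free_pos {c : ℕ → Kˣ} (hc : c ∈ D4.Cset K q) (hreg : Regular c) :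
    Free (Upos K q) (tor chevD4 K c) := by
  refine ⟨fun u hu => Subgroup.mem_inf.2
      ⟨?_, mul_mem (mul_mem (tor_mem hq hK hc) hu.2) (inv_mem (tor_mem hq hK hc))⟩,
    fun u hu h => ?_⟩
  · have h1 := hu.1
    rw [← uSub_univ] at h1 ⊢
    exact Sys.tor_conj_uSub S K c h1
  · have h1 := hu.1
    rw [← uSub_univ] at h1
    exact tor_free (Sys.closed_univ S) (fun r _ _ h24 => hreg r h24) h1 h

theorem regular_of_conj (L : List (Fin 2)) {c d : ℕ → Kˣ}
    (e : nL S K (D4.wdN L) * tor chevD4 K c = tor chevD4 K d * nL S K (D4.wdN L)) (hreg : Regular c) :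
    Regular d := by
  intro r hr h1
  have hinj : Function.Injective fun s : Fin chevD4.nroots =>
      (⟨wL chevD4 (D4.wdN L) s, wL_lt S (wdN_lt L) s.isLt⟩ : Fin chevD4.nroots) := by
    intro a b hab
    refine ((D4.tw hq hK).wW L).injective (Fin.ext ?_)
    show (Sys.wperm S (L.flatMap D4.blkF) a : ℕ) = (Sys.wperm S (L.flatMap D4.blkF) b : ℕ)
    rw [D4.wperm_flat, D4.wperm_flat]
    exact congrArg Fin.val hab
  obtain ⟨s, hs⟩ := Finite.surjective_of_injective hinj ⟨r, hr⟩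
  refine hreg s s.isLt ?_
  rw [← nL_torusVal (wdN_lt L) e s.isLt]
  exact (congrArg (torusVal chevD4 d) (congrArg Fin.val hs)).trans h1

theorem nL_tor' (L : List (Fin 2)) {c : ℕ → Kˣ} (hc : c ∈ D4.Cset K q) :
    ∃ d ∈ D4.Cset K q, nL S K (D4.wdN L) * tor chevD4 K d = tor chevD4 K c * nL S K (D4.wdN L) := by
  have h := ((D4.tw hq hK).T_word_conj L (t := tor chevD4 K c) ⟨c, hc, rfl⟩).2
  obtain ⟨d, hd, e⟩ := h
  refine ⟨d, hd, ?_⟩
  have hn : ((D4.tw hq hK).nW L : GL chevD4.Idx K) = nL S K (D4.wdN L) := by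
    rw [Tw.nW, wN_nL, List.map_flatMap]
    simp [D4.wdN, D4.blkF_val, D4.tw]
  rw [hn] at e
  rw [e]
  group

theorem free_neg {c : ℕ → Kˣ} (hc : c ∈ D4.Cset K q) (hreg : Regular c) :
    Free (Uneg K q) (tor chevD4 K c) := by
  obtain ⟨d, hd, e⟩ := nL_tor' hq hK [0, 1, 0, 1, 0, 1] hc
  have hdreg : Regular d := by
    intro r hr h1
    refine hreg _ (wL_lt S (wdN_lt [0, 1, 0, 1, 0, 1]) hr) ?_
    rw [nL_torusVal (wdN_lt [0, 1, 0, 1, 0, 1]) e hr]
    exact h1
  have := (free_pos hq hK hd hdreg).conj (n := n0 K)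
  rwa [n0, w0L, e, mul_inv_cancel_right] at this

end CfsgLib.D4Cover
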