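import Cfsg.Agent.D4Cover.Basic

/-!
The Birkhoff decomposition of `³D₄(q)` and the coefficient of the highest root vector.
-/

set_option autoImplicit false
set_option linter.unusedSectionVars false
set_option linter.unusedFintypeInType false

namespace CfsgLib.D4Cover

open Cfsg.Lie CfsgLib.Chevalley CfsgLib.TwistedLie
open scoped Matrix

local notation "S" => sysD4

variable {K : Type*} [Field K] [Fintype K]

/-- The coefficient of the highest root vector in the image of itself. -/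
def corner (g : GL chevD4.Idx K) : K :=
  (g : Matrix chevD4.Idx chevD4.Idx K) (Sum.inr ⟨23, by decide⟩) (Sum.inr ⟨23, by decide⟩)

/-- The highest root vector. -/
noncomputable def eTop (K : Type*) [Field K] : chevD4.Idx → K := bv chevD4 K (chevD4.rank + 23)

theorem corner_eq (g : GL chevD4.Idx K) :
    corner g = ((g : Matrix chevD4.Idx chevD4.Idx K) *ᵥ eTop K) (Sum.inr ⟨23, by decide⟩) := by
  rw [eTop, show chevD4.rank + 23 = chevD4.rank + ((⟨23, by decide⟩ : Fin chevD4.nroots) : ℕ) from rfl,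
    bv_inr, Matrix.mulVec_single_one]
  rfl

theorem x_top {r : ℕ} (h12 : 12 ≤ r) (h24 : r < 24) (t : K) :
    (Sys.xG S K r t : Matrix chevD4.Idx chevD4.Idx K) *ᵥ eTop K = eTop K := by
  rw [Sys.xG_val, eTop, x_bv (Sys.wf S) h24 (by decide),
    (by decide +kernel : ∀ r < 24, 12 ≤ r → colTerms chevD4 r (chevD4.rank + 23) = [(27, 1, 0)]) r h24 h12]
  simp [show chevD4.rank = 4 from rfl]

theorem pos_top {u : GL chevD4.Idx K} (hu : u ∈ chevD4.posUnipotent K) :
    (u : Matrix chevD4.Idx chevD4.Idx K) *ᵥ eTop K = eTop K := by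
  rw [Sys.posUnipotent_eq S] at hu
  induction hu using Subgroup.closure_induction with
  | mem x hx =>
    obtain ⟨r, ⟨h12, h24⟩, t, rfl⟩ := hx
    exact x_top h12 h24 t
  | one => simp
  | mul x y _ _ hx hy => rw [Units.val_mul, ← Matrix.mulVec_mulVec, hy, hx]
  | inv x _ hx =>
    conv_lhs => rw [← hx]
    rw [Matrix.mulVec_mulVec, ← Units.val_mul, inv_mul_cancel, Units.val_one, Matrix.one_mulVec]

/-- The row of the highest root vector is that of the identity. -/
def TopRow (g : GL chevD4.Idx K) : Prop :=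
  ∀ x : chevD4.Idx → K, ((g : Matrix chevD4.Idx chevD4.Idx K) *ᵥ x) (Sum.inr ⟨23, by decide⟩) =
    x (Sum.inr ⟨23, by decide⟩)

theorem topRow_x {r : ℕ} (h12 : r < 12) (t : K) : TopRow (Sys.xG S K r t) := by
  intro x
  have h24 : r < chevD4.nroots := show r < 24 by omega
  have hx : x = ∑ j : chevD4.Idx, x j • (Pi.single j 1 : chevD4.Idx → K) := by
    funext i
    simp [Pi.single_apply, Finset.sum_apply]
  conv_lhs => rw [hx, Matrix.mulVec_sum]
  conv_rhs => rw [hx]
  simp only [Finset.sum_apply, Matrix.mulVec_smul, Pi.smul_apply]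
  refine Finset.sum_congr rfl fun j _ => ?_
  congr 1
  rw [← bv_enc, Sys.xG_val, x_bv (Sys.wf S) h24 (by rcases j with j | j <;> simp [enc] <;> omega)]
  have key : ∀ r < 12, ∀ c < 28, (colTerms chevD4 r c).filter (fun y => decide (y.1 = 27)) =
      if c = 27 then [(27, 1, 0)] else [] := by decide +kernel
  have hj : enc chevD4 j < 28 := by
    rcases j with j | j
    · exact lt_of_lt_of_le j.isLt (by decide)
    · show 4 + (j : ℕ) < 28
      have := j.isLt
      simp only [show chevD4.nroots = 24 from rfl] at this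
      omega
  specialize key r h12 _ hj
  have hb : ∀ c, bv chevD4 K c (Sum.inr ⟨23, by decide⟩) = if c = 27 then 1 else 0 := fun c => by
    simp only [bv, enc, show chevD4.rank = 4 from rfl]
    by_cases h : c = 27 <;> simp [h, eq_comm]
  rw [list_sum_apply, List.map_map, hb]
  have hl : ∀ l : List (ℕ × ℤ × ℕ),
      (l.map ((fun v : chevD4.Idx → K => v (Sum.inr ⟨23, by decide⟩)) ∘
        fun y => ((y.2.1 : K) * t ^ y.2.2) • bv chevD4 K y.1)).sum =
      ((l.filter fun y => decide (y.1 = 27)).map fun y => (y.2.1 : K) * t ^ y.2.2).sum := by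
    intro l
    induction l with
    | nil => simp
    | cons a l ih =>
      rw [List.map_cons, List.sum_cons, ih, List.filter_cons]
      by_cases h : a.1 = 27 <;> simp [hb, h]
  rw [hl, key]
  by_cases h : enc chevD4 j = 27 <;> simp [h]

theorem topRow_neg {g : GL chevD4.Idx K} (hg : g ∈ chevD4.negUnipotent K) : TopRow g := by
  rw [Sys.negUnipotent_eq S] at hg
  induction hg using Subgroup.closure_induction with
  | mem x hx =>
    obtain ⟨r, hr, t, rfl⟩ := hx
    exact topRow_x (by simpa [show chevD4.nroots = 24 from rfl] using hr) t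
  | one => intro x; simp
  | mul x y _ _ hx hy => intro z; rw [Units.val_mul, ← Matrix.mulVec_mulVec, hx, hy]
  | inv x _ hx =>
    intro z
    rw [← hx ((x⁻¹ : GL chevD4.Idx K).1 *ᵥ z), Matrix.mulVec_mulVec, ← Units.val_mul, mul_inv_cancel,
      Units.val_one, Matrix.one_mulVec]

theorem tor_bv (c : ℕ → Kˣ) {s : ℕ} (hs : s < chevD4.nroots) :
    (tor chevD4 K c : Matrix chevD4.Idx chevD4.Idx K) *ᵥ bv chevD4 K (chevD4.rank + s) =
      (torusVal chevD4 c s : K) • bv chevD4 K (chevD4.rank + s) := by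
  rw [Sys.tor_val S, dg_bve _ hs]

theorem torusVal_top (c : ℕ → Kˣ) : torusVal chevD4 c 23 = c 1 := by
  rw [D4.torusVal4 c 23 0 1 0 0 (by decide +kernel) (by decide +kernel) (by decide +kernel)
    (by decide +kernel)]
  simp

theorem tor_top (c : ℕ → Kˣ) :
    (tor chevD4 K c : Matrix chevD4.Idx chevD4.Idx K) *ᵥ eTop K = (c 1 : K) • eTop K := by
  rw [eTop, tor_bv c (by decide), torusVal_top]

theorem nG_bv {i s : ℕ} (hi : i < chevD4.rank) (hs : s < chevD4.nroots) :
    (Sys.nG S K (chevD4.simple i) 1 : Matrix chevD4.Idx chevD4.Idx K) *ᵥ bv chevD4 K (chevD4.rank + s) =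
      (Sys.eta S i s : K) • bv chevD4 K (chevD4.rank + chevD4.reflectRoot i s) := by
  rw [Sys.nG_val, Sys.n_bv S K hi hs]

theorem nL_bv {L : List ℕ} (hL : ∀ i ∈ L, i < chevD4.rank) {s : ℕ} (hs : s < chevD4.nroots) :
    ∃ e : K, e ≠ 0 ∧ (nL S K L : Matrix chevD4.Idx chevD4.Idx K) *ᵥ bv chevD4 K (chevD4.rank + s) =
      e • bv chevD4 K (chevD4.rank + wL chevD4 L s) := by
  induction L with
  | nil => exact ⟨1, one_ne_zero, by simp [nL, wL]⟩
  | cons i L ih =>
    have hi := hL i (List.mem_cons_self ..)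
    have hL' : ∀ j ∈ L, j < chevD4.rank := fun j hj => hL j (List.mem_cons_of_mem _ hj)
    obtain ⟨e, he, h⟩ := ih hL'
    have hlt : wL chevD4 L s < chevD4.nroots := wL_lt S hL' hs
    refine ⟨e * (Sys.eta S i (wL chevD4 L s) : K), mul_ne_zero he fun h0 => ?_, ?_⟩
    · have := Sys.eta_cast S K hi hlt
      rw [h0, mul_zero] at this
      exact zero_ne_one this
    · rw [nL_cons, Units.val_mul, ← Matrix.mulVec_mulVec, h, Matrix.mulVec_smul, nG_bv hi hlt, smul_smul]
      rfl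

theorem short_top :
    (nL S K (D4.wdN [0]) : Matrix chevD4.Idx chevD4.Idx K) *ᵥ eTop K = eTop K := by
  have hw : D4.wdN [0] = [0, 2, 3] := rfl
  rw [hw]
  simp only [nL, List.map_cons, List.map_nil, List.prod_cons, List.prod_nil, mul_one, Units.val_mul,
    ← Matrix.mulVec_mulVec, eTop]
  rw [nG_bv (by decide) (by decide), Matrix.mulVec_smul,
    show chevD4.reflectRoot 3 23 = 23 by decide +kernel, show Sys.eta S 3 23 = 1 by decide +kernel,
    nG_bv (by decide) (by decide), show chevD4.reflectRoot 2 23 = 23 by decide +kernel,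
    show Sys.eta S 2 23 = 1 by decide +kernel]
  simp only [Int.cast_one, one_smul]
  rw [nG_bv (by decide) (by decide), show chevD4.reflectRoot 0 23 = 23 by decide +kernel,
    show Sys.eta S 0 23 = 1 by decide +kernel, Int.cast_one, one_smul]

theorem n0_conj_neg {u : GL chevD4.Idx K} (hu : u ∈ chevD4.posUnipotent K) :
    n0 K * u * (n0 K)⁻¹ ∈ chevD4.negUnipotent K := by
  rw [Sys.posUnipotent_eq S] at hu
  induction hu using Subgroup.closure_induction with
  | mem x hx =>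
    obtain ⟨r, ⟨h12, h24⟩, t, rfl⟩ := hx
    obtain ⟨e, -, hconj⟩ := nL_conj (K := K) (wdN_lt [0, 1, 0, 1, 0, 1]) h24
    rw [n0, w0L, hconj, mul_inv_cancel_right, Sys.negUnipotent_eq S]
    exact Subgroup.subset_closure ⟨_, (w0L_neg ⟨r, h24⟩).1 h12, _, rfl⟩
  | one => simp
  | mul x y _ _ hx hy => simpa [mul_assoc] using mul_mem hx hy
  | inv x _ hx => simpa [mul_assoc] using inv_mem hx

variable {q : ℕ} (hq : IsPrimePow q) (hK : Fintype.card K = q ^ 3)
include hq hK

local notation "G1" => chevD4.genSubgroup K (d4Words K q)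

theorem uneg_topRow {v : GL chevD4.Idx K} (hv : v ∈ Uneg K q) : TopRow v := by
  obtain ⟨u, hu, rfl⟩ := hv
  exact topRow_neg (n0_conj_neg hu.1)

/-- The coefficient of an element of a Birkhoff cell. -/
theorem corner_cell {v : GL chevD4.Idx K} (hv : v ∈ Uneg K q) (m : GL chevD4.Idx K)
    {u : GL chevD4.Idx K} (hu : u ∈ Upos K q) : corner (v * m * u) = corner m := by
  rw [corner_eq, corner_eq, Units.val_mul, Units.val_mul, ← Matrix.mulVec_mulVec,
    ← Matrix.mulVec_mulVec, pos_top hu.1, uneg_topRow hq hK hv]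

theorem wW_reduce (M : List (Fin 2)) : ∃ k : Fin D4.weylWords.length,
    (D4.tw hq hK).wW M = (D4.tw hq hK).wW (D4.weylWords.get k) := by
  induction M with
  | nil => exact ⟨⟨0, by decide⟩, rfl⟩
  | cons i M ih =>
    obtain ⟨k, hk⟩ := ih
    obtain ⟨k', hk'⟩ := D4.weyl_closed hq hK i k
    exact ⟨k', by rw [Tw.wW_cons, hk, hk']⟩

/-- The Birkhoff decomposition. -/
theorem birkhoff {g : GL chevD4.Idx K} (hg : g ∈ G1) : ∃ v ∈ Uneg K q, ∃ c ∈ D4.Cset K q,
    ∃ k : Fin D4.weylWords.length, ∃ u ∈ Upos K q,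
      g = v * (tor chevD4 K c * nL S K (D4.wdN (D4.weylWords.get k))) * u := by
  have hn := n0_mem hq hK
  obtain ⟨b, hb, L, b', hb', e⟩ := (D4.tw hq hK).cover (g := (n0 K)⁻¹ * g) (mul_mem (inv_mem hn) hg)
  have hnW : ∀ M, ((D4.tw hq hK).nW M : GL chevD4.Idx K) = nL S K (D4.wdN M) := fun M => by
    rw [Tw.nW, wN_nL, List.map_flatMap]
    simp [D4.wdN, D4.blkF_val, D4.tw]
  obtain ⟨u₁, hu₁, t₁, ht₁, rfl⟩ := (D4.tw hq hK).mem_B1.1 hb
  obtain ⟨u₂, hu₂, t₂, ht₂, rfl⟩ := (D4.tw hq hK).mem_B1.1 hb'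
  set W : List (Fin 2) := [0, 1, 0, 1, 0, 1]
  obtain ⟨k, hk⟩ := wW_reduce hq hK (W ++ L)
  obtain ⟨s₁, hs₁⟩ : ∃ s, s ∈ (D4.tw hq hK).T ∧
      (((D4.tw hq hK).nW (W ++ L)) : GL chevD4.Idx K) =
        s * (D4.tw hq hK).nW (D4.weylWords.get k) := by
    set R := (D4.weylWords.get k).reverse
    have a1 := (D4.tw hq hK).nW_mem_T (L := (W ++ L) ++ R)
      (by rw [Tw.wW_append, Tw.wW_reverse, hk, mul_inv_cancel])
    have a2 := (D4.tw hq hK).nW_mem_T (L := D4.weylWords.get k ++ R)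
      (by rw [Tw.wW_append, Tw.wW_reverse, mul_inv_cancel])
    refine ⟨_, mul_mem a1 (inv_mem a2), ?_⟩
    simp only [Tw.nW_append, Subgroup.coe_mul]
    group
  have h1 := ((D4.tw hq hK).T_word_conj W ht₁).1
  have h2 := ((D4.tw hq hK).T_word_conj (D4.weylWords.get k) ht₂).1
  obtain ⟨c, hc, ec⟩ := mul_mem (mul_mem h1 hs₁.1) h2
  refine ⟨n0 K * u₁ * (n0 K)⁻¹, ⟨u₁, hu₁, rfl⟩, c, hc, k, t₂⁻¹ * u₂ * t₂, ?_, ?_⟩
  · have := (Subgroup.mem_normalizer_iff.1 ((D4.tw hq hK).T_normalizes (inv_mem ht₂)) u₂).1 hu₂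
    rwa [inv_inv] at this
  · have eW : ((D4.tw hq hK).nW W : GL chevD4.Idx K) = n0 K := hnW W
    rw [ec, ← hnW]
    calc g = n0 K * ((n0 K)⁻¹ * g) := by group
      _ = n0 K * (u₁ * t₁ * (D4.tw hq hK).nW L * (u₂ * t₂)) := by rw [e]
      _ = n0 K * u₁ * (n0 K)⁻¹ * (n0 K * t₁ * (n0 K)⁻¹) *
          ((D4.tw hq hK).nW (W ++ L) : GL chevD4.Idx K) * t₂ * (t₂⁻¹ * u₂ * t₂) := by
        rw [Tw.nW_append, Subgroup.coe_mul, eW]; group
      _ = _ := by rw [hs₁.2, eW]; group

end CfsgLib.D4Cover
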