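import Cfsg.Agent.D4Cover.Birkhoff
import Cfsg.Agent.TwistedLie.D4Heisenberg65

/-!
Every non-identity element of `³D₄(q)` has conjugates with every prescribed corner coefficient.
-/

set_option autoImplicit false
set_option linter.unusedSectionVars false
set_option linter.unusedFintypeInType false

namespace CfsgLib.D4Cover

open Cfsg.Lie CfsgLib.Chevalley CfsgLib.TwistedLie
open scoped Matrix

local notation "S" => sysD4

/-- The conjugating words. -/
def moveWord : ℕ → List (ℕ × List Mon)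
  | 22 => [(14, [(1, 1, 0)])]
  | 14 => [(22, [(1, 1, 0)])]
  | 9 => [(14, [(1, 1, 0)]), (23, [(1, 0, 0)])]
  | 1 => [(22, [(1, 1, 0)]), (23, [(1, 0, 0)])]
  | _ => [(14, [(1, 1, 0)]), (22, [(1, 0, 0)]), (23, [(1, 0, 0)])]

variable {K : Type*} [Field K] [Fintype K] {q : ℕ} (hq : IsPrimePow q) (hK : Fintype.card K = q ^ 3)
include hq hK

local notation "G1" => chevD4.genSubgroup K (d4Words K q)

theorem corner_nL (k : Fin D4.weylWords.length) :
    corner (nL S K (D4.wdN (D4.weylWords.get k))) = 0 ∨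
      ((k = ⟨0, by decide⟩ ∨ k = ⟨1, by decide⟩) ∧ corner (nL S K (D4.wdN (D4.weylWords.get k))) = 1) := by
  by_cases hk : k = ⟨0, by decide⟩ ∨ k = ⟨1, by decide⟩
  · refine Or.inr ⟨hk, ?_⟩
    rcases hk with rfl | rfl
    · rw [corner_eq, show D4.wdN (D4.weylWords.get ⟨0, by decide⟩) = [] from rfl]
      simp [nL, eTop, bv_inr_apply]
    · rw [corner_eq, show D4.weylWords.get ⟨1, by decide⟩ = [0] from rfl, short_top, eTop, bv_inr_apply]
      simp
  · left
    push Not at hk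
    have hne : wL chevD4 (D4.wdN (D4.weylWords.get k)) 23 ≠ 23 :=
      (by decide +kernel : ∀ k : Fin D4.weylWords.length, k ≠ ⟨0, by decide⟩ → k ≠ ⟨1, by decide⟩ →
        wL chevD4 (D4.wdN (D4.weylWords.get k)) 23 ≠ 23) k hk.1 hk.2
    obtain ⟨e, -, h⟩ := nL_bv (K := K) (wdN_lt (D4.weylWords.get k)) (show 23 < chevD4.nroots by decide)
    rw [corner_eq, eTop, h, Pi.smul_apply, bv_inr_apply, if_neg fun h' => hne h'.symm, smul_zero]

theorem corner_torus (c : ℕ → Kˣ) (g : GL chevD4.Idx K) :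
    corner (tor chevD4 K c * g) = (c 1 : K) * corner g := by
  unfold corner
  rw [Units.val_mul, Sys.tor_val S, dg, Matrix.diagonal_mul]
  simp [torusVal_top]

theorem corner_mem_fixed {g : GL chevD4.Idx K} (hg : g ∈ G1) : corner g ^ q = corner g := by
  obtain ⟨v, hv, c, hc, k, u, hu, rfl⟩ := birkhoff hq hK hg
  rw [corner_cell hq hK hv _ hu, corner_torus hq hK]
  rcases corner_nL hq hK k with h | ⟨-, h⟩
  · rw [h, mul_zero, zero_pow (by have := hq.two_le; omega)]
  · rw [h, mul_one]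
    exact_mod_cast congrArg Units.val hc.1

/-- The non-zero corners belong to the two cells of the parabolic subgroup. -/
theorem exists_cell {g : GL chevD4.Idx K} (hg : g ∈ G1) {a : K} (ha : a ≠ 0) (hga : corner g = a) :
    ∃ v ∈ Uneg K q, ∃ c ∈ D4.Cset K q, ∃ u ∈ Upos K q, (c 1 : K) = a ∧
      (g = v * tor chevD4 K c * u ∨ g = v * (tor chevD4 K c * nL S K (D4.wdN [0])) * u) := by
  obtain ⟨v, hv, c, hc, k, u, hu, rfl⟩ := birkhoff hq hK hg
  rw [corner_cell hq hK hv _ hu, corner_torus hq hK] at hga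
  rcases corner_nL hq hK k with h | ⟨hk, h⟩
  · rw [h, mul_zero] at hga; exact absurd hga.symm ha
  · rw [h, mul_one] at hga
    refine ⟨v, hv, c, hc, u, hu, hga, ?_⟩
    rcases hk with rfl | rfl
    · left; simp [D4.weylWords, D4.wdN, nL]
    · right; rfl

/-- A non-identity element has a conjugate moving the highest root line. -/
theorem exists_moving {g : GL chevD4.Idx K} (hg : g ∈ G1) (hg1 : g ≠ 1) :
    ∃ h ∈ G1, ∀ z : K, ((h * g * h⁻¹ : GL chevD4.Idx K) : Matrix chevD4.Idx chevD4.Idx K) *ᵥ eTop K ≠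
      z • eTop K := by
  haveI : IsSimpleGroup G1 := (D4.simpleGroup hq hK).1
  by_contra hcon
  push Not at hcon
  let P : Subgroup G1 :=
    { carrier := {x | ∃ z : K, z ≠ 0 ∧ (x.1 : Matrix chevD4.Idx chevD4.Idx K) *ᵥ eTop K = z • eTop K}
      one_mem' := ⟨1, one_ne_zero, by simp⟩
      mul_mem' := by
        rintro x y ⟨z, hz, hx⟩ ⟨z', hz', hy⟩
        exact ⟨z' * z, mul_ne_zero hz' hz, by
          rw [Subgroup.coe_mul, Units.val_mul, ← Matrix.mulVec_mulVec, hy, Matrix.mulVec_smul, hx, smul_smul]⟩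
      inv_mem' := by
        rintro x ⟨z, hz, hx⟩
        refine ⟨z⁻¹, inv_ne_zero hz, ?_⟩
        have h2 := congrArg (fun w => ((x.1⁻¹ : GL chevD4.Idx K) : Matrix chevD4.Idx chevD4.Idx K) *ᵥ w) hx
        simp only [Matrix.mulVec_mulVec, ← Units.val_mul, inv_mul_cancel, Units.val_one, Matrix.one_mulVec,
          Matrix.mulVec_smul] at h2
        rw [Subgroup.coe_inv]
        conv_rhs => rw [h2, smul_smul, inv_mul_cancel₀ hz, one_smul] }
  have htop : eTop K ≠ 0 := fun h => by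
    have := congrFun h (Sum.inr ⟨23, by decide⟩)
    rw [eTop, bv_inr_apply] at this
    simp at this
  have hin : (⟨g, hg⟩ : G1) ∈ P.normalCore := fun y => by
    obtain ⟨z, hz⟩ := hcon y.1 y.2
    refine ⟨z, fun h0 => htop ?_, by simpa using hz⟩
    rw [h0, zero_smul] at hz
    have h2 := congrArg (fun w => (((y.1 * g * y.1⁻¹)⁻¹ : GL chevD4.Idx K) :
      Matrix chevD4.Idx chevD4.Idx K) *ᵥ w) hz
    simp only [Matrix.mulVec_mulVec, ← Units.val_mul, inv_mul_cancel, Units.val_one, Matrix.one_mulVec,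
      Matrix.mulVec_zero] at h2
    exact h2
  rcases Subgroup.Normal.eq_bot_or_eq_top (Subgroup.normalCore_normal P) with h | h
  · rw [h, Subgroup.mem_bot] at hin
    exact hg1 (congrArg Subtype.val hin)
  · have hn : (⟨_, nL_mem hq hK [1]⟩ : G1) ∈ P := Subgroup.normalCore_le P (h ▸ Subgroup.mem_top _)
    obtain ⟨z, hz, hn⟩ := hn
    obtain ⟨e, he, h'⟩ := nL_bv (K := K) (wdN_lt [1]) (show 23 < chevD4.nroots by decide)
    rw [show wL chevD4 (D4.wdN [1]) 23 = 22 by decide +kernel] at h'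
    have := congrFun (h'.symm.trans hn) (Sum.inr ⟨23, by decide⟩)
    simp [eTop, bv_inr_apply] at this
    exact hz this.symm

/-- Every value of the fixed field is the corner coefficient of a conjugate. -/
theorem exists_corner {g : GL chevD4.Idx K} (hg : g ∈ G1) (hg1 : g ≠ 1) {a : K} (ha : a ^ q = a) :
    ∃ h ∈ G1, corner (h * g * h⁻¹) = a := by
  obtain ⟨h, hh, hmove⟩ := exists_moving hq hK hg hg1
  have hgG : h * g * h⁻¹ ∈ G1 := mul_mem (mul_mem hh hg) (inv_mem hh)
  obtain ⟨b, hb, L, b', hb', e⟩ := (D4.tw hq hK).cover hgG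
  set γ := wL chevD4 (D4.wdN L) 23 with hγdef
  have hbor : ∀ b ∈ (D4.tw hq hK).B1, ∃ z : K, z ≠ 0 ∧
      (b : Matrix chevD4.Idx chevD4.Idx K) *ᵥ eTop K = z • eTop K := by
    intro b hb
    obtain ⟨u, hu, t, ⟨c, -, rfl⟩, rfl⟩ := (D4.tw hq hK).mem_B1.1 hb
    exact ⟨c 1, Units.ne_zero _, by
      rw [Units.val_mul, ← Matrix.mulVec_mulVec, tor_top, Matrix.mulVec_smul, pos_top hu.1]⟩
  have hnW : ((D4.tw hq hK).nW L : GL chevD4.Idx K) = nL S K (D4.wdN L) := by
    rw [Tw.nW, wN_nL, List.map_flatMap]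
    simp [D4.wdN, D4.blkF_val, D4.tw]
  have hbG : ∀ b ∈ (D4.tw hq hK).B1, b ∈ G1 := fun b hb => ((D4.tw hq hK).B1_le hb).2
  set g2 := (nL S K (D4.wdN L)) * (b' * b) with hg2
  have hg2G : g2 ∈ G1 := mul_mem (nL_mem hq hK L) (mul_mem (hbG _ hb') (hbG _ hb))
  have hconj : g2 = b⁻¹ * (h * g * h⁻¹) * b := by rw [e, hnW, hg2]; group
  obtain ⟨z, hz, hzb⟩ := hbor _ (mul_mem hb' hb)
  obtain ⟨e', he', hn⟩ := nL_bv (K := K) (wdN_lt L) (show 23 < chevD4.nroots by decide)
  have hcol : (g2 : Matrix chevD4.Idx chevD4.Idx K) *ᵥ eTop K =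
      (z * e') • bv chevD4 K (chevD4.rank + γ) := by
    rw [hg2, Units.val_mul, ← Matrix.mulVec_mulVec, hzb, Matrix.mulVec_smul, eTop, hn, smul_smul]
  have hγ : γ ∈ ([22, 14, 9, 1, 0] : List ℕ) := by
    have hne : γ ≠ 23 := fun h23 => by
      obtain ⟨z1, -, hz1⟩ := hbor _ hb
      obtain ⟨z2, -, hz2⟩ := hbor _ hb'
      refine hmove (z2 * (e' * z1)) ?_
      rw [e, hnW, Units.val_mul, Units.val_mul, ← Matrix.mulVec_mulVec, ← Matrix.mulVec_mulVec, hz2,
        Matrix.mulVec_smul, eTop, hn, ← hγdef, h23, ← eTop, smul_smul, Matrix.mulVec_smul, hz1, smul_smul,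
        mul_assoc]
    obtain ⟨k, hk⟩ := wW_reduce hq hK L
    have h2 := congrArg (fun σ : Equiv.Perm (Fin chevD4.nroots) => (σ ⟨23, by decide⟩ : ℕ)) hk
    simp only [show (D4.tw hq hK).wW = fun L => Sys.wperm S (L.flatMap D4.blkF) from rfl,
      D4.wperm_flat] at h2
    rw [hγdef, h2] at hne ⊢
    exact (by decide +kernel : ∀ k : Fin D4.weylWords.length,
      wL chevD4 (D4.wdN (D4.weylWords.get k)) 23 ≠ 23 →
      wL chevD4 (D4.wdN (D4.weylWords.get k)) 23 ∈ ([22, 14, 9, 1, 0] : List ℕ)) k hne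
  set W := moveWord γ with hW
  let r : K → GL chevD4.Idx K := fun t => Sys.wG S K (W.map fun e => (e.1, pev K t 0 e.2))
  obtain ⟨s, d, hs, hfil⟩ : ∃ s d : ℤ, (s = 1 ∨ s = -1) ∧
      ((evalCol chevD4 W (chevD4.rank + γ)).filter fun y => decide (y.1 = 27)) =
        (if d = 0 then [] else [(27, d, 0, 0)]) ++ [(27, s, 1, 0)] := by
    simp only [List.mem_cons, List.not_mem_nil, or_false] at hγ
    rcases hγ with h | h | h | h | h <;> rw [hW, h]
    · exact ⟨1, 0, Or.inl rfl, by decide +kernel⟩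
    · exact ⟨-1, 0, Or.inr rfl, by decide +kernel⟩
    · exact ⟨-1, 0, Or.inr rfl, by decide +kernel⟩
    · exact ⟨-1, 0, Or.inr rfl, by decide +kernel⟩
    · exact ⟨-1, -1, Or.inr rfl, by decide +kernel⟩
  have hWlt : ∀ e ∈ W, e.1 < chevD4.nroots ∧ (e.1 = 14 ∨ e.1 = 22 ∨ e.1 = 23) ∧
      (e.2 = [(1, 1, 0)] ∨ e.2 = [(1, 0, 0)]) := by
    simp only [List.mem_cons, List.not_mem_nil, or_false] at hγ
    rcases hγ with h | h | h | h | h <;> rw [hW, h] <;> decide
  have hrG : ∀ t : K, t ^ q = t → r t ∈ Upos K q := fun t ht => by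
    refine list_prod_mem fun y hy => ?_
    obtain ⟨y', hy', rfl⟩ := List.mem_map.1 hy
    obtain ⟨y'', hy'', rfl⟩ := List.mem_map.1 hy'
    obtain ⟨hlt, hroot, hval⟩ := hWlt _ hy''
    refine ⟨D4.pos_of _ (by rcases hroot with h | h | h <;> rw [h] <;> norm_num) hlt _, ?_⟩
    refine D4.fix_pos_mem hq hK hroot ?_
    rcases hval with h | h <;> rw [h] <;> simp [pev, ht]
  have hval : ∀ t : K, t ^ q = t → corner (r t * g2 * (r t)⁻¹) = z * e' * ((s : K) * t + (d : K)) := by
    intro t ht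
    rw [corner_eq, Units.val_mul, Units.val_mul, ← Matrix.mulVec_mulVec, ← Matrix.mulVec_mulVec,
      pos_top (inv_mem (hrG t ht).1), hcol, Matrix.mulVec_smul, Pi.smul_apply, Sys.wG_val,
      vev_evalCol (Sys.wf S) t 0 W (fun e he => (hWlt e he).1)]
    have hl : ∀ l : List (ℕ × Mon), vev chevD4 K t 0 l (Sum.inr ⟨23, by decide⟩) =
        ((l.filter fun y => decide (y.1 = 27)).map fun y =>
          (y.2.1 : K) * t ^ y.2.2.1 * (0 : K) ^ y.2.2.2).sum := by
      intro l
      induction l with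
      | nil => simp [vev]
      | cons a l ih =>
        rw [vev_cons, Pi.add_apply, ih, List.filter_cons]
        by_cases h : a.1 = 27 <;>
          simp [h, bv, enc, show chevD4.rank = 4 from rfl, eq_comm]
    rw [hl, hfil]
    by_cases hd : d = 0 <;> simp [hd, add_comm]
  have hze : (z * e') ^ q = z * e' := by
    have hmem : ∀ t : K, t ^ q = t → (z * e' * ((s : K) * t + (d : K))) ^ q = z * e' * ((s : K) * t + (d : K)) :=
      fun t ht => by
        rw [← hval t ht]
        exact corner_mem_fixed hq hK (mul_mem (mul_mem (hrG t ht).2 hg2G) (inv_mem (hrG t ht).2))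
    have h0 := hmem 0 (zero_pow (by have := hq.two_le; omega))
    have h1 := hmem 1 (one_pow q)
    have hd : ((s : K) * 1 + (d : K)) ^ q = (s : K) * 1 + (d : K) := by
      rw [← D4.phi_apply hq hK]; simp
    by_cases hd0 : ((s : K) * 1 + (d : K)) = 0
    · have hs0 : (s : K) ≠ 0 := by rcases hs with rfl | rfl <;> simp
      have hdne : (d : K) ≠ 0 := fun hh => hs0 (by rw [hh, add_zero, mul_one] at hd0; exact hd0)
      rw [mul_zero, zero_add, mul_pow,
        show (d : K) ^ q = d by rw [← D4.phi_apply hq hK]; simp] at h0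
      exact mul_right_cancel₀ hdne h0
    · rw [mul_pow, hd] at h1
      exact mul_right_cancel₀ hd0 h1
  obtain ⟨t, ht, hta⟩ : ∃ t : K, t ^ q = t ∧ z * e' * ((s : K) * t + (d : K)) = a := by
    refine ⟨(s : K) * (a / (z * e') - (d : K)), ?_, ?_⟩
    · rw [← D4.phi_apply hq hK] at hze ha ⊢
      simp [map_sub, map_div₀, hze, ha]
    · have hzn : z * e' ≠ 0 := mul_ne_zero hz he'
      have hss : (s : K) * (s : K) = 1 := by rcases hs with rfl | rfl <;> simp
      rw [← mul_assoc (s : K), hss, one_mul, sub_add_cancel, mul_div_cancel₀ _ hzn]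
  refine ⟨r t * b⁻¹ * h, mul_mem (mul_mem (hrG t ht).2 (inv_mem (hbG _ hb))) hh, ?_⟩
  rw [← hta, ← hval t ht, hconj]
  congr 1
  group

end CfsgLib.D4Cover
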