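import Cfsg.Agent.D4Cover.RankOne

/-!
A split regular semisimple class of `³D₄(q)`, `q ≥ 4`, whose square covers the non-identity elements.
-/

set_option autoImplicit false
set_option linter.unusedSectionVars false
set_option linter.unusedFintypeInType false

namespace CfsgLib.D4Cover

open Cfsg.Lie CfsgLib.Chevalley CfsgLib.TwistedLie

local notation "S" => sysD4

theorem cartan_neg_chk : ∀ r : Fin chevD4.nroots, ∀ j < chevD4.rank,
    chevD4.cartan j (chevD4.neg (r : ℕ)) = -chevD4.cartan j (r : ℕ) := by
  decide +kernel

theorem torusVal_neg' {F : Type*} [Field F] (c : ℕ → Fˣ) {r : ℕ} (hr : r < chevD4.nroots) :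
    torusVal chevD4 c (chevD4.neg r) = (torusVal chevD4 c r)⁻¹ := by
  rw [torusVal, torusVal, ← Finset.prod_inv_distrib]
  refine Finset.prod_congr rfl fun j hj => ?_
  rw [cartan_neg_chk ⟨r, hr⟩ j (Finset.mem_range.1 hj), zpow_neg]

variable {K : Type*} [Field K] [Fintype K] {q : ℕ} (hq : IsPrimePow q) (hK : Fintype.card K = q ^ 3)
include hq hK

local notation "G1" => chevD4.genSubgroup K (d4Words K q)

/-- The parameters `(x, a)` give a torus parameter. -/
noncomputable def par (q : ℕ) (x a : Kˣ) : ℕ → Kˣ := Pi.mulSingle 1 a * D4.cJ q x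

theorem par_mem (x a : Kˣ) (ha : a ^ q = a) : par q x a ∈ D4.Cset K q :=
  mul_mem (single_mem hq hK ha) (D4.cJ_mem_Cset hq hK x)

theorem regular_par (x a : Kˣ) (ha : (a : K) ^ q = a) (h1 : (a : K) ≠ 1)
    (h2 : (x : K) ^ 2 ≠ a) (h3 : (a : K) ≠ (x : K) * (x : K) ^ q * (x : K) ^ (q ^ 2))
    (h4 : (a : K) * a ≠ (x : K) * (x : K) ^ q * (x : K) ^ (q ^ 2))
    (h5 : (a : K) * (x : K) ^ 2 ≠ (x : K) * (x : K) ^ q * (x : K) ^ (q ^ 2))
    (h6 : (x : K) * (x : K) ^ q ≠ (x : K) ^ (q ^ 2)) : Regular (par q x a) := by
  have hx := x.ne_zero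
  have ha0 := a.ne_zero
  set X := (x : K) with hX
  set A := (a : K) with hA
  set Y := X ^ q with hY
  set Z := X ^ (q ^ 2) with hZ
  have hY0 : Y ≠ 0 := pow_ne_zero _ hx
  have hZ0 : Z ≠ 0 := pow_ne_zero _ hx
  have hfA : D4.phi hq hK A = A := by rw [D4.phi_apply, ha]
  have hfX : D4.phi hq hK X = Y := D4.phi_apply hq hK X
  have hfY : D4.phi hq hK Y = Z := by rw [← hfX, phi_sq hq hK]
  have hfZ : D4.phi hq hK Z = X := by
    rw [← hfY, ← hfX, D4.phi_apply, D4.phi_apply, D4.phi_apply, D4.pow_q3 hq hK]
  have hinj := (D4.phi hq hK).injective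
  have e2 : Y * Y ≠ A := fun h => h2 (hinj (hinj (hinj (by
    simp only [sq, map_mul, hfX, hfY, hfZ, hfA]
    have := congrArg (fun t => D4.phi hq hK (D4.phi hq hK t)) h
    simp only [map_mul, hfX, hfY, hfZ, hfA] at this
    exact this))))
  have e2' : Z * Z ≠ A := fun h => e2 (hinj (by
    simp only [map_mul, hfY, hfA]; exact h))
  have e5 : A * (Y * Y) ≠ X * Y * Z := fun h => h5 (hinj (by
    simp only [sq, map_mul, hfX, hfY, hfZ, hfA]
    linear_combination h))
  have e5' : A * (Z * Z) ≠ X * Y * Z := fun h => e5 (hinj (by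
    simp only [map_mul, hfX, hfY, hfZ, hfA]
    linear_combination h))
  have e6 : Y * Z ≠ X := fun h => h6 (hinj (by
    simp only [map_mul, hfX, hfY, hfZ]; exact h))
  have e6' : Z * X ≠ Y := fun h => e6 (hinj (by
    simp only [map_mul, hfX, hfY, hfZ]; exact h))
  have hv : ∀ r (c0 c1 c2 c3 : ℤ), chevD4.cartan 0 r = c0 → chevD4.cartan 1 r = c1 →
      chevD4.cartan 2 r = c2 → chevD4.cartan 3 r = c3 → torusVal chevD4 (par q x a) r = 1 →
      X ^ c0 * A ^ c1 * Y ^ c2 * Z ^ c3 = 1 := by
    intro r c0 c1 c2 c3 g0 g1 g2 g3 he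
    have hv := congrArg Units.val (D4.torusVal4 (par q x a) r c0 c1 c2 c3 g0 g1 g2 g3)
    rw [he] at hv
    simp [par, D4.cJ] at hv
    exact hv.symm
  have hpos : ∀ r < chevD4.nroots, 12 ≤ r → torusVal chevD4 (par q x a) r ≠ 1 := by
    intro r hr h12 he
    have h24 : r < 24 := hr
    interval_cases r
    · have := hv 12 (0) (-1) (0) (2) (by decide +kernel) (by decide +kernel)
        (by decide +kernel) (by decide +kernel) he
      refine e2' ?_
      simp only [zpow_neg, zpow_two, zpow_one, zpow_zero, mul_one, one_mul, sq] at this ⊢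
      field_simp at this
      first
        | linear_combination this
        | linear_combination -this
        | linear_combination X * this
        | linear_combination Y * this
        | linear_combination Z * this
    · have := hv 13 (0) (-1) (2) (0) (by decide +kernel) (by decide +kernel)
        (by decide +kernel) (by decide +kernel) he
      refine e2 ?_
      simp only [zpow_neg, zpow_two, zpow_one, zpow_zero, mul_one, one_mul, sq] at this ⊢
      field_simp at this
      first
        | linear_combination this
        | linear_combination -this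
        | linear_combination X * this
        | linear_combination Y * this
        | linear_combination Z * this
    · have := hv 14 (-1) (2) (-1) (-1) (by decide +kernel) (by decide +kernel)
        (by decide +kernel) (by decide +kernel) he
      refine h4 ?_
      simp only [zpow_neg, zpow_two, zpow_one, zpow_zero, mul_one, one_mul, sq] at this ⊢
      field_simp at this
      first
        | linear_combination this
        | linear_combination -this
        | linear_combination X * this
        | linear_combination Y * this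
        | linear_combination Z * this
    · have := hv 15 (-1) (1) (-1) (1) (by decide +kernel) (by decide +kernel)
        (by decide +kernel) (by decide +kernel) he
      refine e5' ?_
      simp only [zpow_neg, zpow_two, zpow_one, zpow_zero, mul_one, one_mul, sq] at this ⊢
      field_simp at this
      first
        | linear_combination this
        | linear_combination -this
        | linear_combination X * this
        | linear_combination Y * this
        | linear_combination Z * this
    · have := hv 16 (-1) (1) (1) (-1) (by decide +kernel) (by decide +kernel)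
        (by decide +kernel) (by decide +kernel) he
      refine e5 ?_
      simp only [zpow_neg, zpow_two, zpow_one, zpow_zero, mul_one, one_mul, sq] at this ⊢
      field_simp at this
      first
        | linear_combination this
        | linear_combination -this
        | linear_combination X * this
        | linear_combination Y * this
        | linear_combination Z * this
    · have := hv 17 (-1) (0) (1) (1) (by decide +kernel) (by decide +kernel)
        (by decide +kernel) (by decide +kernel) he
      refine e6 ?_
      simp only [zpow_neg, zpow_two, zpow_one, zpow_zero, mul_one, one_mul, sq] at this ⊢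
      field_simp at this
      first
        | linear_combination this
        | linear_combination -this
        | linear_combination X * this
        | linear_combination Y * this
        | linear_combination Z * this
    · have := hv 18 (2) (-1) (0) (0) (by decide +kernel) (by decide +kernel)
        (by decide +kernel) (by decide +kernel) he
      refine h2 ?_
      simp only [zpow_neg, zpow_two, zpow_one, zpow_zero, mul_one, one_mul, sq] at this ⊢
      field_simp at this
      first
        | linear_combination this
        | linear_combination -this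
        | linear_combination X * this
        | linear_combination Y * this
        | linear_combination Z * this
    · have := hv 19 (1) (1) (-1) (-1) (by decide +kernel) (by decide +kernel)
        (by decide +kernel) (by decide +kernel) he
      refine h5 ?_
      simp only [zpow_neg, zpow_two, zpow_one, zpow_zero, mul_one, one_mul, sq] at this ⊢
      field_simp at this
      first
        | linear_combination this
        | linear_combination -this
        | linear_combination X * this
        | linear_combination Y * this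
        | linear_combination Z * this
    · have := hv 20 (1) (0) (-1) (1) (by decide +kernel) (by decide +kernel)
        (by decide +kernel) (by decide +kernel) he
      refine e6' ?_
      simp only [zpow_neg, zpow_two, zpow_one, zpow_zero, mul_one, one_mul, sq] at this ⊢
      field_simp at this
      first
        | linear_combination this
        | linear_combination -this
        | linear_combination X * this
        | linear_combination Y * this
        | linear_combination Z * this
    · have := hv 21 (1) (0) (1) (-1) (by decide +kernel) (by decide +kernel)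
        (by decide +kernel) (by decide +kernel) he
      refine h6 ?_
      simp only [zpow_neg, zpow_two, zpow_one, zpow_zero, mul_one, one_mul, sq] at this ⊢
      field_simp at this
      first
        | linear_combination this
        | linear_combination -this
        | linear_combination X * this
        | linear_combination Y * this
        | linear_combination Z * this
    · have := hv 22 (1) (-1) (1) (1) (by decide +kernel) (by decide +kernel)
        (by decide +kernel) (by decide +kernel) he
      refine h3 ?_
      simp only [zpow_neg, zpow_two, zpow_one, zpow_zero, mul_one, one_mul, sq] at this ⊢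
      field_simp at this
      first
        | linear_combination this
        | linear_combination -this
        | linear_combination X * this
        | linear_combination Y * this
        | linear_combination Z * this
    · have := hv 23 (0) (1) (0) (0) (by decide +kernel) (by decide +kernel)
        (by decide +kernel) (by decide +kernel) he
      refine h1 ?_
      simp only [zpow_neg, zpow_two, zpow_one, zpow_zero, mul_one, one_mul, sq] at this ⊢
      field_simp at this
      first
        | linear_combination this
        | linear_combination -this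
        | linear_combination X * this
        | linear_combination Y * this
        | linear_combination Z * this
  intro r hr h
  by_cases h12 : 12 ≤ r
  · exact hpos r hr h12 h
  · refine hpos (chevD4.neg r) ((Sys.wf S).neg_lt r hr) (neg_pos ⟨r, hr⟩ (not_le.1 h12)) ?_
    rw [torusVal_neg' _ hr, h, inv_one]

/-- A generator of the multiplicative group. -/
theorem exists_gen : ∃ y : Kˣ, ∀ k : ℕ, y ^ k = 1 ↔ q ^ 3 - 1 ∣ k := by
  classical
  obtain ⟨y, hy⟩ := IsCyclic.exists_generator (α := Kˣ)
  refine ⟨y, fun k => ?_⟩
  rw [← orderOf_dvd_iff_pow_eq_one, orderOf_eq_card_of_forall_mem_zpowers hy, Nat.card_eq_fintype_card,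
    Fintype.card_units, hK]

theorem Cset_congr {c d : ℕ → Kˣ} (h : ∀ r < chevD4.nroots, torusVal chevD4 c r = torusVal chevD4 d r) :
    tor chevD4 K c = tor chevD4 K d := by
  apply Units.ext
  rw [Sys.tor_val S, Sys.tor_val S]
  refine dg_congr fun s hs => ?_
  rw [h s hs]

/-- The longest element inverts the torus. -/
theorem n0_tor {c : ℕ → Kˣ} (hc : c ∈ D4.Cset K q) :
    n0 K * tor chevD4 K c * (n0 K)⁻¹ = (tor chevD4 K c)⁻¹ := by
  obtain ⟨d, hd, e⟩ := nL_tor hq hK [0, 1, 0, 1, 0, 1] hc
  rw [n0, w0L, e, mul_inv_cancel_right, ← map_inv]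
  refine Cset_congr hq hK fun r hr => ?_
  have h := nL_torusVal (wdN_lt [0, 1, 0, 1, 0, 1]) e ((Sys.wf S).neg_lt r hr)
  rw [show wL chevD4 (D4.wdN [0, 1, 0, 1, 0, 1]) (chevD4.neg r) = r by
    rw [show D4.wdN [0, 1, 0, 1, 0, 1] = w0L from rfl,
      show chevD4.neg r = ((⟨chevD4.neg r, (Sys.wf S).neg_lt r hr⟩ : Fin chevD4.nroots) : ℕ) from rfl,
      w0L_neg']
    exact (Sys.wf S).neg_neg r hr] at h
  rw [h, torusVal_neg' _ hr, torusVal, torusVal, ← Finset.prod_inv_distrib]
  simp [inv_zpow]

theorem orderOf_tor {p : ℕ} [Fact p.Prime] [CharP K p] (c : ℕ → Kˣ) :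
    ¬ p ∣ orderOf (tor chevD4 K c) := by
  classical
  intro h
  obtain ⟨n, hp, hn⟩ := FiniteField.card K p
  have h1 : tor chevD4 K c ^ (Fintype.card K - 1) = 1 := by
    rw [← map_pow]
    have : c ^ (Fintype.card K - 1) = 1 := funext fun i => by
      rw [Pi.pow_apply, ← Fintype.card_units, pow_card_eq_one]
      rfl
    rw [this, map_one]
  have h2 : p ∣ Fintype.card K - 1 := h.trans (orderOf_dvd_of_pow_eq_one h1)
  have h3 : p ∣ Fintype.card K := hn ▸ dvd_pow_self p n.pos.ne'
  have h4 : p ∣ Fintype.card K - (Fintype.card K - 1) := Nat.dvd_sub h3 h2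
  rw [Nat.sub_sub_self Fintype.card_pos] at h4
  exact hp.one_lt.ne' (Nat.dvd_one.1 h4)

/-- The class of `x` covers everything if some conjugates of `x` multiply to a good torus element. -/
theorem cover_of_reg {c d : ℕ → Kˣ} {e a : Kˣ} {x : GL chevD4.Idx K}
    (hc : c ∈ D4.Cset K q) (hd : d ∈ D4.Cset K q) (hrc : Regular c) (hrd : Regular d)
    (hcx : ∃ k ∈ G1, tor chevD4 K c = k * x * k⁻¹) (hdx : ∃ k ∈ G1, tor chevD4 K d = k * x * k⁻¹)
    (hcd : tor chevD4 K c * tor chevD4 K d = tor chevD4 K (D4.cJ q e) * dA a) (ha : a ^ q = a)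
    (hsc : ∀ z : K, z * z = a → z = 1 ∧ e = 1 ∧ a = 1) {g : GL chevD4.Idx K} (hg : g ∈ G1)
    (hg1 : g ≠ 1) : Covered G1 x g := by
  obtain ⟨h, hh, v, hv, u, hu, eq⟩ := gauss hq hK hg hg1 ha hsc
  refine Covered.of_conj hh ?_
  rw [eq, ← hcd]
  exact covered_mul (Upos_le hq hK) (Uneg_le hq hK) hv hu (free_neg hq hK hc hrc)
    (free_pos hq hK hd hrd) hcx hdx

theorem four_le_cover (h4 : 4 ≤ q) {p : ℕ} [Fact p.Prime] [CharP K p] : ∃ x ∈ G1, ¬ p ∣ orderOf x ∧
    ∀ g ∈ G1, g ≠ 1 → Covered G1 x g := by
  classical
  obtain ⟨y, hy⟩ := exists_gen hq hK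
  have hpow : ∀ i j : ℕ, j ≤ i → y ^ i = y ^ j → q ^ 3 - 1 ∣ i - j := by
    intro i j hij h
    rw [← hy, pow_sub _ hij, h, mul_inv_cancel]
  have hq2 : q ^ 2 = q * q := sq q
  have hq3 : q ^ 3 = q * q * q := by ring
  have hbig : 16 * q ≤ q ^ 3 := by rw [hq3]; exact Nat.mul_le_mul_right q (Nat.mul_le_mul h4 h4)
  obtain ⟨m, hm⟩ : ∃ m, m = q * q + q + 1 := ⟨_, rfl⟩
  have hm2 : m * (q - 1) = q ^ 3 - 1 := by
    obtain ⟨r, rfl⟩ : ∃ r, q = r + 1 := ⟨q - 1, by omega⟩
    have : (r + 1) ^ 3 = m * r + 1 := by subst hm; ring
    rw [this, Nat.add_sub_cancel, Nat.add_sub_cancel]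
  have hM1 : 4 * q + 4 < q ^ 3 - 1 := by omega
  have hfixP : ∀ i, (y ^ (m * i)) ^ q = y ^ (m * i) := by
    intro i
    have e : m * i * q = m * i + (q ^ 3 - 1) * i := by
      obtain ⟨r, rfl⟩ : ∃ r, q = r + 1 := ⟨q - 1, by omega⟩
      rw [← hm2, Nat.add_sub_cancel]
      ring
    rw [← pow_mul, e, pow_add, (hy _).2 (dvd_mul_right _ _), mul_one]
  have hA : ∀ N : Kˣ, ∃ a : Kˣ, a ^ q = a ∧ a ≠ 1 ∧ a ≠ N := by
    intro N
    have h1 : y ^ m ≠ 1 := fun h => by
      have h2 := Nat.le_of_dvd (by omega) ((hy m).1 h)
      have : m * 3 ≤ m * (q - 1) := Nat.mul_le_mul_left m (by omega)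
      omega
    have h2 : y ^ (m * 2) ≠ 1 := fun h => by
      have h2 := Nat.le_of_dvd (by omega) ((hy _).1 h)
      have : m * 3 ≤ m * (q - 1) := Nat.mul_le_mul_left m (by omega)
      omega
    by_cases hN : y ^ m = N
    · refine ⟨y ^ (m * 2), hfixP 2, h2, fun h => h1 ?_⟩
      rw [← hN, pow_mul, sq] at h
      exact mul_eq_right.1 h
    · exact ⟨y ^ m, by simpa using hfixP 1, h1, hN⟩
  have hN : ∀ x : Kˣ, (x : K) * (x : K) ^ q * (x : K) ^ (q ^ 2) = ((x ^ m : Kˣ) : K) := by
    intro x
    rw [Units.val_pow_eq_pow_val, hm, hq2, pow_add, pow_add, pow_one]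
    ring
  rcases Nat.even_or_odd q with hev | hodd
  · -- even characteristic
    obtain ⟨a, ha, ha1, -⟩ := hA 1
    set x := y ^ (q - 1) with hx
    have hNx : x ^ m = 1 := by rw [hx, ← pow_mul, mul_comm, hm2]; exact (hy _).2 dvd_rfl
    have h2K : (2 : K) = 0 := by
      obtain ⟨p', hp', hc', n, rfl⟩ := exists_char_pow hq three_ne_zero hK
      obtain ⟨heven, -⟩ := Nat.even_pow.1 hev
      have : p' = 2 := (Nat.prime_dvd_prime_iff_eq Nat.prime_two hp').1 (even_iff_two_dvd.1 heven) |>.symm
      subst this
      exact CharP.cast_eq_zero K 2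
    have hsq : ∀ z : K, z * z = 1 → z = 1 := fun z hz => by
      have : (z - 1) * (z - 1) = 0 := by linear_combination hz - (z - 1) * h2K
      exact sub_eq_zero.1 (mul_self_eq_zero.1 this)
    have hne : ∀ b : Kˣ, b ^ q = b → x ^ 2 ≠ b := fun b hb h => by
      rw [← h, ← pow_mul, hx, ← pow_mul, ← pow_mul] at hb
      have h' := hpow ((q - 1) * 2 * q) ((q - 1) * 2) (Nat.le_mul_of_pos_right _ (by omega))
        (by rw [mul_assoc]; exact hb)
      have hpos : 0 < (q - 1) * 2 * q - (q - 1) * 2 := by
        have : (q - 1) * 2 * 1 < (q - 1) * 2 * q := Nat.mul_lt_mul_of_pos_left (by omega) (by omega)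
        omega
      have h'' := Nat.le_of_dvd hpos h'
      have : (q - 1) * 2 * q ≤ q * 2 * q := Nat.mul_le_mul_right q (Nat.mul_le_mul_right 2 (Nat.sub_le q 1))
      have : q * 2 * q + 2 ≤ q ^ 3 := by
        have : 4 * (q * q) ≤ q * (q * q) := Nat.mul_le_mul_right _ h4
        rw [hq3]; nlinarith
      omega
    have hc := par_mem hq hK x a ha
    have haK : (a : K) ^ q = a := by exact_mod_cast congrArg Units.val ha
    have hN1 : (x : K) * (x : K) ^ q * (x : K) ^ (q ^ 2) = 1 := by rw [hN, hNx, Units.val_one]
    have hreg : Regular (par q x a) := by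
      refine regular_par hq hK x a haK (fun h => ha1 (Units.ext h))
        (fun h => hne a ha (Units.ext (by simpa using h))) ?_ ?_ ?_ ?_
      · rw [hN1]; exact fun h => ha1 (Units.ext h)
      · rw [hN1]; exact fun h => ha1 (Units.ext (hsq _ h))
      · rw [hN1]
        intro h
        refine hne a⁻¹ (by rw [inv_pow, ha]) (eq_inv_of_mul_eq_one_right (Units.ext ?_))
        simpa [sq] using h
      · intro h
        have hz : (x : K) ^ (q ^ 2) * (x : K) ^ (q ^ 2) = 1 := by
          rw [← hN1, h]
        have := hsq _ hz
        refine hne 1 (one_pow q) (Units.ext ?_)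
        have hinj := (D4.phi hq hK).injective
        have hz1 : (x : K) = 1 := hinj (hinj (by rw [phi_sq hq hK, this, map_one, map_one]))
        simp [hz1]
    refine ⟨_, tor_mem hq hK hc, orderOf_tor hq hK _, fun g hg hg1 => ?_⟩
    have hinv : Regular (par q x a)⁻¹ := fun r hr h => hreg r hr (by
      simpa [torusVal, Finset.prod_inv_distrib, inv_zpow] using h)
    refine cover_of_reg hq hK hc (inv_mem hc) hreg hinv ⟨1, one_mem _, by group⟩
      ⟨n0 K, n0_mem hq hK, by rw [n0_tor hq hK hc, map_inv]⟩ (e := 1) (a := 1) ?_ (one_pow q)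
      (fun z hz => ⟨hsq z (by simpa using hz), rfl, rfl⟩) hg hg1
    rw [← map_mul, mul_inv_cancel, map_one]
    simp [D4.cJ, dA]
  · -- odd characteristic
    have hns : ∀ k, Odd k → ∀ z : Kˣ, z * z ≠ y ^ k := by
      intro k hk z hz
      obtain ⟨i, rfl⟩ : ∃ i, y ^ i = z := by
        obtain ⟨i, hi⟩ := IsCyclic.exists_generator (α := Kˣ)
        have hy1 : orderOf y = Nat.card Kˣ := by
          rw [Nat.card_eq_fintype_card, Fintype.card_units, hK]
          exact Nat.dvd_antisymm (orderOf_dvd_of_pow_eq_one ((hy _).2 dvd_rfl))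
            ((hy _).1 (pow_orderOf_eq_one y))
        have htop := Subgroup.eq_top_of_card_eq (Subgroup.zpowers y) (by rw [Nat.card_zpowers, hy1])
        have hz' : z ∈ Subgroup.zpowers y := htop ▸ Subgroup.mem_top z
        exact mem_zpowers_iff_mem_range_orderOf.1 hz' |> Finset.mem_image.1 |> fun ⟨i, _, hi⟩ => ⟨i, hi⟩
      rw [← pow_add] at hz
      have hev : Even (q ^ 3 - 1) := Nat.Odd.sub_odd (hodd.pow) odd_one
      rcases le_total k (i + i) with h | h
      · have := (even_iff_two_dvd.1 hev).trans (hpow _ _ h hz)
        obtain ⟨j, rfl⟩ := hk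
        omega
      · have := (even_iff_two_dvd.1 hev).trans (hpow _ _ h hz.symm)
        obtain ⟨j, rfl⟩ := hk
        omega
    have hmodd : Odd m := by
      rw [hm]; exact ((hodd.mul hodd).add_odd hodd).add_one
    obtain ⟨a, ha, ha1, haN⟩ := hA (y ^ m)
    have hc := par_mem hq hK y a ha
    have haK : (a : K) ^ q = a := by exact_mod_cast congrArg Units.val ha
    have hne : ∀ b : Kˣ, b ^ q = b → y ^ 2 ≠ b := fun b hb h => by
      rw [← h, ← pow_mul] at hb
      have h'' := Nat.le_of_dvd (by omega) (hpow _ _ (by omega) hb)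
      omega
    have hreg : Regular (par q y a) := by
      refine regular_par hq hK y a haK (fun h => ha1 (Units.ext h))
        (fun h => hne a ha (Units.ext (by simpa using h))) ?_ ?_ ?_ ?_
      · rw [hN]; exact fun h => haN (Units.ext h)
      · rw [hN]; exact fun h => hns m hmodd a (Units.ext (by simpa using h))
      · rw [hN]
        intro h
        refine hne (y ^ m * a⁻¹) (by rw [mul_pow, inv_pow, ha, (by simpa using hfixP 1 : (y ^ m) ^ q = y ^ m)]) ?_
        rw [eq_mul_inv_iff_mul_eq, mul_comm]
        exact Units.ext (by simpa using h)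
      · intro h
        obtain ⟨j, hj⟩ := (hodd.add_one : Even (q + 1))
        refine hns (q ^ 2) hodd.pow (y ^ j) (Units.ext ?_)
        rw [← pow_add, ← hj, Units.val_pow_eq_pow_val, Units.val_pow_eq_pow_val, ← h, pow_succ']
    obtain ⟨d, hd, e⟩ := nL_tor hq hK [1] hc
    have hdreg : Regular d := regular_of_conj hq hK [1] e hreg
    have hd1 : tor chevD4 K d = tor chevD4 K (par q y (y ^ m * a⁻¹)) := by
      have hn : nL S K (D4.wdN [1]) = Sys.nG S K (chevD4.simple 1) 1 := by
        simp [D4.wdN, D4.blkN, nL]
      rw [hn, Sys.nG_tor S K (by decide)] at e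
      rw [← mul_right_cancel e]
      congr 1
      rw [D4.simple1, D4.tv14]
      funext i
      simp only [par, D4.cJ, Pi.mul_apply]
      by_cases h : i = 1
      · subst h
        simp only [Pi.mulSingle_eq_same, ne_eq, one_ne_zero, not_false_eq_true, Pi.mulSingle_eq_of_ne,
          (by decide : (1 : ℕ) ≠ 2), (by decide : (1 : ℕ) ≠ 3), (by decide : (0 : ℕ) ≠ 1),
          (by decide : (2 : ℕ) ≠ 1), (by decide : (3 : ℕ) ≠ 1), one_mul, mul_one]
        apply Units.ext
        simp [zpow_two, hm, hq2, pow_add]
        field_simp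
      · simp [h]
    refine ⟨_, tor_mem hq hK hc, orderOf_tor hq hK _, fun g hg hg1 => ?_⟩
    refine cover_of_reg hq hK hc hd hreg hdreg ⟨1, one_mem _, by group⟩
      ⟨nL S K (D4.wdN [1]), nL_mem hq hK [1], by rw [e, mul_inv_cancel_right]⟩
      (e := y * y) (a := y ^ m) ?_ (by simpa using hfixP 1) (fun z hz => ?_) hg hg1
    · rw [hd1, dA, ← map_mul, ← map_mul]
      congr 1
      funext i
      simp only [par, D4.cJ, Pi.mul_apply]
      by_cases h0 : i = 0 <;> by_cases h1 : i = 1 <;> by_cases h2 : i = 2 <;> by_cases h3 : i = 3 <;>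
        simp_all [mul_pow]
    · have hz0 : z ≠ 0 := fun h => (y ^ m).ne_zero (by rw [← hz, h, zero_mul])
      exact absurd (Units.ext hz : Units.mk0 z hz0 * Units.mk0 z hz0 = y ^ m) (hns m hmodd _)

end CfsgLib.D4Cover
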