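import Cfsg.Agent.D4Cover.Birkhoff
import Cfsg.Agent.DefCharBlocks.TwistD4

/-!
The two maximal parabolic subgroups of `³D₄(q)`: radicals and splitting along the fundamental roots.
-/

set_option autoImplicit false
set_option linter.unusedSectionVars false
set_option linter.unusedFintypeInType false

namespace CfsgLib.D4Cover

open Cfsg.Lie CfsgLib.Chevalley CfsgLib.TwistedLie

local notation "S" => sysD4

/-- The fundamental roots of an orbit, as a set. -/
def blkSet (i : Fin 2) : Set ℕ := {n | n ∈ D4.blkN i}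

theorem kept_out : ∀ i : Fin 2, ∀ r : Fin chevD4.nroots,
    12 ≤ wL chevD4 (D4.blkN i) (r : ℕ) → 12 ≤ (r : ℕ) →
      ¬ ∀ m < chevD4.rank, m ∉ D4.blkN i → (chevD4.coroot.getD (r : ℕ) #[]).getD m 0 = 0 := by
  decide +kernel

theorem w0L_neg' : ∀ r : Fin chevD4.nroots, wL chevD4 w0L (r : ℕ) = chevD4.neg (r : ℕ) := by
  decide +kernel

theorem neg_pos : ∀ r : Fin chevD4.nroots, (r : ℕ) < 12 → 12 ≤ chevD4.neg (r : ℕ) := by
  decide +kernel

theorem opp_simple : ∀ i : Fin 2, ∀ a ∈ D4.blkF i, ∃ b ∈ D4.blkF i,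
    wL chevD4 (D4.blkN i) (wL chevD4 w0L (chevD4.simple (a : ℕ))) = chevD4.simple (b : ℕ) := by
  decide +kernel

variable {K : Type*} [Field K] [Fintype K] {q : ℕ}

local notation "G1" => chevD4.genSubgroup K (d4Words K q)

/-- The radical of a maximal parabolic subgroup. -/
noncomputable def QP (K : Type*) [Field K] (q : ℕ) (i : Fin 2) : Subgroup (GL chevD4.Idx K) :=
  uSub chevD4 K (outSet chevD4 (blkSet i)) ⊓ chevD4.genSubgroup K (d4Words K q)

/-- The radical of the opposite parabolic subgroup. -/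
noncomputable def QN (K : Type*) [Field K] (q : ℕ) (i : Fin 2) : Subgroup (GL chevD4.Idx K) :=
  (QP K q i).map (MulAut.conj (n0 K)).toMonoidHom

theorem QP_le (i : Fin 2) : QP K q i ≤ Upos K q :=
  inf_le_inf_right _ (uSub_le_posUnipotent K _)

theorem QN_le (i : Fin 2) : QN K q i ≤ Uneg K q := Subgroup.map_mono (QP_le i)

/-- Conjugation of the root elements by the inverse of the longest element. -/
theorem n0_inv_conj {r : ℕ} (hr : r < chevD4.nroots) :
    ∃ e : K, ∀ t, (n0 K)⁻¹ * Sys.xG S K r t * n0 K = Sys.xG S K (chevD4.neg r) (e * t) := by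
  have hn : chevD4.neg r < chevD4.nroots := (Sys.wf S).neg_lt r hr
  obtain ⟨e, he, h⟩ := nL_conj (K := K) (wdN_lt [0, 1, 0, 1, 0, 1]) hn
  have hw : wL chevD4 w0L (chevD4.neg r) = r := by
    rw [show chevD4.neg r = ((⟨chevD4.neg r, hn⟩ : Fin chevD4.nroots) : ℕ) from rfl, w0L_neg']
    exact (Sys.wf S).neg_neg r hr
  refine ⟨e, fun t => ?_⟩
  have he2 : e * e = 1 := by rcases he with rfl | rfl <;> simp
  have h' := h (e * t)
  rw [show D4.wdN [0, 1, 0, 1, 0, 1] = w0L from rfl, hw, ← mul_assoc e, he2, one_mul] at h'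
  rw [mul_assoc, inv_mul_eq_iff_eq_mul, n0, h']

theorem n0_inv_neg {g : GL chevD4.Idx K} (hg : g ∈ chevD4.negUnipotent K) :
    (n0 K)⁻¹ * g * n0 K ∈ chevD4.posUnipotent K := by
  rw [Sys.negUnipotent_eq S] at hg
  induction hg using Subgroup.closure_induction with
  | mem x hx =>
    obtain ⟨r, hr, t, rfl⟩ := hx
    have h12 : r < 12 := by simpa [show chevD4.nroots = 24 from rfl] using hr
    have h24 : r < chevD4.nroots := show r < 24 by omega
    obtain ⟨e, h⟩ := n0_inv_conj (K := K) h24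
    rw [h, ← uSub_univ]
    exact Sys.xG_mem_uSub S K (Set.mem_univ _) (neg_pos ⟨r, h24⟩ h12) ((Sys.wf S).neg_lt r h24) _
  | one => simp
  | mul x y _ _ hx hy => simpa [mul_assoc] using mul_mem hx hy
  | inv x _ hx => simpa [mul_assoc] using inv_mem hx

/-- The group generated by the root elements of a Levi subgroup. -/
noncomputable def RL (K : Type*) [Field K] (i : Fin 2) : Subgroup (GL chevD4.Idx K) :=
  Subgroup.closure {x | ∃ r t, chevD4.InRootSub (blkSet i) r ∧ x = Sys.xG S K r t}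

theorem xG_mem_RL {i : Fin 2} {r : ℕ} (hr : chevD4.InRootSub (blkSet i) r) (t : K) :
    Sys.xG S K r t ∈ RL K i :=
  Subgroup.subset_closure ⟨r, t, hr, rfl⟩

theorem RL_le_levi (i : Fin 2) : RL K i ≤ chevD4.leviSubgroup K (blkSet i) := by
  refine (Subgroup.closure_le _).2 ?_
  rintro x ⟨r, t, hr, rfl⟩
  exact Sys.levi_xG_mem S K hr t

theorem n0_inv_RL {i : Fin 2} {y : GL chevD4.Idx K} (hy : y ∈ RL K i) :
    (n0 K)⁻¹ * y * n0 K ∈ RL K i := by
  induction hy using Subgroup.closure_induction with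
  | mem x hx =>
    obtain ⟨r, t, hr, rfl⟩ := hx
    obtain ⟨e, h⟩ := n0_inv_conj (K := K) hr.1
    rw [h]
    exact xG_mem_RL (Sys.inRootSub_neg S DefCharBlocks.D4.exists_support hr) _
  | one => simp
  | mul x y _ _ hx hy => simpa [mul_assoc] using mul_mem hx hy
  | inv x _ hx => simpa [mul_assoc] using inv_mem hx

theorem tor_levi (i : Fin 2) (c : ℕ → Kˣ) : tor chevD4 K c ∈ chevD4.leviSubgroup K (blkSet i) := by
  refine Subgroup.mem_sup_left ?_
  rw [Sys.diagonal_eq S]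
  exact ⟨c, rfl⟩

theorem QP_conj {i : Fin 2} {y u : GL chevD4.Idx K} (hy : y ∈ chevD4.leviSubgroup K (blkSet i))
    (hyG : y ∈ G1) (hu : u ∈ QP K q i) : y * u * y⁻¹ ∈ QP K q i :=
  Subgroup.mem_inf.2 ⟨(Subgroup.mem_normalizer_iff.1
    (Sys.levi_le_normalizer S K DefCharBlocks.D4.exists_support (blkSet i) hy) u).1 hu.1,
    mul_mem (mul_mem hyG hu.2) (inv_mem hyG)⟩

variable (hq : IsPrimePow q) (hK : Fintype.card K = q ^ 3)
include hq hK

theorem QN_conj {i : Fin 2} {y v : GL chevD4.Idx K} (hy : y ∈ RL K i) (hyG : y ∈ G1)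
    (hv : v ∈ QN K q i) : y * v * y⁻¹ ∈ QN K q i := by
  obtain ⟨u, hu, rfl⟩ := hv
  refine ⟨((n0 K)⁻¹ * y * n0 K) * u * ((n0 K)⁻¹ * y * n0 K)⁻¹,
    QP_conj (RL_le_levi i (n0_inv_RL hy))
      (mul_mem (mul_mem (inv_mem (n0_mem hq hK)) hyG) (n0_mem hq hK)) hu, ?_⟩
  simp only [MulEquiv.coe_toMonoidHom, MulAut.conj_apply]
  group

theorem mem_Uneg {g : GL chevD4.Idx K} (hg : g ∈ chevD4.negUnipotent K) (hG : g ∈ G1) :
    g ∈ Uneg K q :=
  ⟨(n0 K)⁻¹ * g * n0 K, Subgroup.mem_inf.2 ⟨n0_inv_neg hg,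
    mul_mem (mul_mem (inv_mem (n0_mem hq hK)) hG) (n0_mem hq hK)⟩, by
      simp only [MulEquiv.coe_toMonoidHom, MulAut.conj_apply]
      group⟩

/-- A fixed positive unipotent element splits along a fundamental orbit. -/
theorem Upos_split (i : Fin 2) {u : GL chevD4.Idx K} (hu : u ∈ Upos K q) :
    ∃ a ∈ QP K q i, ∃ x ∈ D4.XX hq hK i, u = a * x := by
  obtain ⟨hu1, hu2⟩ := hu
  let E := D4.tw hq hK
  let m := E.nW [i]
  rw [← Sys.uSub_kept_union_flip S K m] at hu1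
  obtain ⟨p, hp, x, hx, e⟩ := Sys.uSub_union_mul S K (Sys.closed_keptSet S K m)
    (Sys.closed_flipSet S K m) (Sys.closed_kept_union_flip S K m) hu1
  have h1 : E.σ p * E.σ x = p * x := by
    rw [← E.σ_mul p (E.uSub_mem_group hp) x (E.uSub_mem_group hx), ← e, E.σ_mem hu2]
  have hkey : p⁻¹ * E.σ p = x * (E.σ x)⁻¹ := by
    rw [inv_mul_eq_iff_eq_mul, ← mul_assoc, ← h1, mul_inv_cancel_right]
  have hb : p⁻¹ * E.σ p ∈ uSub chevD4 K (Sys.keptSet S K m) ⊓ uSub chevD4 K (Sys.flipSet S K m) :=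
    Subgroup.mem_inf.2 ⟨mul_mem (inv_mem hp) (E.σ_kept [i] hp),
      hkey ▸ mul_mem hx (inv_mem (E.σ_flip [i] hx))⟩
  rw [Tw.kept_inf_flip, Subgroup.mem_bot, inv_mul_eq_one] at hb
  have hσx : E.σ x = x := by
    rw [← hb] at h1
    exact mul_left_cancel h1
  have hxX : x ∈ D4.XX hq hK i := E.X_full i x (E.flip_blk i ▸ hx) hσx
  have hpG : p ∈ G1 := by
    have := mul_mem hu2 (Subgroup.inv_mem _ (E.X_mem i hxX))
    rwa [e, mul_inv_cancel_right] at this
  refine ⟨p, Subgroup.mem_inf.2 ⟨?_, hpG⟩, x, hxX, e⟩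
  refine Sys.uSub_le S K (fun r hr h12 h24 t => Sys.xG_mem_uSub S K ?_ h12 h24 t) hp
  obtain ⟨h, hkeep⟩ := hr
  intro hin
  refine kept_out i ⟨r, h⟩ ?_ h12 hin.2
  rw [E.perm_nW, E.wW_single] at hkeep
  have he : (Sys.wperm S (D4.blkF i) ⟨r, h⟩ : ℕ) = wL chevD4 (D4.blkN i) r := by
    rw [wperm_val, D4.blkF_val]
  rw [← he]
  exact hkeep

/-- The opposite of a fixed root group, brought back by `n_i`. -/
theorem opp_X (i : Fin 2) {x : GL chevD4.Idx K} (hx : x ∈ D4.XX hq hK i) :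
    (Sys.wN S K (D4.blkF i) : GL chevD4.Idx K) * (n0 K * x * (n0 K)⁻¹) *
      (Sys.wN S K (D4.blkF i) : GL chevD4.Idx K)⁻¹ ∈ D4.XX hq hK i := by
  let E := D4.tw hq hK
  have hG : (Sys.wN S K (D4.blkF i) : GL chevD4.Idx K) * (n0 K * x * (n0 K)⁻¹) *
      (Sys.wN S K (D4.blkF i) : GL chevD4.Idx K)⁻¹ ∈ E.G :=
    mul_mem (mul_mem (E.n_mem i) (mul_mem (mul_mem (n0_mem hq hK) (E.X_mem i hx))
      (inv_mem (n0_mem hq hK)))) (inv_mem (E.n_mem i))
  refine E.X_full i _ ?_ (E.σ_mem hG)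
  rw [wN_nL, D4.blkF_val]
  have hL : ∀ a ∈ D4.blkN i ++ w0L, a < chevD4.rank := by
    intro a ha
    rcases List.mem_append.1 ha with h | h
    · exact D4.blkN_lt i a h
    · exact wdN_lt _ a h
  suffices uSub chevD4 K (E.cls i) ≤
      (uSub chevD4 K (E.cls i)).comap (MulAut.conj (nL S K (D4.blkN i) * n0 K)).toMonoidHom by
    simpa [Subgroup.mem_comap, mul_assoc] using this (E.X_le i hx)
  refine Sys.uSub_le S K fun r hr h12 h24 t => ?_
  obtain ⟨a, ha, rfl⟩ := hr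
  obtain ⟨b, hb, hab⟩ := opp_simple i a ha
  obtain ⟨e, -, h⟩ := nL_conj (K := K) hL (show chevD4.simple (a : ℕ) < chevD4.nroots from h24)
  rw [show wL chevD4 (D4.blkN i ++ w0L) (chevD4.simple (a : ℕ)) = chevD4.simple (b : ℕ) by
    rw [← hab]; simp [wL, List.foldr_append], nL_append] at h
  rw [Subgroup.mem_comap, MulEquiv.coe_toMonoidHom, MulAut.conj_apply, n0, h, mul_inv_cancel_right]
  exact Sys.xG_mem_uSub S K (P := E.cls i) ⟨b, hb, rfl⟩ (Sys.simple_pos S b b.isLt) ((Sys.wf S).simple_lt b b.isLt) _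

/-- A fixed negative unipotent element splits along a fundamental orbit. -/
theorem Uneg_split (i : Fin 2) {v : GL chevD4.Idx K} (hv : v ∈ Uneg K q) :
    ∃ a ∈ QN K q i, ∃ x ∈ D4.XX hq hK i,
      v = a * ((Sys.wN S K (D4.blkF i) : GL chevD4.Idx K)⁻¹ * x *
        (Sys.wN S K (D4.blkF i) : GL chevD4.Idx K)) := by
  obtain ⟨u, hu, rfl⟩ := hv
  obtain ⟨a, ha, x, hx, rfl⟩ := Upos_split hq hK i hu
  refine ⟨n0 K * a * (n0 K)⁻¹, ⟨a, ha, rfl⟩, _, opp_X hq hK i hx, ?_⟩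
  simp only [MulEquiv.coe_toMonoidHom, MulAut.conj_apply]
  group

end CfsgLib.D4Cover
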