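import Cfsg.Agent.D4Cover.Levi
import Cfsg.Agent.D4Cover.Corner
import Cfsg.Agent.Chevalley.SLTwoHom

/-!
The Levi subgroup of the short roots of `³D₄(q)` as a group of two by two matrices, and the Gauss
form of every non-identity element.
-/

set_option autoImplicit false
set_option linter.unusedSectionVars false
set_option linter.unusedFintypeInType false

namespace CfsgLib.D4Cover

open Cfsg.Lie CfsgLib.Chevalley CfsgLib.TwistedLie
open scoped MatrixGroups

local notation "S" => sysD4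

/-- Conjugation of `SL₂` by `diag (1, a)`. -/
def dconj {F : Type*} [Field F] (a : F) (ha : a ≠ 0) : SL(2, F) →* SL(2, F) where
  toFun g := ⟨!![g.1 0 0, a⁻¹ * g.1 0 1; a * g.1 1 0, g.1 1 1], by
    rw [Matrix.det_fin_two_of]
    linear_combination SL2Rel.det_eq g - (g.1 0 1 * g.1 1 0) * inv_mul_cancel₀ ha⟩
  map_one' := by
    apply Subtype.ext
    simp [Matrix.one_fin_two]
  map_mul' g g' := by
    apply Subtype.ext
    show (!![_, _; _, _] : Matrix (Fin 2) (Fin 2) F) = !![_, _; _, _] * !![_, _; _, _]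
    ext i j
    fin_cases i <;> fin_cases j <;>
      simp [Matrix.SpecialLinearGroup.coe_mul, Matrix.mul_apply, Fin.sum_univ_two] <;>
      field_simp <;> ring

/-- `[[1, 0], [t, 1]]`. -/
def lower {F : Type*} [Field F] (t : F) : SL(2, F) := ⟨!![1, 0; t, 1], by simp [Matrix.det_fin_two]⟩

theorem lower_val {F : Type*} [Field F] (t : F) :
    (lower t : Matrix (Fin 2) (Fin 2) F) = !![1, 0; t, 1] := rfl

theorem dconj_val {F : Type*} [Field F] (a : F) (ha : a ≠ 0) (g : SL(2, F)) :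
    (dconj a ha g : Matrix (Fin 2) (Fin 2) F) = !![g.1 0 0, a⁻¹ * g.1 0 1; a * g.1 1 0, g.1 1 1] := rfl

theorem sl2_induction {F : Type*} [Field F] {H : Subgroup (SL(2, F))}
    (hu : ∀ t, SL2Rel.upper t ∈ H) (hl : ∀ t, lower t ∈ H) (g : SL(2, F)) : g ∈ H := by
  have key : ∀ g : SL(2, F), g.1 1 0 ≠ 0 → g ∈ H := by
    intro g hc
    have hdet := SL2Rel.det_eq g
    rw [show g = SL2Rel.upper ((g.1 0 0 - 1) / g.1 1 0) * lower (g.1 1 0) *
      SL2Rel.upper ((g.1 1 1 - 1) / g.1 1 0) from ?_]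
    · exact mul_mem (mul_mem (hu _) (hl _)) (hu _)
    apply Matrix.SpecialLinearGroup.ext
    intro i j
    fin_cases i <;> fin_cases j <;>
      simp [SL2Rel.upper_val, lower_val, Matrix.SpecialLinearGroup.coe_mul, Matrix.mul_apply, Fin.sum_univ_two] <;>
      (try field_simp) <;> first | linear_combination hdet | linear_combination -hdet | ring
  by_cases hc : g.1 1 0 = 0
  · have hdet := SL2Rel.det_eq g
    have h1 : (g * lower 1 : SL(2, F)).1 1 0 ≠ 0 := by
      intro h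
      simp [lower_val, Matrix.SpecialLinearGroup.coe_mul, Matrix.mul_apply, Fin.sum_univ_two, hc] at h
      simp [hc, h] at hdet
    simpa [mul_assoc] using mul_mem (key _ h1) (inv_mem (hl 1))
  · exact key g hc

theorem dconj_upper {F : Type*} [Field F] (a : F) (ha : a ≠ 0) (t : F) :
    dconj a ha (SL2Rel.upper t) = SL2Rel.upper (a⁻¹ * t) := by
  apply Subtype.ext
  rw [dconj_val, SL2Rel.upper_val, SL2Rel.upper_val]
  simp

theorem dconj_lower {F : Type*} [Field F] (a : F) (ha : a ≠ 0) (t : F) :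
    dconj a ha (lower t) = lower (a * t) := by
  apply Subtype.ext
  rw [dconj_val, lower_val, lower_val]
  simp

/-- A matrix of determinant `a` that is not scalar has a conjugate with the corner entry `e`. -/
theorem exists_corner_entry {F : Type*} [Field F] {a e : F} (ha : a ≠ 0) (g : SL(2, F))
    (hg : ¬ (g.1 0 1 = 0 ∧ g.1 1 0 = 0 ∧ g.1 0 0 * g.1 0 0 = a)) :
    ∃ Y : SL(2, F), (Y * g * dconj a ha Y⁻¹).1 0 0 = e := by
  set A := g.1 0 0 with hA
  set B := g.1 0 1 with hB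
  set C := g.1 1 0 with hC
  set D := g.1 1 1 with hD
  have hdet : A * D - B * C = 1 := SL2Rel.det_eq g
  obtain ⟨x, y, hd⟩ : ∃ x y : F, x * (C * x + D * a * y) - y * (A * x + B * a * y) ≠ 0 := by
    by_cases hC0 : C = 0
    · by_cases hB0 : B = 0
      · refine ⟨1, 1, fun h => hg ⟨hB0, hC0, ?_⟩⟩
        rw [hC0, hB0] at h hdet
        have hAD : D * a = A := by linear_combination h
        calc A * A = A * (D * a) := by rw [hAD]
          _ = a := by linear_combination a * hdet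
      · exact ⟨0, 1, by simp [hB0, ha]⟩
    · exact ⟨1, 0, by simpa using hC0⟩
  set k := (x * (C * x + D * a * y) - y * (A * x + B * a * y))⁻¹ with hk
  set w1 := k * (A * x + B * a * y - e * x) with hw1
  set w2 := k * (C * x + D * a * y - e * y) with hw2
  have hk1 : k * (x * (C * x + D * a * y) - y * (A * x + B * a * y)) = 1 := inv_mul_cancel₀ hd
  have hZ : x * w2 - w1 * y = 1 := by linear_combination hk1
  obtain ⟨Z, hZv⟩ : ∃ Z : SL(2, F), (Z : Matrix (Fin 2) (Fin 2) F) = !![x, w1; y, w2] :=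
    ⟨⟨!![x, w1; y, w2], by rw [Matrix.det_fin_two_of]; exact hZ⟩, rfl⟩
  refine ⟨Z⁻¹, ?_⟩
  rw [inv_inv]
  simp [dconj_val, hZv, Matrix.SpecialLinearGroup.coe_mul, Matrix.SpecialLinearGroup.coe_inv,
    Matrix.adjugate_fin_two, Matrix.mul_apply, Matrix.vecMul, dotProduct, Fin.sum_univ_two, ← hA, ← hB, ← hC, ← hD]
  linear_combination e * hk1

/-- A matrix with non-zero corner entry is lower times diagonal times upper. -/
theorem ldu {F : Type*} [Field F] (T : SL(2, F)) (e : Fˣ) (h : T.1 0 0 = (e : F)) :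
    T = lower (T.1 1 0 / (e : F)) * SL2Rel.dia e * SL2Rel.upper (T.1 0 1 / (e : F)) := by
  have hdet := SL2Rel.det_eq T
  rw [h] at hdet
  apply Matrix.SpecialLinearGroup.ext
  intro i j
  fin_cases i <;> fin_cases j <;>
    simp [SL2Rel.upper_val, SL2Rel.dia_val, lower_val, Matrix.SpecialLinearGroup.coe_mul, Matrix.mul_apply,
      Fin.sum_univ_two, h] <;>
    field_simp
  linear_combination hdet

variable {K : Type*} [Field K]

theorem lift_commute {i j : ℕ} (hi : i < chevD4.rank) (hj : j < chevD4.rank)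
    (h : orthPairB chevD4 (chevD4.simple i) (chevD4.simple j) = true) (g g' : SL(2, K)) :
    Commute ((Sys.sl2Rel S K hi).lift g) ((Sys.sl2Rel S K hj).lift g') := by
  obtain ⟨h1, h2, h3, h4⟩ := orthPair_spec h
  set C := Subgroup.closure (Set.range (Sys.sl2Rel S K hi).x ∪ Set.range (Sys.sl2Rel S K hi).y)
  have hg : (Sys.sl2Rel S K hi).lift g ∈ C := by
    show _ ∈ Subgroup.closure _
    rw [← (Sys.sl2Rel S K hi).range_lift]; exact ⟨g, rfl⟩
  have hg' : (Sys.sl2Rel S K hj).lift g' ∈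
      Subgroup.closure (Set.range (Sys.sl2Rel S K hj).x ∪ Set.range (Sys.sl2Rel S K hj).y) := by
    rw [← (Sys.sl2Rel S K hj).range_lift]; exact ⟨g', rfl⟩
  have key : C ≤ Subgroup.centralizer
      (Set.range (Sys.sl2Rel S K hj).x ∪ Set.range (Sys.sl2Rel S K hj).y) := by
    refine (Subgroup.closure_le _).2 ?_
    rintro _ (⟨t, rfl⟩ | ⟨t, rfl⟩) <;> rw [SetLike.mem_coe, Subgroup.mem_centralizer_iff] <;>
      rintro _ (⟨u, rfl⟩ | ⟨u, rfl⟩)
    · exact (orth_commute S K h1 t u).eq.symm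
    · exact (orth_commute S K h3 t u).eq.symm
    · exact (orth_commute S K h2 t u).eq.symm
    · exact (orth_commute S K h4 t u).eq.symm
  have := Subgroup.closure_le_centralizer_centralizer _ hg'
  exact (Subgroup.mem_centralizer_iff.1 this) _ (key hg) |>.symm.symm

/-- The torus element `d_a`. -/
noncomputable def dA (a : Kˣ) : GL chevD4.Idx K := tor chevD4 K (Pi.mulSingle 1 a)

variable [Fintype K] {q : ℕ} (hq : IsPrimePow q) (hK : Fintype.card K = q ^ 3)
include hq hK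

local notation "G1" => chevD4.genSubgroup K (d4Words K q)

/-- The homomorphism of `SL₂` onto the group generated by the short root groups. -/
noncomputable def phiJ : SL(2, K) →* GL chevD4.Idx K where
  toFun g := (Sys.sl2Rel S K (show 0 < chevD4.rank by decide)).lift g *
    (Sys.sl2Rel S K (show 2 < chevD4.rank by decide)).lift
      (Matrix.SpecialLinearGroup.map (D4.phi hq hK) g) *
    (Sys.sl2Rel S K (show 3 < chevD4.rank by decide)).lift
      (Matrix.SpecialLinearGroup.map (D4.phi hq hK)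
        (Matrix.SpecialLinearGroup.map (D4.phi hq hK) g))
  map_one' := by simp
  map_mul' g g' := by
    simp only [map_mul]
    exact (D4.regroup3 (lift_commute (by decide) (by decide) (by decide +kernel) _ _).symm
      (lift_commute (by decide) (by decide) (by decide +kernel) _ _).symm
      (lift_commute (by decide) (by decide) (by decide +kernel) _ _).symm).symm

theorem phiJ_apply (g : SL(2, K)) : phiJ hq hK g =
    (Sys.sl2Rel S K (show 0 < chevD4.rank by decide)).lift g *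
    (Sys.sl2Rel S K (show 2 < chevD4.rank by decide)).lift
      (Matrix.SpecialLinearGroup.map (D4.phi hq hK) g) *
    (Sys.sl2Rel S K (show 3 < chevD4.rank by decide)).lift
      (Matrix.SpecialLinearGroup.map (D4.phi hq hK)
        (Matrix.SpecialLinearGroup.map (D4.phi hq hK) g)) := rfl

theorem phi_sq (t : K) : D4.phi hq hK (D4.phi hq hK t) = t ^ (q ^ 2) := by
  rw [D4.phi_apply, D4.phi_apply, ← pow_mul, ← sq]

theorem phiJ_upper (t : K) : phiJ hq hK (SL2Rel.upper t) = D4.P q t := by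
  have hm : ∀ (φ : K →+* K) (t : K), (Matrix.SpecialLinearGroup.map φ (SL2Rel.upper t) :
      Matrix (Fin 2) (Fin 2) K) = !![1, φ t; 0, 1] := fun φ t => by
    ext i j
    fin_cases i <;> fin_cases j <;> simp [SL2Rel.upper_val]
  rw [phiJ_apply, SL2Rel.lift_upper _ (t := t) rfl, SL2Rel.lift_upper _ (t := D4.phi hq hK t) (hm _ _),
    SL2Rel.lift_upper _ (t := D4.phi hq hK (D4.phi hq hK t)) ?_]
  · show Sys.xG S K (chevD4.simple 0) _ * Sys.xG S K (chevD4.simple 2) _ *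
      Sys.xG S K (chevD4.simple 3) _ = _
    rw [D4.simple0, D4.simple2, D4.simple3, phi_sq hq hK, D4.phi_apply]
    rfl
  · ext i j
    fin_cases i <;> fin_cases j <;> simp [SL2Rel.upper_val]

theorem phiJ_lower (t : K) : phiJ hq hK (lower t) = D4.N q t := by
  have hm : ∀ (φ : K →+* K) (t : K), (Matrix.SpecialLinearGroup.map φ (lower t) :
      Matrix (Fin 2) (Fin 2) K) = !![1, 0; φ t, 1] := fun φ t => by
    ext i j
    fin_cases i <;> fin_cases j <;> simp [lower_val]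
  rw [phiJ_apply, SL2Rel.lift_lower _ (t := t) rfl, SL2Rel.lift_lower _ (t := D4.phi hq hK t) (hm _ _),
    SL2Rel.lift_lower _ (t := D4.phi hq hK (D4.phi hq hK t)) ?_]
  · show Sys.xG S K (chevD4.neg (chevD4.simple 0)) _ * Sys.xG S K (chevD4.neg (chevD4.simple 2)) _ *
      Sys.xG S K (chevD4.neg (chevD4.simple 3)) _ = _
    rw [D4.simple0, D4.simple2, D4.simple3, D4.neg18, D4.neg13, D4.neg12, phi_sq hq hK, D4.phi_apply]
    rfl
  · ext i j
    fin_cases i <;> fin_cases j <;> simp [lower_val]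

theorem phiJ_dia (u : Kˣ) : phiJ hq hK (SL2Rel.dia u) = tor chevD4 K (D4.cJ q u) := by
  have hd : ∀ (R : SL2Rel K (GL chevD4.Idx K)) (u : Kˣ) (g : SL(2, K)),
      (g : Matrix (Fin 2) (Fin 2) K) = !![(u : K), 0; 0, (u : K)⁻¹] → R.lift g = R.h u := by
    intro R u g hg
    show R.toFun g = _
    rw [show g = 1 * SL2Rel.dia u by rw [one_mul]; exact Subtype.ext hg, R.toFun_mul_dia,
      R.toFun_one, one_mul]
  have hm : ∀ (φ : K →+* K) (u v : Kˣ), φ u = v → (Matrix.SpecialLinearGroup.map φ (SL2Rel.dia u) :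
      Matrix (Fin 2) (Fin 2) K) = !![(v : K), 0; 0, (v : K)⁻¹] := fun φ u v h => by
    ext i j
    fin_cases i <;> fin_cases j <;> simp [SL2Rel.dia_val, h, map_inv₀]
  have h1 : D4.phi hq hK u = ((u ^ q : Kˣ) : K) := by rw [D4.phi_apply, Units.val_pow_eq_pow_val]
  rw [phiJ_apply, hd _ u _ rfl, hd _ (u ^ q) _ (hm _ _ _ h1), hd _ (u ^ (q ^ 2)) _ ?_]
  · show tor chevD4 K (Pi.mulSingle 0 u) * tor chevD4 K (Pi.mulSingle 2 (u ^ q)) *
      tor chevD4 K (Pi.mulSingle 3 (u ^ (q ^ 2))) = _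
    rw [← map_mul, ← map_mul]
    rfl
  · ext i j
    have h2 : D4.phi hq hK (D4.phi hq hK (u : K)) = ((u ^ (q ^ 2) : Kˣ) : K) := by
      rw [phi_sq hq hK, Units.val_pow_eq_pow_val]
    fin_cases i <;> fin_cases j <;> simp [SL2Rel.dia_val, map_inv₀, h2]

theorem phiJ_mem (g : SL(2, K)) : phiJ hq hK g ∈ G1 ⊓ RL K 0 := by
  refine sl2_induction (H := (G1 ⊓ RL K 0).comap (phiJ hq hK)) (fun t => ?_) (fun t => ?_) g <;>
    rw [Subgroup.mem_comap]
  · rw [phiJ_upper]
    refine Subgroup.mem_inf.2 ⟨D4.P_mem t, mul_mem (mul_mem (xG_mem_RL ?_ _) (xG_mem_RL ?_ _)) (xG_mem_RL ?_ _)⟩ <;>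
      exact ⟨by decide, (by decide +kernel : ∀ m < chevD4.rank, m ∉ D4.blkN 0 →
        (chevD4.coroot.getD _ #[]).getD m 0 = 0)⟩
  · rw [phiJ_lower]
    refine Subgroup.mem_inf.2 ⟨D4.N_mem t, mul_mem (mul_mem (xG_mem_RL ?_ _) (xG_mem_RL ?_ _)) (xG_mem_RL ?_ _)⟩ <;>
      exact ⟨by decide, (by decide +kernel : ∀ m < chevD4.rank, m ∉ D4.blkN 0 →
        (chevD4.coroot.getD _ #[]).getD m 0 = 0)⟩

theorem single_mem {a : Kˣ} (ha : a ^ q = a) : (Pi.mulSingle 1 a : ℕ → Kˣ) ∈ D4.Cset K q :=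
  ⟨by simp [ha], by simp, by simp, by simp⟩

theorem tor_split {c : ℕ → Kˣ} (hc : c ∈ D4.Cset K q) :
    tor chevD4 K c = phiJ hq hK (SL2Rel.dia (c 0)) * dA (c 1) := by
  rw [phiJ_dia, dA, ← map_mul]
  obtain ⟨h1, h2, h3, -⟩ := hc
  refine D4.tor_congr4 fun j hj => ?_
  interval_cases j
  · simp [D4.cJ]
  · simp [D4.cJ]
  · simp [D4.cJ, h2]
  · have : c 3 = c 0 ^ (q ^ 2) := by rw [h3, h2, ← pow_mul, ← sq]
    simp [D4.cJ, this]

theorem dA_phiJ {a : Kˣ} (ha : a ^ q = a) (g : SL(2, K)) :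
    dA a * phiJ hq hK g = phiJ hq hK (dconj (a : K) a.ne_zero g) * dA a := by
  have hfix : (a : K) ^ q = a := by exact_mod_cast congrArg Units.val ha
  have hfix2 : (a : K) ^ (q ^ 2) = a := by rw [sq, pow_mul, hfix, hfix]
  have hv : ∀ r < chevD4.nroots, ∀ z : ℤ, chevD4.cartan 1 r = z → ∀ t,
      dA a * Sys.xG S K r t * (dA a)⁻¹ = Sys.xG S K r ((a : K) ^ z * t) := by
    intro r hr z hz t
    rw [dA, Sys.tor_conj S K _ hr, torusVal_single K a (by decide), hz, Units.val_zpow_eq_zpow_val]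
  have h := sl2_induction (H := MonoidHom.eqLocus
    ((MulAut.conj (dA a)).toMonoidHom.comp (phiJ hq hK))
    ((phiJ hq hK).comp (dconj (a : K) a.ne_zero))) (fun t => ?_) (fun t => ?_) g
  · exact mul_inv_eq_iff_eq_mul.1 h
  · show dA a * phiJ hq hK (SL2Rel.upper t) * (dA a)⁻¹ = phiJ hq hK (dconj _ _ _)
    rw [dconj_upper, phiJ_upper, phiJ_upper]
    simp only [D4.P, conj_mul.symm]
    rw [hv 18 (by decide) (-1) (by decide +kernel), hv 13 (by decide) (-1) (by decide +kernel),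
      hv 12 (by decide) (-1) (by decide +kernel)]
    simp only [zpow_neg_one, mul_pow, inv_pow, hfix, hfix2]
  · show dA a * phiJ hq hK (lower t) * (dA a)⁻¹ = phiJ hq hK (dconj _ _ _)
    rw [dconj_lower, phiJ_lower, phiJ_lower]
    simp only [D4.N, conj_mul.symm]
    rw [hv 5 (by decide) 1 (by decide +kernel), hv 10 (by decide) 1 (by decide +kernel),
      hv 11 (by decide) 1 (by decide +kernel)]
    simp only [zpow_one, mul_pow, hfix, hfix2]

/-- Every non-identity element has a conjugate in the big cell of the short parabolic subgroup with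
prescribed long part. -/
theorem levi_form {g : GL chevD4.Idx K} (hg : g ∈ G1) (hg1 : g ≠ 1) {a : Kˣ} (ha : a ^ q = a) :
    ∃ h ∈ G1, ∃ v ∈ QN K q 0, ∃ M : SL(2, K), ∃ u ∈ QP K q 0,
      h * g * h⁻¹ = v * (phiJ hq hK M * dA a) * u := by
  obtain ⟨h, hh, hcor⟩ := exists_corner hq hK hg hg1 (a := (a : K))
    (by exact_mod_cast congrArg Units.val ha)
  obtain ⟨v, hv, c, hc, u, hu, hca, hcase⟩ :=
    exists_cell hq hK (mul_mem (mul_mem hh hg) (inv_mem hh)) a.ne_zero hcor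
  have hc1 : c 1 = a := Units.ext hca
  obtain ⟨v', hv', x, hx, rfl⟩ := Uneg_split hq hK 0 hv
  obtain ⟨u', hu', x', hx', rfl⟩ := Upos_split hq hK 0 hu
  obtain ⟨β, rfl⟩ := (D4.mem_XX0 hq hK).1 hx'
  obtain ⟨γ, rfl⟩ := (D4.mem_XX0 hq hK).1 hx
  have hn : (Sys.wN S K (D4.blkF 0) : GL chevD4.Idx K) = phiJ hq hK SL2Rel.weyl := by
    rw [D4.n0_eq' hq hK]
    rw [phiJ_apply]
    have hw : ∀ (R : SL2Rel K (GL chevD4.Idx K)) (g : SL(2, K)),
        (g : Matrix (Fin 2) (Fin 2) K) = !![0, 1; -1, 0] → R.lift g = R.w := by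
      intro R g hg
      show R.toFun g = _
      rw [show g = 1 * SL2Rel.weyl by rw [one_mul]; exact Subtype.ext hg, R.toFun_mul_weyl,
        R.toFun_one, one_mul]
    have hm : ∀ φ : K →+* K, (Matrix.SpecialLinearGroup.map φ (SL2Rel.weyl : SL(2, K)) :
        Matrix (Fin 2) (Fin 2) K) = !![0, 1; -1, 0] := fun φ => by
      ext i j
      fin_cases i <;> fin_cases j <;> simp [SL2Rel.weyl_val]
    rw [hw _ _ rfl, hw _ _ (hm _), hw]
    · simp [nL, Sys.sl2Rel, mul_assoc]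
    · ext i j
      fin_cases i <;> fin_cases j <;> simp [SL2Rel.weyl_val]
  obtain ⟨M, heq⟩ : ∃ M : SL(2, K),
      h * g * h⁻¹ = v' * (phiJ hq hK (SL2Rel.weyl⁻¹ * SL2Rel.upper γ * SL2Rel.weyl) *
        (phiJ hq hK M * dA a)) * (u' * D4.P q β) := by
    simp only [map_mul, map_inv, ← hn, phiJ_upper]
    rcases hcase with h'' | h''
    · refine ⟨SL2Rel.dia (c 0), ?_⟩
      rw [h'', tor_split hq hK hc, hc1]
      group
    · refine ⟨SL2Rel.dia (c 0) * dconj (a : K) a.ne_zero SL2Rel.weyl, ?_⟩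
      rw [h'', map_mul, mul_assoc (phiJ hq hK (SL2Rel.dia (c 0))) _ (dA a), ← dA_phiJ hq hK ha, ← hn,
        D4.n0_eq' hq hK, tor_split hq hK hc, hc1, show D4.wdN [0] = [0, 2, 3] from rfl]
      group
  obtain ⟨u'', hu'', hup⟩ : ∃ u'' ∈ QP K q 0, u' * D4.P q β = D4.P q β * u'' := by
    refine ⟨(D4.P q β)⁻¹ * u' * D4.P q β, ?_, by group⟩
    have := QP_conj (i := 0) (RL_le_levi 0 (inv_mem (phiJ_mem hq hK (SL2Rel.upper β)).2))
      (inv_mem (phiJ_mem hq hK (SL2Rel.upper β)).1) hu'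
    rwa [phiJ_upper, inv_inv] at this
  set M' := SL2Rel.weyl⁻¹ * SL2Rel.upper γ * SL2Rel.weyl * M * dconj (a : K) a.ne_zero (SL2Rel.upper β)
    with hM'
  have heq2 : h * g * h⁻¹ = v' * (phiJ hq hK M' * dA a) * u'' := by
    rw [heq, hup, hM', map_mul _ _ (dconj _ _ _), mul_assoc (phiJ hq hK (_ * M)),
      ← dA_phiJ hq hK ha, phiJ_upper, map_mul _ _ M]
    group
  exact ⟨h, hh, v', hv', M', u'', hu'', heq2⟩

/-- The Gauss form with prescribed torus part. -/
theorem gauss {g : GL chevD4.Idx K} (hg : g ∈ G1) (hg1 : g ≠ 1) {a e : Kˣ} (ha : a ^ q = a)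
    (hsc : ∀ z : K, z * z = a → z = 1 ∧ e = 1 ∧ a = 1) :
    ∃ h ∈ G1, ∃ v ∈ Uneg K q, ∃ u ∈ Upos K q,
      h * g * h⁻¹ = v * (tor chevD4 K (D4.cJ q e) * dA a) * u := by
  obtain ⟨h, hh, v', hv', M', u'', hu'', heq2⟩ := levi_form hq hK hg hg1 ha
  have hfinal : ∀ (Y : SL(2, K)), (Y * M' * dconj (a : K) a.ne_zero Y⁻¹).1 0 0 = (e : K) →
      ∃ h ∈ G1, ∃ v ∈ Uneg K q, ∃ u ∈ Upos K q,
      h * g * h⁻¹ = v * (tor chevD4 K (D4.cJ q e) * dA a) * u := by
    intro Y hY
    set T := Y * M' * dconj (a : K) a.ne_zero Y⁻¹ with hT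
    obtain ⟨hyG, hyL⟩ := Subgroup.mem_inf.1 (phiJ_mem hq hK Y)
    set y := phiJ hq hK Y
    have hconj : y * (h * g * h⁻¹) * y⁻¹ =
        (y * v' * y⁻¹) * (phiJ hq hK T * dA a) * (y * u'' * y⁻¹) := by
      rw [heq2, hT, map_mul (phiJ hq hK) (Y * M') (dconj (a : K) a.ne_zero Y⁻¹), mul_assoc (phiJ hq hK (Y * M')), ← dA_phiJ hq hK ha,
        map_inv, map_mul (phiJ hq hK) Y M', show phiJ hq hK Y = y from rfl]
      group
    rw [ldu T e hY] at hconj
    set β' := (a : K) * (T.1 0 1 / (e : K)) with hβ'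
    have e1 : SL2Rel.upper (T.1 0 1 / (e : K)) = dconj (a : K) a.ne_zero (SL2Rel.upper β') := by
      rw [dconj_upper, hβ', inv_mul_cancel_left₀ a.ne_zero]
    rw [e1, map_mul _ _ (dconj _ _ _), mul_assoc _ (phiJ hq hK (dconj _ _ _)), ← dA_phiJ hq hK ha,
      map_mul, phiJ_lower, phiJ_dia, phiJ_upper] at hconj
    refine ⟨y * h, mul_mem hyG hh, y * v' * y⁻¹ * D4.N q (T.1 1 0 / (e : K)), ?_,
      D4.P q β' * (y * u'' * y⁻¹), ?_, ?_⟩
    · refine mul_mem (QN_le 0 (QN_conj hq hK hyL hyG hv')) (mem_Uneg hq hK ?_ (D4.N_mem _))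
      rw [Sys.negUnipotent_eq S]
      exact mul_mem (mul_mem (Subgroup.subset_closure ⟨5, by decide, _, rfl⟩)
        (Subgroup.subset_closure ⟨10, by decide, _, rfl⟩))
        (Subgroup.subset_closure ⟨11, by decide, _, rfl⟩)
    · exact mul_mem ((D4.tw hq hK).X_le_U 0 ((D4.mem_XX0 hq hK).2 ⟨β', rfl⟩))
        (QP_le 0 (QP_conj (RL_le_levi 0 hyL) hyG hu''))
    · calc y * h * g * (y * h)⁻¹ = y * (h * g * h⁻¹) * y⁻¹ := by group
        _ = _ := by rw [hconj]; group
  by_cases hscal : M'.1 0 1 = 0 ∧ M'.1 1 0 = 0 ∧ M'.1 0 0 * M'.1 0 0 = a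
  · obtain ⟨hz, he, -⟩ := hsc _ hscal.2.2
    refine hfinal 1 ?_
    simp [hz, he]
  · obtain ⟨Y, hY⟩ := exists_corner_entry a.ne_zero M' hscal
    exact hfinal Y hY

end CfsgLib.D4Cover
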