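import Cfsg.Agent.D4Cover.Large

/-!
`³D₄(3)`: an element of order 8 of a short Levi subgroup whose class squared covers the non-identity
elements.
-/

set_option autoImplicit false
set_option linter.unusedSectionVars false
set_option linter.unusedFintypeInType false

namespace CfsgLib.D4Cover

open Cfsg.Lie CfsgLib.Chevalley CfsgLib.TwistedLie
open scoped MatrixGroups

local notation "S" => sysD4

theorem top_orth : ∀ r : Fin chevD4.nroots,
    (∀ m < chevD4.rank, m ∉ D4.blkN 0 → (chevD4.coroot.getD (r : ℕ) #[]).getD m 0 = 0) →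
      orthB chevD4 (r : ℕ) 23 = true ∧ orthB chevD4 (r : ℕ) 0 = true := by
  decide +kernel

theorem rad_parity : ∀ r : Fin chevD4.nroots, 12 ≤ (r : ℕ) → (r : ℕ) ≠ 23 →
    (¬ ∀ m < chevD4.rank, m ∉ D4.blkN 0 → (chevD4.coroot.getD (r : ℕ) #[]).getD m 0 = 0) →
    (chevD4.cartan 0 (r : ℕ) + chevD4.cartan 2 (r : ℕ) + chevD4.cartan 3 (r : ℕ)) % 2 = 1 := by
  decide +kernel

theorem move_parity : ∀ r : Fin chevD4.nroots, ∃ s : Fin chevD4.nroots,
    wL chevD4 (D4.wdN [1, 0]) (s : ℕ) = (r : ℕ) ∧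
      (chevD4.cartan 1 (s : ℕ) -
        (chevD4.cartan 0 (r : ℕ) + chevD4.cartan 2 (r : ℕ) + chevD4.cartan 3 (r : ℕ))) % 2 = 0 := by
  decide +kernel

theorem neg_one_zpow_parity {G : Type*} [Group G] [HasDistribNeg G] {a b : ℤ} (h : (a - b) % 2 = 0) :
    (-1 : G) ^ a = (-1) ^ b := by
  obtain ⟨k, hk⟩ := Int.dvd_of_emod_eq_zero h
  rw [show a = 2 * k + b by omega, zpow_add, zpow_mul, zpow_two, neg_mul_neg, one_mul, one_zpow, one_mul]

/-- The trace of `g · diag (1, -1)`. -/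
def ttr {F : Type*} [Field F] (g : SL(2, F)) : F := g.1 0 0 - g.1 1 1

theorem ttr_conj {F : Type*} [Field F] (h1 : (-1 : F) ≠ 0) (Y g : SL(2, F)) :
    ttr (Y * g * dconj (-1) h1 Y⁻¹) = ttr g ∧ ttr (dconj (-1) h1 Y * g * Y⁻¹) = ttr g := by
  have hd := SL2Rel.det_eq Y
  constructor <;>
    simp [ttr, dconj_val, Matrix.SpecialLinearGroup.coe_mul, Matrix.SpecialLinearGroup.coe_inv,
      Matrix.adjugate_fin_two, Matrix.mul_apply, Matrix.vecMul, dotProduct, Fin.sum_univ_two] <;>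
    linear_combination (g.1 0 0 - g.1 1 1) * hd

variable {K : Type*} [Field K]

/-- `[[0, -1], [1, -t]]`. -/
def Sel (t : K) : SL(2, K) := ⟨!![0, -1; 1, -t], by simp [Matrix.det_fin_two]⟩

theorem Sel_val (t : K) : (Sel t : Matrix (Fin 2) (Fin 2) K) = !![0, -1; 1, -t] := rfl

theorem RL0_comm_top {y : GL chevD4.Idx K} (hy : y ∈ RL K 0) {r : ℕ} (hr : r = 23 ∨ r = 0) (t : K) :
    Commute y (Sys.xG S K r t) := by
  induction hy using Subgroup.closure_induction with
  | mem x hx =>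
    obtain ⟨s, u, hs, rfl⟩ := hx
    obtain ⟨h1, h2⟩ := top_orth ⟨s, hs.1⟩ hs.2
    rcases hr with rfl | rfl
    · exact orth_commute S K h1 u t
    · exact orth_commute S K h2 u t
  | one => exact Commute.one_left _
  | mul x y _ _ hx hy => exact hx.mul_left hy
  | inv x _ hx => exact hx.inv_left

/-- The central torus element of the short Levi subgroup. -/
noncomputable def zJ (K : Type*) [Field K] (q : ℕ) : GL chevD4.Idx K := tor chevD4 K (D4.cJ q (-1))

/-- A representative of the reflection in the highest root. -/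
noncomputable def nTop (K : Type*) [Field K] : GL chevD4.Idx K :=
  nL S K (D4.wdN [1, 0]) * nL S K (D4.wdN [1]) * (nL S K (D4.wdN [1, 0]))⁻¹

variable [Fintype K] {q : ℕ} (hq : IsPrimePow q) (hK : Fintype.card K = q ^ 3)
include hq hK

local notation "G1" => chevD4.genSubgroup K (d4Words K q)
local notation "δ" => dA (-1 : Kˣ)
set_option quotPrecheck false in
local notation "tw" => dconj (-1 : K) (neg_ne_zero.2 one_ne_zero)

theorem neg_fix : ((-1 : Kˣ)) ^ q = -1 := Units.ext (by simp [D4.negq hq hK])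

theorem dA_neg_sq : δ * δ = 1 := by
  rw [dA, ← map_mul, ← Pi.mulSingle_mul, neg_mul_neg, one_mul, Pi.mulSingle_one, map_one]

theorem dA_twist (g : SL(2, K)) : δ * phiJ hq hK g = phiJ hq hK (tw g) * δ := by
  rw [dA_phiJ hq hK (neg_fix hq hK)]
  rfl

theorem pair_eq (g1 g2 : SL(2, K)) :
    phiJ hq hK g1 * δ * (phiJ hq hK g2 * δ) = phiJ hq hK (g1 * tw g2) := by
  rw [map_mul]
  calc phiJ hq hK g1 * δ * (phiJ hq hK g2 * δ) = phiJ hq hK g1 * (δ * phiJ hq hK g2) * δ := by group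
    _ = _ := by rw [dA_twist hq hK, ← mul_assoc, mul_assoc _ δ, dA_neg_sq hq hK, mul_one]

theorem z_eq : phiJ hq hK (SL2Rel.dia (-1 : Kˣ)) = zJ K q := phiJ_dia hq hK _

theorem z_sq : zJ K q * zJ K q = 1 := by
  rw [← z_eq hq hK, ← map_mul]
  convert map_one (phiJ hq hK)
  apply Matrix.SpecialLinearGroup.ext
  intro i j
  fin_cases i <;> fin_cases j <;>
    simp [SL2Rel.dia_val, Matrix.SpecialLinearGroup.coe_mul, Matrix.mul_apply, Fin.sum_univ_two]

theorem tw_tw (g : SL(2, K)) : tw (tw g) = g ∧ ttr (tw g) = ttr g := by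
  refine ⟨?_, ?_⟩
  · apply Subtype.ext
    rw [dconj_val, dconj_val]
    conv_rhs => rw [Matrix.eta_fin_two g.1]
    simp
  · simp [ttr, dconj_val]

theorem tor_fix {P : Set ℕ} (hP : Sys.Closed S P) {c : ℕ → Kˣ} {u : GL chevD4.Idx K}
    (hu : u ∈ uSub chevD4 K P) (h : tor chevD4 K c * u = u * tor chevD4 K c) :
    u ∈ uSub chevD4 K {r ∈ P | torusVal chevD4 c r = 1} := by
  obtain ⟨t, ht, rfl⟩ := Sys.exists_ordProd_half S K hP hu
  have key : ∀ L : List ℕ, (∀ r ∈ L, r < chevD4.nroots) →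
      tor chevD4 K c * Sys.wG S K (L.map fun r => (r, t r)) * (tor chevD4 K c)⁻¹ =
        Sys.wG S K (L.map fun r => (r, (torusVal chevD4 c r : K) * t r)) := by
    intro L
    induction L with
    | nil => intro; simp [Sys.wG]
    | cons a L ih =>
      intro hL
      have ih' := ih fun r hr => hL r (List.mem_cons_of_mem _ hr)
      simp only [Sys.wG, List.map_cons, List.prod_cons] at ih' ⊢
      rw [← ih', ← Sys.tor_conj S K c (hL a (List.mem_cons_self ..))]
      group
  have e : tor chevD4 K c * Sys.ordProd S K t (chevD4.nroots / 2) * (tor chevD4 K c)⁻¹ =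
      Sys.ordProd S K (fun r => (torusVal chevD4 c r : K) * t r) (chevD4.nroots / 2) :=
    key _ fun r hr => by
      rw [List.mem_range'_1] at hr
      omega
  rw [h, mul_inv_cancel_right] at e
  have h4 : ∀ L : List ℕ, (∀ r ∈ L, chevD4.nroots / 2 ≤ r ∧ r < chevD4.nroots) →
      Sys.wG S K (L.map fun r => (r, t r)) ∈
        uSub chevD4 K {r ∈ P | torusVal chevD4 c r = 1} := by
    intro L
    induction L with
    | nil => intro; simp [Sys.wG]
    | cons a L ih =>
      intro hL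
      have ih' := ih fun r hr => hL r (List.mem_cons_of_mem _ hr)
      obtain ⟨ha1, ha2⟩ := hL a (List.mem_cons_self ..)
      simp only [Sys.wG, List.map_cons, List.prod_cons] at ih' ⊢
      refine mul_mem ?_ ih'
      by_cases h0 : t a = 0
      · rw [h0, Sys.xG_zero]; exact one_mem _
      · refine Sys.xG_mem_uSub S K (P := {r ∈ P | torusVal chevD4 c r = 1}) ⟨(ht a h0).1, ?_⟩ ha1 ha2 _
        exact Units.ext ((mul_eq_right₀ h0).1 (Sys.ordProd_inj_half S K e ha1 ha2).symm)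
  exact h4 _ fun r hr => by
    rw [List.mem_range'_1] at hr
    omega

/-- An element of the short Levi subgroup whose fourth power is central fixes nothing in the radical. -/
theorem free_levi (h2 : (2 : K) ≠ 0) {y : GL chevD4.Idx K} (hy : y ∈ RL K 0) (hyG : y ∈ G1)
    (h4 : (y * δ) ^ 4 = zJ K q) : Free (QP K q 0) (y * δ) := by
  have hG : y * δ ∈ G1 := mul_mem hyG (tor_mem hq hK (single_mem hq hK (neg_fix hq hK)))
  refine ⟨fun u hu => QP_conj (mul_mem (RL_le_levi 0 hy) (tor_levi 0 _)) hG hu, fun u hu h => ?_⟩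
  have hz : zJ K q * u = u * zJ K q := h4 ▸ (Commute.pow_left h 4).eq
  have hmem := tor_fix hq hK (Sys.closed_outSet S DefCharBlocks.D4.exists_support _) hu.1 hz
  have hle : uSub chevD4 K {r ∈ outSet chevD4 (blkSet 0) | torusVal chevD4 (D4.cJ q (-1 : Kˣ)) r = 1} ≤
      (Sys.xHom S K 23).range := by
    refine Sys.uSub_le S K fun r hr h12 h24 t => ?_
    by_cases h23 : r = 23
    · exact h23 ▸ ⟨Multiplicative.ofAdd t, rfl⟩
    · exfalso
      have hodd := rad_parity ⟨r, h24⟩ h12 h23 (fun hh => hr.1 ⟨h24, hh⟩)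
      have hne : (-1 : Kˣ) ≠ 1 := fun hh => h2 (by
        have := congrArg Units.val hh
        simp only [Units.val_neg, Units.val_one] at this
        linear_combination -this)
      have hv := hr.2
      rw [D4.cJ_val, neg_fix hq hK, show (-1 : Kˣ) ^ (q ^ 2) = -1 by
        rw [sq, pow_mul, neg_fix hq hK, neg_fix hq hK], ← zpow_add, ← zpow_add] at hv
      refine hne (((neg_one_zpow_parity (b := (1 : ℤ)) ?_).trans (zpow_one _)).symm.trans hv)
      simp only [] at hodd
      omega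
  obtain ⟨m, hm⟩ := hle hmem
  set t := Multiplicative.toAdd m
  have hu' : u = Sys.xG S K 23 t := hm.symm
  have h1 : (y * δ) * Sys.xG S K 23 t * (y * δ)⁻¹ = Sys.xG S K 23 (-t) := by
    have hd : δ * Sys.xG S K 23 t * δ⁻¹ = Sys.xG S K 23 (-t) := by
      rw [dA, Sys.tor_conj S K _ (by decide), torusVal_top, Pi.mulSingle_eq_same]
      simp
    calc (y * δ) * Sys.xG S K 23 t * (y * δ)⁻¹ = y * (δ * Sys.xG S K 23 t * δ⁻¹) * y⁻¹ := by group
      _ = _ := by rw [hd, (RL0_comm_top hy (Or.inl rfl) _).eq, mul_inv_cancel_right]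
  rw [← hu', h, mul_inv_cancel_right, hu'] at h1
  have h3 := xG_inj S K (by decide) h1
  have : t = 0 := by
    have : (2 : K) * t = 0 := by linear_combination h3
    exact (mul_eq_zero.1 this).resolve_left h2
  rw [hu', this, Sys.xG_zero]

section

variable (h3 : (3 : K) = 0) (hns : ∀ z : K, z * z ≠ 2)
include h3 hns

theorem two_ne : (2 : K) ≠ 0 := fun h => hns 0 (by rw [h, mul_zero])

/-- Elements of trace `± 1` and determinant `-1` are conjugate to the standard ones. -/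
theorem exists_std {g : SL(2, K)} {t : K} (ht : t = 1 ∨ t = -1) (hg : ttr g = t) :
    ∃ Y : SL(2, K), Y * g * tw Y⁻¹ = Sel t := by
  have hd := SL2Rel.det_eq g
  set A := g.1 0 0 with hA
  set B := g.1 0 1 with hB
  set C := g.1 1 0 with hC
  set D := g.1 1 1 with hD
  have hAD : A - D = t := hg
  have ht2 : t * t = 1 := by rcases ht with rfl | rfl <;> ring
  have hC0 : C ≠ 0 := fun h => hns (A + D) (by
    linear_combination (A - D + t) * hAD + ht2 + 4 * hd + 4 * B * h + h3)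
  obtain ⟨u, y, huy⟩ : ∃ u y : K, C * (u * u) - 2 / C * (y * y) = 1 := by
    obtain ⟨p', hp', hc', n, hn⟩ := exists_char_pow hq three_ne_zero hK
    have h2' : (-(2 / C)) ≠ 0 := neg_ne_zero.2 (div_ne_zero (two_ne hq hK h3 hns) hC0)
    have hodd : Fintype.card K % 2 = 1 := by
      rw [← Nat.odd_iff]
      refine Nat.not_even_iff_odd.1 fun he => ?_
      have := (FiniteField.even_card_iff_char_two (F := K)).2 (Nat.even_iff.1 he)
      haveI := ringChar.of_eq this
      exact two_ne hq hK h3 hns (CharP.cast_eq_zero K 2)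
    obtain ⟨u, y, h⟩ := FiniteField.exists_root_sum_quadratic
      (f := Polynomial.C C * Polynomial.X ^ 2 + Polynomial.C (-1))
      (g := Polynomial.C (-(2 / C)) * Polynomial.X ^ 2)
      (by rw [Polynomial.degree_add_C (by rw [Polynomial.degree_C_mul_X_pow 2 hC0]; decide),
        Polynomial.degree_C_mul_X_pow 2 hC0]; rfl)
      (by rw [Polynomial.degree_C_mul_X_pow 2 h2']; rfl) hodd
    simp at h
    exact ⟨u, y, by linear_combination h⟩
  obtain ⟨x, hx⟩ : ∃ x, x = u + (A + D) * y / (2 * C) := ⟨_, rfl⟩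
  have hD1 : C * (x * x) - (D + A) * (x * y) + B * (y * y) = 1 := by
    have h4 : (A + D) * (A + D) - 4 * (B * C) = 2 := by
      linear_combination (A - D + t) * hAD + ht2 + 4 * hd + h3
    have h2 := two_ne hq hK h3 hns
    rw [← huy, hx]
    field_simp
    linear_combination -(y * y) * h4 + (y * y * 2) * h3
  have hZ : x * (C * x - D * y) - (A * x - B * y) * y = 1 := by linear_combination hD1
  obtain ⟨Z, hZv⟩ : ∃ Z : SL(2, K),
      (Z : Matrix (Fin 2) (Fin 2) K) = !![x, A * x - B * y; y, C * x - D * y] :=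
    ⟨⟨!![x, A * x - B * y; y, C * x - D * y], by rw [Matrix.det_fin_two_of]; exact hZ⟩, rfl⟩
  refine ⟨Z⁻¹, ?_⟩
  rw [inv_inv, mul_assoc, inv_mul_eq_iff_eq_mul]
  apply Matrix.SpecialLinearGroup.ext
  intro i j
  fin_cases i <;> fin_cases j <;>
    simp [dconj_val, Sel_val, hZv, Matrix.SpecialLinearGroup.coe_mul, Matrix.mul_apply, Matrix.vecMul,
      dotProduct, Fin.sum_univ_two, ← hA, ← hB, ← hC, ← hD] <;>
    first
      | linear_combination (A * x - B * y) * hAD.symm - x * hd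
      | linear_combination (C * x - D * y) * hAD.symm - y * hd
      | linear_combination -((A * x - B * y) * hAD.symm - x * hd)
      | linear_combination -((C * x - D * y) * hAD.symm - y * hd)
      | ring

theorem sel_pow (t : K) (ht : t = 1 ∨ t = -1) :
    (phiJ hq hK (Sel t) * δ) ^ 4 = zJ K q := by
  rw [show (4 : ℕ) = 2 * 2 from rfl, pow_mul, sq (phiJ hq hK (Sel t) * δ), pair_eq hq hK, sq, ← map_mul,
    ← z_eq hq hK]
  congr 1
  apply Matrix.SpecialLinearGroup.ext
  intro i j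
  fin_cases i <;> fin_cases j <;> rcases ht with rfl | rfl <;>
    simp [dconj_val, Sel_val, SL2Rel.dia_val, Matrix.SpecialLinearGroup.coe_mul, Matrix.mul_apply,
      Matrix.vecMul, dotProduct, Fin.sum_univ_two] <;>
    first
      | linear_combination h3
      | linear_combination -h3
      | linear_combination 2 * h3
      | linear_combination -2 * h3

theorem std_conj {g : SL(2, K)} {t : K} (ht : t = 1 ∨ t = -1) (hg : ttr g = t) :
    ∃ k ∈ G1 ⊓ RL K 0, phiJ hq hK g * δ = k * (phiJ hq hK (Sel t) * δ) * k⁻¹ := by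
  obtain ⟨Y, hY⟩ := exists_std hq hK h3 hns ht hg
  refine ⟨phiJ hq hK Y⁻¹, phiJ_mem hq hK _, ?_⟩
  rw [← hY, map_mul _ _ (tw _), map_mul _ Y g, mul_assoc (phiJ hq hK Y * phiJ hq hK g),
    ← dA_twist hq hK, map_inv]
  group

theorem trace_pow {g : SL(2, K)} {t : K} (ht : t = 1 ∨ t = -1) (hg : ttr g = t) :
    (phiJ hq hK g * δ) ^ 4 = zJ K q := by
  obtain ⟨Y, hY⟩ := exists_std hq hK h3 hns ht hg
  have e : phiJ hq hK g * δ = phiJ hq hK Y⁻¹ * (phiJ hq hK (Sel t) * δ) * (phiJ hq hK Y⁻¹)⁻¹ := by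
    rw [← hY, map_mul _ _ (tw _), map_mul _ Y g, mul_assoc (phiJ hq hK Y * phiJ hq hK g),
      ← dA_twist hq hK, map_inv]
    group
  rw [e, conj_pow, sel_pow hq hK h3 hns t ht, ← z_eq hq hK, ← map_inv, ← map_mul, ← map_mul]
  congr 1
  have hd := SL2Rel.det_eq Y
  apply Matrix.SpecialLinearGroup.ext
  intro i j
  fin_cases i <;> fin_cases j <;>
    simp [SL2Rel.dia_val, Matrix.SpecialLinearGroup.coe_mul, Matrix.SpecialLinearGroup.coe_inv,
      Matrix.adjugate_fin_two, Matrix.mul_apply, Matrix.vecMul, dotProduct, Fin.sum_univ_two] <;>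
    first
      | linear_combination hd
      | linear_combination -hd
      | ring

/-- A matrix of determinant one is a product of two of trace `± 1` and determinant `-1`. -/
theorem exists_factor (M : SL(2, K)) :
    ∃ g : SL(2, K), ttr g = 1 ∧ (ttr (g⁻¹ * M) = 1 ∨ ttr (g⁻¹ * M) = -1) := by
  have hd := SL2Rel.det_eq M
  by_cases hs : M.1 0 1 = 0 ∧ M.1 1 0 = 0 ∧ M.1 0 0 * M.1 0 0 = 1
  · obtain ⟨hb, hc, ha⟩ := hs
    have hD : M.1 1 1 = M.1 0 0 := by
      rw [hb, zero_mul, sub_zero] at hd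
      linear_combination M.1 0 0 * hd - M.1 1 1 * ha
    refine ⟨Sel 1, by simp [ttr, Sel_val], ?_⟩
    rcases mul_self_eq_one_iff.1 ha with h | h <;> [right; left] <;>
      simp [ttr, Sel_val, Matrix.SpecialLinearGroup.coe_mul, Matrix.SpecialLinearGroup.coe_inv,
        Matrix.adjugate_fin_two, Matrix.mul_apply, Matrix.vecMul, dotProduct, Fin.sum_univ_two, hb, hc, hD, h]
  obtain ⟨Y, hY⟩ := exists_corner_entry (a := (1 : K)) (e := 1) one_ne_zero M hs
  have h1 : dconj (1 : K) one_ne_zero Y⁻¹ = Y⁻¹ := by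
    apply Subtype.ext
    rw [dconj_val, inv_one, one_mul, one_mul]
    exact (Matrix.eta_fin_two _).symm
  rw [h1] at hY
  set N := Y * M * Y⁻¹ with hN
  have hdN := SL2Rel.det_eq N
  suffices ∃ g : SL(2, K), ttr g = 1 ∧ (ttr (g⁻¹ * N) = 1 ∨ ttr (g⁻¹ * N) = -1) by
    obtain ⟨g, hg1, hg2⟩ := this
    refine ⟨Y⁻¹ * g * tw Y, ?_, ?_⟩
    · have := (ttr_conj (neg_ne_zero.2 (one_ne_zero (α := K))) Y⁻¹ g).1
      rw [inv_inv] at this
      rw [this, hg1]
    · have e : (Y⁻¹ * g * tw Y)⁻¹ * M = tw Y⁻¹ * (g⁻¹ * N) * Y⁻¹⁻¹ := by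
        rw [hN, map_inv]; group
      rw [e, (ttr_conj (neg_ne_zero.2 (one_ne_zero (α := K))) Y⁻¹ _).2]
      exact hg2
  set b := N.1 0 1 with hb
  set c := N.1 1 0 with hc
  rw [hY, one_mul] at hdN
  obtain ⟨p, r, s, hdet, hval⟩ : ∃ p r s : K, p * (p - 1) - r * s = 1 ∧
      ((p - 1) - r * c + s * b - p * (1 + b * c) = 1 ∨ (p - 1) - r * c + s * b - p * (1 + b * c) = -1) := by
    have h2 := two_ne hq hK h3 hns
    by_cases hb0 : b = 0
    · by_cases hc0 : c = 0
      · exfalso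
        refine hs ?_
        have hNI : N = 1 := by
          apply Matrix.SpecialLinearGroup.ext
          intro i j
          fin_cases i <;> fin_cases j
          · simpa using hY
          · simpa [← hb] using hb0
          · simpa [← hc] using hc0
          · rw [hb0, hc0] at hdN
            simpa using hdN
        have hM : M = 1 := by
          rw [hN, mul_inv_eq_one, mul_eq_left] at hNI
          exact hNI
        simp [hM]
      · refine ⟨0, 1 / c, -c, ?_, Or.inl ?_⟩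
        · field_simp; ring
        · rw [hb0]; field_simp; linear_combination -h3
    by_cases hc0 : c = 0
    · refine ⟨0, b, -1 / b, ?_, Or.inl ?_⟩
      · field_simp; ring
      · rw [hc0]; field_simp; linear_combination -h3
    by_cases hk : b * c = -1
    · refine ⟨0, 1 / c, 1 / b, ?_, Or.inr ?_⟩
      · field_simp; linear_combination -hk
      · field_simp; ring
    have hk2 : b * c * (b * c + 1) ≠ 0 :=
      mul_ne_zero (mul_ne_zero hb0 hc0) fun h => hk (by linear_combination h)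
    obtain ⟨p', hp', hc', n, hn⟩ := exists_char_pow hq three_ne_zero hK
    have hodd : Fintype.card K % 2 = 1 := by
      rw [← Nat.odd_iff]
      refine Nat.not_even_iff_odd.1 fun he => ?_
      have := (FiniteField.even_card_iff_char_two (F := K)).2 (Nat.even_iff.1 he)
      haveI := ringChar.of_eq this
      exact h2 (CharP.cast_eq_zero K 2)
    obtain ⟨p, z, hpz⟩ := FiniteField.exists_root_sum_quadratic
      (f := Polynomial.C (b * c * (b * c + 1)) * Polynomial.X ^ 2 + Polynomial.C (1 - b * c))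
      (g := Polynomial.C (-1 : K) * Polynomial.X ^ 2)
      (by rw [Polynomial.degree_add_C (by rw [Polynomial.degree_C_mul_X_pow 2 hk2]; decide),
        Polynomial.degree_C_mul_X_pow 2 hk2]; rfl)
      (by rw [Polynomial.degree_C_mul_X_pow 2 (neg_ne_zero.2 one_ne_zero)]; rfl) hodd
    simp at hpz
    obtain ⟨r, hr⟩ : ∃ r, r = (1 - p * (b * c) + z) / (2 * c) := ⟨_, rfl⟩
    obtain ⟨s, hs'⟩ : ∃ s, s = (p * (b * c) - 1 + r * c) / b := ⟨_, rfl⟩
    refine ⟨p, r, s, ?_, Or.inl ?_⟩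
    · rw [hs', hr]
      field_simp
      linear_combination hpz + (b * c * (p ^ 2 - 2 * p - 1)) * h3
    · rw [hs']
      field_simp
      linear_combination -h3
  refine ⟨⟨!![p, r; s, p - 1], by rw [Matrix.det_fin_two_of]; exact hdet⟩, by simp [ttr], ?_⟩
  have hd11 : N.1 1 1 = 1 + b * c := by linear_combination hdN
  obtain ⟨g, hgv⟩ : ∃ g : SL(2, K), g = ⟨!![p, r; s, p - 1], by rw [Matrix.det_fin_two_of]; exact hdet⟩ :=
    ⟨_, rfl⟩
  have hgm : (g : Matrix (Fin 2) (Fin 2) K) = !![p, r; s, p - 1] := by rw [hgv]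
  rw [← hgv]
  have ev : ttr (g⁻¹ * N) = (p - 1) - r * c + s * b - p * (1 + b * c) := by
    simp [ttr, hgm, Matrix.SpecialLinearGroup.coe_mul, Matrix.SpecialLinearGroup.coe_inv,
      Matrix.adjugate_fin_two, Matrix.mul_apply, Matrix.vecMul, dotProduct, Fin.sum_univ_two, hY, hd11,
      ← hb, ← hc]
    ring
  rwa [ev]

omit h3 hns

theorem nTop_mem : nTop K ∈ G1 :=
  mul_mem (mul_mem (nL_mem hq hK _) (nL_mem hq hK _)) (inv_mem (nL_mem hq hK _))

theorem nTop_comm {y : GL chevD4.Idx K} (hy : y ∈ RL K 0) :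
    nTop K * y * (nTop K)⁻¹ = y := by
  have hn : nL S K (D4.wdN [1]) = Sys.xG S K 14 1 * Sys.xG S K 9 (-1) * Sys.xG S K 14 1 := by
    rw [show D4.wdN [1] = [1] from rfl]
    simp [nL, D4.simple1, Sys.nG_eq, D4.neg14]
  obtain ⟨e, -, h14⟩ := nL_conj (K := K) (wdN_lt [1, 0]) (show 14 < chevD4.nroots by decide)
  obtain ⟨e', -, h9⟩ := nL_conj (K := K) (wdN_lt [1, 0]) (show 9 < chevD4.nroots by decide)
  rw [show wL chevD4 (D4.wdN [1, 0]) 14 = 23 by decide +kernel] at h14
  rw [show wL chevD4 (D4.wdN [1, 0]) 9 = 0 by decide +kernel] at h9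
  have e1 : nTop K = Sys.xG S K 23 (e * 1) * Sys.xG S K 0 (e' * -1) * Sys.xG S K 23 (e * 1) := by
    have a := fun t => eq_mul_inv_iff_mul_eq.2 (h14 t).symm
    have b := fun t => eq_mul_inv_iff_mul_eq.2 (h9 t).symm
    rw [nTop, hn, a, b]
    group
  have hc : Commute y (nTop K) := by
    rw [e1]
    exact ((RL0_comm_top hy (Or.inl rfl) _).mul_right (RL0_comm_top hy (Or.inr rfl) _)).mul_right
      (RL0_comm_top hy (Or.inl rfl) _)
  rw [← hc.eq, mul_inv_cancel_right]

theorem nTop_dA : nTop K * δ * (nTop K)⁻¹ = δ * zJ K q := by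
  have hs := single_mem hq hK (neg_fix hq hK)
  obtain ⟨c, hc, e⟩ := nL_tor' hq hK [1, 0] hs
  have h14 : torusVal chevD4 c 14 = -1 := by
    have := nL_torusVal (wdN_lt [1, 0]) e (show 14 < chevD4.nroots by decide)
    rw [show wL chevD4 (D4.wdN [1, 0]) 14 = 23 by decide +kernel, torusVal_top,
      Pi.mulSingle_eq_same] at this
    exact this.symm
  have h1 : nL S K (D4.wdN [1]) * tor chevD4 K c * (nL S K (D4.wdN [1]))⁻¹ =
      tor chevD4 K c * tor chevD4 K (Pi.mulSingle 1 (-1 : Kˣ)) := by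
    rw [show D4.wdN [1] = [1] from rfl]
    simp only [nL, List.map_cons, List.map_nil, List.prod_singleton]
    rw [Sys.nG_tor S K (by decide), mul_inv_cancel_right, D4.simple1, h14, inv_neg, inv_one, map_mul]
  obtain ⟨f, hf, e'⟩ := nL_tor hq hK [1, 0] hs
  have h2 : tor chevD4 K f = zJ K q := by
    refine Cset_congr hq hK fun r hr => ?_
    obtain ⟨s, hs1, hs2⟩ := move_parity ⟨r, hr⟩
    have := nL_torusVal (wdN_lt [1, 0]) e' s.isLt
    rw [hs1] at this
    rw [this, torusVal_single K _ (by decide), D4.cJ_val, neg_fix hq hK,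
      show (-1 : Kˣ) ^ (q ^ 2) = -1 by rw [sq, pow_mul, neg_fix hq hK, neg_fix hq hK],
      ← zpow_add, ← zpow_add]
    exact neg_one_zpow_parity hs2
  rw [← h2, dA]
  set M := nL S K (D4.wdN [1, 0])
  calc nTop K * tor chevD4 K (Pi.mulSingle 1 (-1)) * (nTop K)⁻¹
      = M * (nL S K (D4.wdN [1]) * (M⁻¹ * (tor chevD4 K (Pi.mulSingle 1 (-1)) * M)) *
          (nL S K (D4.wdN [1]))⁻¹) * M⁻¹ := by simp only [nTop, M]; group
    _ = (M * tor chevD4 K c) * tor chevD4 K (Pi.mulSingle 1 (-1)) * M⁻¹ := by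
        rw [← e, inv_mul_cancel_left, h1]; group
    _ = tor chevD4 K (Pi.mulSingle 1 (-1)) * (M * tor chevD4 K (Pi.mulSingle 1 (-1)) * M⁻¹) := by
        rw [e]; group
    _ = _ := by rw [e', mul_inv_cancel_right]

include h3 hns

theorem trace_conj {g : SL(2, K)} (hg : ttr g = 1 ∨ ttr g = -1) :
    ∃ k ∈ G1, phiJ hq hK g * δ = k * (phiJ hq hK (Sel 1) * δ) * k⁻¹ := by
  rcases hg with hg | hg
  · obtain ⟨k, hk, e⟩ := std_conj hq hK h3 hns (Or.inl rfl) hg
    exact ⟨k, (Subgroup.mem_inf.1 hk).1, e⟩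
  · obtain ⟨k, hk, e⟩ := std_conj hq hK h3 hns (Or.inr rfl) hg
    have hg' : ttr (Sel (1 : K) * SL2Rel.dia (-1 : Kˣ)) = -1 := by
      simp [ttr, Sel_val, SL2Rel.dia_val, Matrix.SpecialLinearGroup.coe_mul, Matrix.mul_apply,
        Matrix.vecMul, dotProduct, Fin.sum_univ_two]
    obtain ⟨l, hl, e'⟩ := std_conj hq hK h3 hns (Or.inr rfl) hg'
    have e'' : nTop K * (phiJ hq hK (Sel 1) * δ) * (nTop K)⁻¹ =
        phiJ hq hK (Sel (1 : K) * SL2Rel.dia (-1 : Kˣ)) * δ := by
      rw [show nTop K * (phiJ hq hK (Sel 1) * δ) * (nTop K)⁻¹ =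
        (nTop K * phiJ hq hK (Sel 1) * (nTop K)⁻¹) * (nTop K * δ * (nTop K)⁻¹) by group,
        nTop_comm hq hK (Subgroup.mem_inf.1 (phiJ_mem hq hK _)).2, nTop_dA hq hK, map_mul, z_eq,
        mul_assoc]
      congr 1
      rw [zJ, dA, ← map_mul, ← map_mul, mul_comm]
    refine ⟨k * l⁻¹ * nTop K, mul_mem (mul_mem (Subgroup.mem_inf.1 hk).1
      (inv_mem (Subgroup.mem_inf.1 hl).1)) (nTop_mem hq hK), ?_⟩
    calc phiJ hq hK g * δ = k * (phiJ hq hK (Sel (-1)) * δ) * k⁻¹ := e
      _ = k * l⁻¹ * (l * (phiJ hq hK (Sel (-1)) * δ) * l⁻¹) * (k * l⁻¹)⁻¹ := by group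
      _ = _ := by rw [← e', ← e'']; group

theorem three_cover {p : ℕ} [Fact p.Prime] [CharP K p] : ∃ x ∈ G1, ¬ p ∣ orderOf x ∧
    ∀ g ∈ G1, g ≠ 1 → Covered G1 x g := by
  have h2 := two_ne hq hK h3 hns
  have hdG : δ ∈ G1 := tor_mem hq hK (single_mem hq hK (neg_fix hq hK))
  refine ⟨phiJ hq hK (Sel 1) * δ, mul_mem (Subgroup.mem_inf.1 (phiJ_mem hq hK _)).1 hdG, ?_, ?_⟩
  · intro hdvd
    have h8 : (phiJ hq hK (Sel 1) * δ) ^ 8 = 1 := by
      rw [show (8 : ℕ) = 4 * 2 from rfl, pow_mul, sel_pow hq hK h3 hns 1 (Or.inl rfl), sq, z_sq hq hK]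
    have h := hdvd.trans (orderOf_dvd_of_pow_eq_one h8)
    have : p = 2 := (Nat.prime_dvd_prime_iff_eq Fact.out Nat.prime_two).1
      ((Fact.out : p.Prime).dvd_of_dvd_pow (show p ∣ 2 ^ 3 from h))
    subst this
    exact h2 (CharP.cast_eq_zero K 2)
  intro g hg hg1
  obtain ⟨h, hh, v, hv, M, u, hu, e⟩ := levi_form hq hK hg hg1 (a := 1) (one_pow q)
  refine Covered.of_conj hh ?_
  obtain ⟨g1, h1, h2'⟩ := exists_factor hq hK h3 hns M
  set g2 := tw (g1⁻¹ * M) with hg2
  have hinv : tw g2 = g1⁻¹ * M := (tw_tw hq hK _).1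
  have h2'' : ttr g2 = 1 ∨ ttr g2 = -1 := by
    rwa [hg2, (tw_tw hq hK _).2]
  have em : phiJ hq hK M * dA 1 = (phiJ hq hK g1 * δ) * (phiJ hq hK g2 * δ) := by
    rw [pair_eq hq hK, hinv, mul_inv_cancel_left, show dA (1 : Kˣ) = 1 by simp [dA], mul_one]
  rw [e, em]
  have hmemRL : ∀ g, phiJ hq hK g ∈ RL K 0 := fun g => (Subgroup.mem_inf.1 (phiJ_mem hq hK g)).2
  have hmemG : ∀ g, phiJ hq hK g ∈ G1 := fun g => (Subgroup.mem_inf.1 (phiJ_mem hq hK g)).1
  have hbfree : Free (QP K q 0) (phiJ hq hK g2 * δ) := by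
    refine free_levi hq hK h2 (hmemRL _) (hmemG _) ?_
    rcases h2'' with h | h
    · exact trace_pow hq hK h3 hns (Or.inl rfl) h
    · exact trace_pow hq hK h3 hns (Or.inr rfl) h
  have hafree : Free (QN K q 0) (phiJ hq hK g1 * δ) := by
    have hn := n0_mem hq hK
    have ed : (n0 K)⁻¹ * δ * n0 K = δ := by
      have h := n0_tor hq hK (single_mem hq hK (neg_fix hq hK))
      rw [← dA, inv_eq_of_mul_eq_one_right (dA_neg_sq hq hK)] at h
      conv_lhs => rw [← h]
      group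
    have ez : (n0 K)⁻¹ * zJ K q * n0 K = zJ K q := by
      have h := n0_tor hq hK (D4.cJ_mem_Cset hq hK (-1 : Kˣ))
      have hzz : (tor chevD4 K (D4.cJ q (-1 : Kˣ)))⁻¹ = tor chevD4 K (D4.cJ q (-1 : Kˣ)) := by
        refine inv_eq_of_mul_eq_one_right ?_
        rw [← phiJ_dia hq hK, ← map_mul]
        convert map_one (phiJ hq hK)
        apply Matrix.SpecialLinearGroup.ext
        intro i j
        fin_cases i <;> fin_cases j <;>
          simp [SL2Rel.dia_val, Matrix.SpecialLinearGroup.coe_mul, Matrix.mul_apply, Matrix.vecMul,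
            dotProduct, Fin.sum_univ_two]
      rw [hzz] at h
      conv_lhs => rw [zJ, ← h]
      rw [zJ]
      group
    have hy : (n0 K)⁻¹ * (phiJ hq hK g1 * δ) * n0 K = ((n0 K)⁻¹ * phiJ hq hK g1 * n0 K) * δ := by
      conv_rhs => rw [← ed]
      group
    have hf := free_levi hq hK h2 (n0_inv_RL (hmemRL g1))
      (mul_mem (mul_mem (inv_mem hn) (hmemG g1)) hn) ?_
    · have h' := hf.conj (n := n0 K)
      rwa [← hy, show n0 K * ((n0 K)⁻¹ * (phiJ hq hK g1 * δ) * n0 K) * (n0 K)⁻¹ =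
        phiJ hq hK g1 * δ by group] at h'
    · rw [← hy]
      have := conj_pow (i := 4) (a := (n0 K)⁻¹) (b := phiJ hq hK g1 * δ)
      rw [inv_inv] at this
      rw [this, trace_pow hq hK h3 hns (Or.inl rfl) h1, ez]
  exact covered_mul (U := QP K q 0) (V := QN K q 0) ((QP_le 0).trans (Upos_le hq hK))
    ((QN_le 0).trans (Uneg_le hq hK)) hv hu hafree hbfree
    (trace_conj hq hK h3 hns (Or.inl h1)) (trace_conj hq hK h3 hns h2'')

end

end CfsgLib.D4Cover
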