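import Cfsg.Agent.D4Cover.TwoCoef
import Cfsg.Agent.D4Cover.Three

/-!
A semisimple element of order `21` of `³D₄(2)` and the Gauss forms covered by the square of its class.
-/

set_option autoImplicit false
set_option linter.unusedSectionVars false
set_option linter.unusedFintypeInType false

namespace CfsgLib.D4Cover

open Cfsg.Lie CfsgLib.Chevalley CfsgLib.TwistedLie
open scoped Matrix MatrixGroups

local notation "S" => sysD4

/-- A word with unit parameters, for evaluation. -/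
def w1 (L : List ℕ) : List (ℕ × List Mon) := L.map fun r => (r, [(1, 0, 0)])

/-- An entry of a word modulo two. -/
def ent2 (L : List ℕ) (R c : ℕ) : Bool :=
  decide ((((evalCol chevD4 (w1 L) c).filter fun y => decide (y.1 = R)).map fun y => y.2.1).sum % 2 = 1)

/-- Two words agree modulo two. -/
def eq2 (L L' : List ℕ) : Bool :=
  (L.all fun r => decide (r < chevD4.nroots)) && (L'.all fun r => decide (r < chevD4.nroots)) &&
    (List.range 28).all fun c => (List.range 28).all fun R => ent2 L R c == ent2 L' R c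

/-- The roots of the long root subgroup of type `A₂`. -/
def longR : List ℕ := [0, 1, 9, 14, 22, 23]

theorem long_exp : ∀ r ∈ longR, r < chevD4.nroots ∧
    (chevD4.cartan 0 r + 2 * chevD4.cartan 2 r + 4 * chevD4.cartan 3 r) % 7 = 0 := by
  decide +kernel

theorem rad_exp : ∀ r : Fin chevD4.nroots, 12 ≤ (r : ℕ) →
    (¬ ∀ m < chevD4.rank, m ∉ D4.blkN 1 → (chevD4.coroot.getD (r : ℕ) #[]).getD m 0 = 0) →
    (r : ℕ) ≠ 22 → (r : ℕ) ≠ 23 →
      (3 * (chevD4.cartan 0 (r : ℕ) + 2 * chevD4.cartan 2 (r : ℕ) + 4 * chevD4.cartan 3 (r : ℕ))) % 7 ≠ 0 := by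
  decide +kernel

theorem sigma_chk : eq2 [14, 9, 14, 9, 14, 9] [] = true ∧ eq2 [14, 9, 14, 14, 9, 14, 9, 14] [9, 14] = true := by
  decide +kernel

theorem move_chk : eq2 [14, 9, 22] [22, 14, 9] = false ∧ eq2 [14, 9, 23] [23, 14, 9] = false ∧
    eq2 [14, 9, 22, 23] [22, 23, 14, 9] = false := by
  decide +kernel

variable {K : Type*} [Field K] [Fintype K] [CharP K 2]

/-- The element of a word with unit parameters. -/
noncomputable def wd (K : Type*) [Field K] (L : List ℕ) : GL chevD4.Idx K :=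
  Sys.wG S K (L.map fun r => (r, (1 : K)))

theorem wd_append (L L' : List ℕ) : wd K (L ++ L') = wd K L * wd K L' := by
  simp [wd, Sys.wG]

theorem wd_nil : wd K [] = 1 := by simp [wd, Sys.wG]

theorem wd_single (r : ℕ) : wd K [r] = Sys.xG S K r 1 := by simp [wd, Sys.wG]

theorem xG_one_inv (r : ℕ) : (Sys.xG S K r (1 : K))⁻¹ = Sys.xG S K r 1 := by
  rw [Sys.xG_inv, CharTwo.neg_eq]

theorem wd_reverse (L : List ℕ) : wd K L.reverse = (wd K L)⁻¹ := by
  induction L with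
  | nil => simp [wd_nil]
  | cons a L ih =>
    rw [List.reverse_cons, wd_append, ih, show a :: L = [a] ++ L from rfl, wd_append, mul_inv_rev,
      wd_single, xG_one_inv]

theorem wd_entry {L : List ℕ} (hL : ∀ r ∈ L, r < chevD4.nroots) (R j : chevD4.Idx) :
    (wd K L : Matrix chevD4.Idx chevD4.Idx K) R j =
      if ent2 L (enc chevD4 R) (enc chevD4 j) then 1 else 0 := by
  have h := vev_evalCol (F := K) (Sys.wf S) 1 1 (w1 L) (fun e he => by
    obtain ⟨r, hr, rfl⟩ := List.mem_map.1 he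
    exact hL r hr) (enc chevD4 j)
  have e : (w1 L).map (fun e => (e.1, pev K 1 1 e.2)) = L.map fun r => (r, (1 : K)) := by
    simp [w1, List.map_map, Function.comp_def, pev]
  rw [e, bv_enc, Matrix.mulVec_single_one] at h
  have h' := congrFun h R
  rw [Matrix.col_apply] at h'
  rw [show (wd K L : Matrix chevD4.Idx chevD4.Idx K) = chevD4.wordMat K (L.map fun r => (r, (1 : K)))
    from Sys.wG_val S K _, h']
  have hl : ∀ l : List (ℕ × Mon), vev chevD4 K 1 1 l R =
      ((((l.filter fun y => decide (y.1 = enc chevD4 R)).map fun y => y.2.1).sum : ℤ) : K) := by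
    intro l
    induction l with
    | nil => simp [vev]
    | cons a l ih =>
      rw [vev_cons, Pi.add_apply, ih, List.filter_cons]
      by_cases hh : a.1 = enc chevD4 R
      · simp [hh, bv]
      · simp [hh, bv, Ne.symm hh]
  rw [hl, int_cast_two]
  simp only [ent2, decide_eq_true_eq]

attribute [local irreducible] ent2

theorem eq2_sound {L L' : List ℕ} (h : eq2 L L' = true) : wd K L = wd K L' := by
  simp only [eq2, Bool.and_eq_true, List.all_eq_true, decide_eq_true_eq, beq_iff_eq, List.mem_range] at h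
  apply Units.ext
  ext R j
  rw [wd_entry h.1.1, wd_entry h.1.2, h.2 _ (enc_lt j) _ (enc_lt R)]

theorem exists_enc {c : ℕ} (hc : c < 28) : ∃ j : chevD4.Idx, enc chevD4 j = c := by
  by_cases h : c < 4
  · exact ⟨Sum.inl ⟨c, h⟩, rfl⟩
  · exact ⟨Sum.inr ⟨c - 4, show c - 4 < 24 by omega⟩, show 4 + (c - 4) = c by omega⟩

theorem eq2_complete {L L' : List ℕ} (hL : ∀ r ∈ L, r < chevD4.nroots) (hL' : ∀ r ∈ L', r < chevD4.nroots)
    (h : eq2 L L' = false) : wd K L ≠ wd K L' := by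
  intro e
  suffices eq2 L L' = true from Bool.noConfusion (h.symm.trans this)
  simp only [eq2, Bool.and_eq_true, List.all_eq_true, decide_eq_true_eq, beq_iff_eq, List.mem_range]
  refine ⟨⟨hL, hL'⟩, fun c hc R hR => ?_⟩
  obtain ⟨j, rfl⟩ := exists_enc hc
  obtain ⟨i, rfl⟩ := exists_enc hR
  have := congrArg (fun g : GL chevD4.Idx K => (g : Matrix chevD4.Idx chevD4.Idx K) i j) e
  simp only [wd_entry hL, wd_entry hL'] at this
  cases h1 : ent2 L (enc chevD4 i) (enc chevD4 j) <;> cases h2 : ent2 L' (enc chevD4 i) (enc chevD4 j) <;>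
    simp [h1, h2] at this ⊢

attribute [local irreducible] eq2

theorem n0_conj {r : ℕ} (hr : r < chevD4.nroots) (t : K) :
    n0 K * Sys.xG S K r t * (n0 K)⁻¹ = Sys.xG S K (chevD4.neg r) t := by
  obtain ⟨e, he, h⟩ := nL_conj (K := K) (wdN_lt [0, 1, 0, 1, 0, 1]) hr
  have e1 : e = 1 := by rcases he with rfl | rfl <;> simp [CharTwo.neg_eq]
  rw [n0, w0L, h, mul_inv_cancel_right, e1, one_mul]
  congr 1
  exact w0L_neg' ⟨r, hr⟩

theorem Free.inv {Γ : Type*} [Group Γ] [Finite Γ] {U : Subgroup Γ} {a : Γ} (h : Free U a) : Free U a⁻¹ := by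
  refine ⟨fun u hu => ?_, fun u hu e => h.free u hu ?_⟩
  · obtain ⟨v, hv⟩ := Finite.surjective_of_injective
      (f := fun v : U => (⟨a * v * a⁻¹, h.norm _ v.2⟩ : U))
      (fun v w he => Subtype.ext (by simpa using congrArg Subtype.val he)) ⟨u, hu⟩
    rw [show u = a * v * a⁻¹ from (congrArg Subtype.val hv).symm]
    simpa [mul_assoc] using v.2
  · calc a * u = a * (u * a⁻¹) * a := by group
      _ = a * (a⁻¹ * u) * a := by rw [e]
      _ = u * a := by group

variable {q : ℕ} (hq : IsPrimePow q) (hK : Fintype.card K = q ^ 3) (hq2 : q = 2) (s : Kˣ)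
include hq hK hq2

local notation "G1" => chevD4.genSubgroup K (d4Words K q)

/-- The torus part of the class. -/
noncomputable def tS : GL chevD4.Idx K := tor chevD4 K (D4.cJ 2 s)

/-- The class representative. -/
noncomputable def xS : GL chevD4.Idx K := wd K [14, 9] * tS s

theorem zpow_seven {n : ℤ} (h : n % 7 = 0) (u : Kˣ) : u ^ n = 1 := by
  classical
  have h7 : u ^ 7 = 1 := by
    have := pow_card_eq_one (G := Kˣ) (x := u)
    rwa [Fintype.card_units, hK, hq2] at this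
  obtain ⟨k, rfl⟩ := Int.dvd_of_emod_eq_zero h
  rw [zpow_mul, zpow_ofNat, h7, one_zpow]

theorem tval (u : Kˣ) (r : ℕ) :
    torusVal chevD4 (D4.cJ 2 u) r =
      u ^ (chevD4.cartan 0 r + 2 * chevD4.cartan 2 r + 4 * chevD4.cartan 3 r) := by
  rw [D4.cJ_val, zpow_add, zpow_add, zpow_mul, zpow_mul, zpow_ofNat, zpow_ofNat, show (2 : ℕ) ^ 2 = 4 from rfl]

theorem tor_long {r : ℕ} (hr : r ∈ longR) (u : Kˣ) (t : K) :
    Commute (tor chevD4 K (D4.cJ 2 u)) (Sys.xG S K r t) := by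
  obtain ⟨h1, h2⟩ := long_exp r hr
  show _ * _ = _ * _
  rw [← mul_inv_eq_iff_eq_mul, Sys.tor_conj S K _ h1, tval hq hK hq2, zpow_seven hq hK hq2 h2]
  simp

theorem tor_wd {L : List ℕ} (hL : ∀ r ∈ L, r ∈ longR) (u : Kˣ) :
    Commute (tor chevD4 K (D4.cJ 2 u)) (wd K L) := by
  induction L with
  | nil => rw [wd_nil]; exact Commute.one_right _
  | cons a L ih =>
    rw [show a :: L = [a] ++ L from rfl, wd_append, wd_single]
    exact (tor_long hq hK hq2 (hL a (List.mem_cons_self ..)) u 1).mul_right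
      (ih fun r hr => hL r (List.mem_cons_of_mem _ hr))

theorem tS_comm : Commute (tS s) (wd K [14, 9]) := tor_wd hq hK hq2 (by decide) s

theorem wd_mem : ∀ {L : List ℕ}, (∀ r ∈ L, r = 14 ∨ r = 9) → wd K L ∈ G1 ⊓ RL K 1 := by
  intro L hL
  induction L with
  | nil => rw [wd_nil]; exact one_mem _
  | cons a L ih =>
    rw [show a :: L = [a] ++ L from rfl, wd_append, wd_single]
    refine mul_mem (Subgroup.mem_inf.2 ⟨D4.fix_mem (hL a (List.mem_cons_self ..)) (one_pow q),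
      xG_mem_RL ?_ 1⟩) (ih fun r hr => hL r (List.mem_cons_of_mem _ hr))
    rcases hL a (List.mem_cons_self ..) with rfl | rfl
    · exact ⟨by decide, (by decide +kernel : ∀ m < chevD4.rank, m ∉ D4.blkN 1 →
        (chevD4.coroot.getD 14 #[]).getD m 0 = 0)⟩
    · exact ⟨by decide, (by decide +kernel : ∀ m < chevD4.rank, m ∉ D4.blkN 1 →
        (chevD4.coroot.getD 9 #[]).getD m 0 = 0)⟩

theorem n1_data : ∃ n ∈ G1 ⊓ RL K 1, Commute n (tS s) ∧
    n * wd K [14, 9] * n⁻¹ = wd K [9, 14] ∧ n * wd K [9, 14] * n⁻¹ = wd K [14, 9] := by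
  refine ⟨wd K [14, 9, 14], wd_mem hq hK hq2 (by decide), (tor_wd hq hK hq2 (by decide) s).symm, ?_, ?_⟩
  · rw [← wd_reverse, ← wd_append, ← wd_append]
    exact eq2_sound sigma_chk.2
  · have e : wd K [9, 14] = (wd K [14, 9])⁻¹ := wd_reverse [14, 9]
    have h : wd K [14, 9, 14] * wd K [14, 9] * (wd K [14, 9, 14])⁻¹ = wd K [9, 14] := by
      rw [← wd_reverse, ← wd_append, ← wd_append]
      exact eq2_sound sigma_chk.2
    rw [e] at h ⊢
    calc _ = (wd K [14, 9, 14] * wd K [14, 9] * (wd K [14, 9, 14])⁻¹)⁻¹ := by group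
      _ = _ := by rw [h, inv_inv]

theorem sigma_pow : wd K [14, 9] ^ 3 = 1 := by
  rw [pow_succ, pow_succ, pow_one, ← wd_append, ← wd_append]
  exact (eq2_sound sigma_chk.1).trans wd_nil

theorem sigma_sq : wd K [14, 9] * wd K [14, 9] = wd K [9, 14] := by
  have h := sigma_pow hq hK hq2 (K := K)
  rw [show wd K [9, 14] = (wd K [14, 9])⁻¹ from wd_reverse [14, 9], eq_inv_iff_mul_eq_one]
  rw [pow_succ, pow_succ, pow_one] at h
  exact h

theorem sigma_sq' : wd K [9, 14] * wd K [9, 14] = wd K [14, 9] := by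
  rw [show wd K [9, 14] = (wd K [14, 9])⁻¹ from wd_reverse [14, 9], ← mul_inv_rev,
    sigma_sq hq hK hq2, show wd K [9, 14] = (wd K [14, 9])⁻¹ from wd_reverse [14, 9], inv_inv]

theorem tS_mem : tS s ∈ G1 := by
  subst hq2
  exact tor_mem hq hK (D4.cJ_mem_Cset hq hK s)

theorem xS_mem : xS s ∈ G1 :=
  mul_mem (Subgroup.mem_inf.1 (wd_mem hq hK hq2 (by decide))).1 (tS_mem hq hK hq2 s)

theorem xS_not_dvd : ¬ 2 ∣ orderOf (xS s) := by
  intro h
  have h21 : xS s ^ 21 = 1 := by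
    rw [xS, ((tS_comm hq hK hq2 s).symm).mul_pow, show (21 : ℕ) = 3 * 7 from rfl, pow_mul,
      sigma_pow hq hK hq2, one_pow, one_mul, show (3 : ℕ) * 7 = 7 * 3 from rfl, pow_mul, tS, ← map_pow]
    have : (D4.cJ 2 s : ℕ → Kˣ) ^ 7 = 1 := funext fun i => by
      have := zpow_seven hq hK hq2 (n := 7) rfl (D4.cJ 2 s i)
      rw [Pi.pow_apply, ← zpow_natCast]
      exact this
    rw [this, map_one, one_pow]
  have := h.trans (orderOf_dvd_of_pow_eq_one h21)
  omega

variable (hs : (s : K) ≠ 1)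
include hs

theorem order_s {n : ℤ} (hn : s ^ n = 1) : n % 7 = 0 := by
  have h7 : s ^ (7 : ℕ) = 1 := by
    rw [← zpow_natCast]; exact zpow_seven hq hK hq2 rfl s
  have ho : orderOf s = 7 := by
    haveI : Fact (Nat.Prime 7) := ⟨by norm_num⟩
    exact orderOf_eq_prime h7 fun h => hs (by rw [h, Units.val_one])
  have := orderOf_dvd_iff_zpow_eq_one.2 hn
  rw [ho] at this
  exact Int.emod_eq_zero_of_dvd this

theorem xS_free : Free (QP K q 1) (xS s) := by
  have hG := xS_mem hq hK hq2 s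
  have hLevi : xS s ∈ chevD4.leviSubgroup K (blkSet 1) :=
    mul_mem (RL_le_levi 1 (Subgroup.mem_inf.1 (wd_mem hq hK hq2 (by decide))).2) (tor_levi 1 _)
  refine ⟨fun u hu => QP_conj hLevi hG hu, fun u hu h => ?_⟩
  have h3 : tor chevD4 K (D4.cJ 2 (s ^ 3)) = xS s ^ 3 := by
    rw [xS, ((tS_comm hq hK hq2 s).symm).mul_pow, sigma_pow hq hK hq2, one_mul, tS, ← map_pow]
    congr 1
    funext i
    simp only [D4.cJ, Pi.pow_apply, Pi.mul_apply]
    by_cases h0 : i = 0 <;> by_cases h2 : i = 2 <;> by_cases h4 : i = 3 <;>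
      simp_all [← pow_mul, mul_comm]
  have hfix : u ∈ uSub chevD4 K {r ∈ outSet chevD4 (blkSet 1) |
      torusVal chevD4 (D4.cJ 2 (s ^ 3)) r = 1} := by
    obtain ⟨t, ht, rfl⟩ := Sys.exists_ordProd_half S K
      (Sys.closed_outSet S DefCharBlocks.D4.exists_support _) hu.1
    have hz : tor chevD4 K (D4.cJ 2 (s ^ 3)) * Sys.ordProd S K t (chevD4.nroots / 2) =
        Sys.ordProd S K t (chevD4.nroots / 2) * tor chevD4 K (D4.cJ 2 (s ^ 3)) :=
      h3 ▸ (Commute.pow_left h 3).eq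
    exact tor_fix hq hK (Sys.closed_outSet S DefCharBlocks.D4.exists_support _) hu.1 hz
  have hform : ∃ b c, u = Sys.xG S K 22 b * Sys.xG S K 23 c := by
    have cc := orth_commute S K (show orthB chevD4 22 23 = true by decide +kernel)
    let Mm : Subgroup (GL chevD4.Idx K) :=
      { carrier := {g | ∃ b c, g = Sys.xG S K 22 b * Sys.xG S K 23 c}
        one_mem' := ⟨0, 0, by simp [Sys.xG_zero]⟩
        mul_mem' := by
          rintro x y ⟨b, c, rfl⟩ ⟨b', c', rfl⟩
          refine ⟨b + b', c + c', ?_⟩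
          rw [← Sys.xG_add, ← Sys.xG_add, mul_assoc, ← mul_assoc (Sys.xG S K 23 c), ← (cc b' c).eq]
          group
        inv_mem' := by
          rintro x ⟨b, c, rfl⟩
          refine ⟨-b, -c, ?_⟩
          rw [mul_inv_rev, Sys.xG_inv, Sys.xG_inv, (cc (-b) (-c)).eq] }
    refine (Sys.uSub_le S K (P := {r ∈ outSet chevD4 (blkSet 1) |
      torusVal chevD4 (D4.cJ 2 (s ^ 3)) r = 1}) (H := Mm) fun r hr h12 h24 t => ?_) hfix
    by_cases h22 : r = 22
    · subst h22; exact ⟨t, 0, by simp [Sys.xG_zero]⟩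
    by_cases h23 : r = 23
    · subst h23; exact ⟨0, t, by simp [Sys.xG_zero]⟩
    exfalso
    have hv := hr.2
    rw [tval hq hK hq2, ← zpow_natCast s 3, ← zpow_mul] at hv
    exact rad_exp ⟨r, h24⟩ h12 (fun hh => hr.1 ⟨h24, hh⟩) h22 h23
      (by exact_mod_cast order_s hq hK hq2 s hs hv)
  obtain ⟨b, c, rfl⟩ := hform
  have hlong : ∀ t r, r = 22 ∨ r = 23 → Commute (tS s) (Sys.xG S K r t) := fun t r hr =>
    tor_long hq hK hq2 (by rcases hr with rfl | rfl <;> decide) s t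
  have hsig : wd K [14, 9] * (Sys.xG S K 22 b * Sys.xG S K 23 c) =
      Sys.xG S K 22 b * Sys.xG S K 23 c * wd K [14, 9] := by
    have hc := ((hlong b 22 (Or.inl rfl)).mul_right (hlong c 23 (Or.inr rfl))).eq
    rw [xS, mul_assoc, hc, ← mul_assoc, ← mul_assoc (Sys.xG S K 22 b * Sys.xG S K 23 c)] at h
    exact mul_right_cancel h
  have hbc : (b = 0 ∨ b = 1) ∧ (c = 0 ∨ c = 1) := by
    have hσ : D4.sigma hq hK (Sys.xG S K 22 b * Sys.xG S K 23 c) = Sys.xG S K 22 b * Sys.xG S K 23 c :=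
      (D4.tw hq hK).σ_mem hu.2
    rw [map_mul, D4.sigma_x hq hK (by decide) (by decide +kernel),
      D4.sigma_x hq hK (by decide) (by decide +kernel), show D4.pA 22 = 22 by decide +kernel,
      show D4.pA 23 = 23 by decide +kernel, hq2] at hσ
    have hm : ∀ r, r = 22 ∨ r = 23 → ∀ v, Sys.xG S K r v ∈ uSub chevD4 K (outSet chevD4 (blkSet 0)) := by
      intro r hr v
      rcases hr with rfl | rfl
      · exact Sys.xG_mem_uSub S K (P := outSet chevD4 (blkSet 0)) (fun hh => (by decide +kernel : ¬ ∀ m < chevD4.rank, m ∉ D4.blkN 0 →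
          (chevD4.coroot.getD 22 #[]).getD m 0 = 0) hh.2) (by decide) (by decide) v
      · exact Sys.xG_mem_uSub S K (P := outSet chevD4 (blkSet 0)) (fun hh => (by decide +kernel : ¬ ∀ m < chevD4.rank, m ∉ D4.blkN 0 →
          (chevD4.coroot.getD 23 #[]).getD m 0 = 0) hh.2) (by decide) (by decide) v
    have hc9 : ∀ v w : K, coef 9 (Sys.xG S K 22 v * Sys.xG S K 23 w) = v := fun v w => by
      have h9 : (9 : Fin 24) ∈ rowsM := by decide
      rw [coef_mul (triRow_rad h9 (hm 22 (Or.inl rfl) v)) (triRow_rad h9 (hm 23 (Or.inr rfl) w)),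
        coef_xG (r := 22) (by decide) (by decide) (row_rad_chk (⟨22, by decide⟩ : Fin chevD4.nroots)
          (by decide +kernel) (by decide +kernel) 9 h9),
        coef_xG (r := 23) (by decide) (by decide) (row_rad_chk (⟨23, by decide⟩ : Fin chevD4.nroots)
          (by decide +kernel) (by decide +kernel) 9 h9)]
      rw [if_pos (by decide +kernel), if_neg (by decide +kernel), add_zero]
    have e1 := congrArg (coef 9) hσ
    rw [hc9, hc9] at e1
    rw [e1] at hσ
    have e2 := xG_inj S K (by decide) (mul_left_cancel hσ)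
    have key : ∀ x : K, x ^ 2 = x → x = 0 ∨ x = 1 := fun x hx => by
      have : x * (x - 1) = 0 := by linear_combination hx
      exact (mul_eq_zero.1 this).imp id sub_eq_zero.1
    exact ⟨key b e1, key c e2⟩
  obtain ⟨hb, hc⟩ := hbc
  have hw : ∀ L L' : List ℕ, eq2 L L' = false → (∀ r ∈ L, r < chevD4.nroots) →
      (∀ r ∈ L', r < chevD4.nroots) → wd K L ≠ wd K L' := fun L L' h h1 h2 => eq2_complete h1 h2 h
  rcases hb with rfl | rfl <;> rcases hc with rfl | rfl <;>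
    (try simp only [Sys.xG_zero, one_mul, mul_one] at hsig ⊢)
  · exfalso
    refine hw [14, 9, 23] [23, 14, 9] move_chk.2.1 (by decide) (by decide) ?_
    rw [show ([14, 9, 23] : List ℕ) = [14, 9] ++ [23] from rfl,
      show ([23, 14, 9] : List ℕ) = [23] ++ [14, 9] from rfl, wd_append, wd_append [23], wd_single]
    exact hsig
  · exfalso
    refine hw [14, 9, 22] [22, 14, 9] move_chk.1 (by decide) (by decide) ?_
    rw [show ([14, 9, 22] : List ℕ) = [14, 9] ++ [22] from rfl,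
      show ([22, 14, 9] : List ℕ) = [22] ++ [14, 9] from rfl, wd_append, wd_append [22], wd_single]
    exact hsig
  · exfalso
    refine hw [14, 9, 22, 23] [22, 23, 14, 9] move_chk.2.2 (by decide) (by decide) ?_
    rw [show ([14, 9, 22, 23] : List ℕ) = [14, 9] ++ ([22] ++ [23]) from rfl,
      show ([22, 23, 14, 9] : List ℕ) = ([22] ++ [23]) ++ [14, 9] from rfl, wd_append, wd_append _ [14, 9],
      wd_append [22] [23], wd_single, wd_single]
    exact hsig

/-- The four conjugates of `x` used. -/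
theorem variants {a : GL chevD4.Idx K}
    (ha : a = wd K [14, 9] * tS s ∨ a = wd K [9, 14] * tS s ∨ a = wd K [14, 9] * (tS s)⁻¹ ∨
      a = wd K [9, 14] * (tS s)⁻¹) :
    (∃ k ∈ G1, a = k * xS s * k⁻¹) ∧ Free (QP K q 1) a ∧ Free (QN K q 1) a := by
  obtain ⟨n, hn, hnt, e1, e2⟩ := n1_data hq hK hq2 s
  obtain ⟨hnG, hnR⟩ := Subgroup.mem_inf.1 hn
  have h0 := n0_mem hq hK
  have ei : wd K [9, 14] = (wd K [14, 9])⁻¹ := wd_reverse [14, 9]
  have hx' : (xS s)⁻¹ = wd K [9, 14] * (tS s)⁻¹ := by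
    rw [xS, mul_inv_rev, ← ei]
    exact ((tor_wd hq hK hq2 (by decide) s).inv_left).eq
  have e0 : n0 K * xS s * (n0 K)⁻¹ = (xS s)⁻¹ := by
    have h1 : n0 K * wd K [14, 9] * (n0 K)⁻¹ = wd K [9, 14] := by
      rw [show ([14, 9] : List ℕ) = [14] ++ [9] from rfl, show ([9, 14] : List ℕ) = [9] ++ [14] from rfl,
        wd_append, wd_append, wd_single, wd_single]
      calc n0 K * (Sys.xG S K 14 1 * Sys.xG S K 9 1) * (n0 K)⁻¹ =
            n0 K * Sys.xG S K 14 1 * (n0 K)⁻¹ * (n0 K * Sys.xG S K 9 1 * (n0 K)⁻¹) := by group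
        _ = _ := by
          rw [n0_conj (by decide), n0_conj (by decide), show chevD4.neg 14 = 9 by decide +kernel,
            show chevD4.neg 9 = 14 by decide +kernel]
    have h2 : n0 K * tS s * (n0 K)⁻¹ = (tS s)⁻¹ := by
      subst hq2
      exact n0_tor hq hK (D4.cJ_mem_Cset hq hK s)
    rw [hx', xS]
    calc n0 K * (wd K [14, 9] * tS s) * (n0 K)⁻¹ =
          n0 K * wd K [14, 9] * (n0 K)⁻¹ * (n0 K * tS s * (n0 K)⁻¹) := by group
      _ = _ := by rw [h1, h2]
  have eN1 : n * xS s * n⁻¹ = wd K [9, 14] * tS s := by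
    rw [xS, ← e1]
    calc n * (wd K [14, 9] * tS s) * n⁻¹ = n * wd K [14, 9] * n⁻¹ * (n * tS s * n⁻¹) := by group
      _ = _ := by rw [hnt.eq, mul_inv_cancel_right]
  have eN2 : n * (xS s)⁻¹ * n⁻¹ = wd K [14, 9] * (tS s)⁻¹ := by
    rw [hx', ← e2]
    calc n * (wd K [9, 14] * (tS s)⁻¹) * n⁻¹ = n * wd K [9, 14] * n⁻¹ * (n * (tS s)⁻¹ * n⁻¹) := by group
      _ = _ := by rw [hnt.inv_right.eq, mul_inv_cancel_right]
  have hPn : ∀ u ∈ QP K q 1, n * u * n⁻¹ ∈ QP K q 1 := fun u hu => QP_conj (RL_le_levi 1 hnR) hnG hu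
  have hPn' : ∀ u ∈ QP K q 1, n⁻¹ * u * n ∈ QP K q 1 := fun u hu => by
    simpa using QP_conj (RL_le_levi 1 (inv_mem hnR)) (inv_mem hnG) hu
  have hNn : ∀ u ∈ QN K q 1, n * u * n⁻¹ ∈ QN K q 1 := fun u hu => QN_conj hq hK hnR hnG hu
  have hNn' : ∀ u ∈ QN K q 1, n⁻¹ * u * n ∈ QN K q 1 := fun u hu => by
    simpa using QN_conj hq hK (inv_mem hnR) (inv_mem hnG) hu
  have f1 := xS_free hq hK hq2 s hs
  have f2 := f1.inv
  have g2 : Free (QN K q 1) (xS s)⁻¹ := e0 ▸ f1.conj (n := n0 K)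
  have g1 : Free (QN K q 1) (xS s) := by simpa using g2.inv
  rcases ha with rfl | rfl | rfl | rfl
  · exact ⟨⟨1, one_mem _, by rw [xS]; group⟩, f1, g1⟩
  · rw [← eN1]
    exact ⟨⟨n, hnG, rfl⟩, f1.conj_of_normalizes hPn hPn', g1.conj_of_normalizes hNn hNn'⟩
  · rw [← eN2]
    refine ⟨⟨n * n0 K, mul_mem hnG h0, ?_⟩, f2.conj_of_normalizes hPn hPn', g2.conj_of_normalizes hNn hNn'⟩
    rw [← e0]; group
  · rw [← hx']
    exact ⟨⟨n0 K, h0, e0.symm⟩, f2, g2⟩

/-- The Gauss forms with equal long coefficients. -/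
theorem covered_parity {g v u : GL chevD4.Idx K} {e : Kˣ} (hv : v ∈ Uneg K q) (hu : u ∈ Upos K q)
    (he : e = 1 ∨ e = s * s ∨ e = (s * s)⁻¹)
    (hg : g = v * tor chevD4 K (D4.cJ 2 e) * u) (hpar : cL ((n0 K)⁻¹ * v * n0 K) = cL u) :
    Covered G1 (xS s) g := by
  obtain ⟨w, hw, rfl⟩ := hv
  obtain ⟨a', ha', x', hx', rfl⟩ := Upos_split hq hK 1 hw
  obtain ⟨α, hα, rfl⟩ := (D4.mem_XX1 hq hK).1 hx'
  obtain ⟨a, ha, x, hx, rfl⟩ := Upos_split hq hK 1 hu
  obtain ⟨β, hβ, rfl⟩ := (D4.mem_XX1 hq hK).1 hx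
  simp only [MulEquiv.coe_toMonoidHom, MulAut.conj_apply] at hg hpar
  have hc : ∀ (a : GL chevD4.Idx K), a ∈ QP K q 1 → ∀ t : K, cL (a * Sys.xG S K 14 t) = t :=
    fun a ha t => by
      rw [cL_mul (uSub_le_posUnipotent K _ ha.1) (D4.pos_of _ (by norm_num) (by decide) _), cL_rad ha.1,
        cL_x14, zero_add]
  rw [show (n0 K)⁻¹ * (n0 K * (a' * Sys.xG S K 14 α) * (n0 K)⁻¹) * n0 K = a' * Sys.xG S K 14 α by group,
    hc _ ha', hc _ ha] at hpar
  subst hpar
  obtain ⟨hxG, hxR⟩ : Sys.xG S K 14 α ∈ G1 ∧ Sys.xG S K 14 α ∈ RL K 1 :=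
    ⟨D4.fix_mem (Or.inl rfl) hα, xG_mem_RL ⟨by decide, (by decide +kernel : ∀ m < chevD4.rank,
      m ∉ D4.blkN 1 → (chevD4.coroot.getD 14 #[]).getD m 0 = 0)⟩ α⟩
  have hU : (Sys.xG S K 14 α)⁻¹ * a * Sys.xG S K 14 α ∈ QP K q 1 := by
    simpa using QP_conj (RL_le_levi 1 (inv_mem hxR)) (inv_mem hxG) ha
  have hα2 : α = 0 ∨ α = 1 := by
    rw [hq2] at hα
    have : α * (α - 1) = 0 := by linear_combination hα
    exact (mul_eq_zero.1 this).imp id sub_eq_zero.1
  have key : ∀ A B : GL chevD4.Idx K,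
      (A = wd K [14, 9] * tS s ∨ A = wd K [9, 14] * tS s ∨ A = wd K [14, 9] * (tS s)⁻¹ ∨
        A = wd K [9, 14] * (tS s)⁻¹) →
      (B = wd K [14, 9] * tS s ∨ B = wd K [9, 14] * tS s ∨ B = wd K [14, 9] * (tS s)⁻¹ ∨
        B = wd K [9, 14] * (tS s)⁻¹) →
      Sys.xG S K 9 α * tor chevD4 K (D4.cJ 2 e) * Sys.xG S K 14 α = A * B →
      Covered G1 (xS s) g := by
    intro A B hA hB hAB
    obtain ⟨cA, -, fA⟩ := variants hq hK hq2 s hs hA
    obtain ⟨cB, fB, -⟩ := variants hq hK hq2 s hs hB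
    have := covered_mul (U := QP K q 1) (V := QN K q 1) (v := n0 K * a' * (n0 K)⁻¹)
      (u := (Sys.xG S K 14 α)⁻¹ * a * Sys.xG S K 14 α)
      ((QP_le 1).trans (Upos_le hq hK)) ((QN_le 1).trans (Uneg_le hq hK)) ⟨a', ha', rfl⟩ hU fA fB cA cB
    convert this using 1
    rw [hg, ← hAB, show Sys.xG S K 9 α = n0 K * Sys.xG S K 14 α * (n0 K)⁻¹ by
      rw [n0_conj (by decide), show chevD4.neg 14 = 9 by decide +kernel]]
    group
  have hTT : tor chevD4 K (D4.cJ 2 (s * s)) = tS s * tS s := by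
    rw [tS, ← map_mul]
    congr 1
    funext i
    simp only [D4.cJ, Pi.mul_apply]
    by_cases h0 : i = 0 <;> by_cases h2 : i = 2 <;> by_cases h4 : i = 3 <;> simp_all [mul_pow]
  have hI : ∀ u : Kˣ, tor chevD4 K (D4.cJ 2 u⁻¹) = (tor chevD4 K (D4.cJ 2 u))⁻¹ := fun u => by
    rw [← map_inv]
    congr 1
    funext i
    simp only [D4.cJ, Pi.mul_apply, Pi.inv_apply]
    by_cases h0 : i = 0 <;> by_cases h2 : i = 2 <;> by_cases h4 : i = 3 <;> simp_all
  have h1 : tor chevD4 K (D4.cJ 2 (1 : Kˣ)) = 1 := by simp [D4.cJ]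
  have ct := tS_comm hq hK hq2 s
  have ct' : Commute (tS s) (wd K [9, 14]) := tor_wd hq hK hq2 (by decide) s
  have samep : ∀ (c d T : GL chevD4.Idx K), Commute T d → c * T * (d * T) = c * d * (T * T) := by
    intro c d T h
    rw [mul_assoc, ← mul_assoc T, h.eq, mul_assoc d, ← mul_assoc c]
  have ei : wd K [9, 14] = (wd K [14, 9])⁻¹ := wd_reverse [14, 9]
  have ee : wd K [14, 9] * wd K [9, 14] = 1 := by rw [ei, mul_inv_cancel]
  have ez : wd K [9, 14] = Sys.xG S K 9 1 * Sys.xG S K 14 1 := by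
    rw [show ([9, 14] : List ℕ) = [9] ++ [14] from rfl, wd_append, wd_single, wd_single]
  have mid : ∀ u : Kˣ, Sys.xG S K 9 1 * tor chevD4 K (D4.cJ 2 u) * Sys.xG S K 14 1 =
      tor chevD4 K (D4.cJ 2 u) * wd K [9, 14] := fun u => by
    rw [ez, ← (tor_long hq hK hq2 (by decide) u 1).eq, mul_assoc]
  have mixed : ∀ (c d : GL chevD4.Idx K), Commute (tS s) d → c * tS s * (d * (tS s)⁻¹) = c * d := by
    intro c d h
    rw [mul_assoc, ← mul_assoc (tS s), h.eq, mul_assoc, mul_inv_cancel, mul_one]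
  rcases he with rfl | rfl | rfl <;> rcases hα2 with rfl | rfl
  · refine key (wd K [14, 9] * tS s) (wd K [9, 14] * (tS s)⁻¹) (Or.inl rfl) (Or.inr (Or.inr (Or.inr rfl))) ?_
    rw [mixed _ _ ct', ee, h1]
    simp [Sys.xG_zero]
  · refine key (wd K [14, 9] * tS s) (wd K [14, 9] * (tS s)⁻¹) (Or.inl rfl) (Or.inr (Or.inr (Or.inl rfl))) ?_
    rw [mixed _ _ ct, sigma_sq hq hK hq2, mid, h1, one_mul]
  · refine key (wd K [14, 9] * tS s) (wd K [9, 14] * tS s) (Or.inl rfl) (Or.inr (Or.inl rfl)) ?_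
    rw [hTT, samep _ _ _ ct', ee, one_mul]
    simp [Sys.xG_zero]
  · refine key (wd K [14, 9] * tS s) (wd K [14, 9] * tS s) (Or.inl rfl) (Or.inl rfl) ?_
    rw [mid, hTT, samep _ _ _ ct, sigma_sq hq hK hq2]
    exact (ct'.mul_left ct').eq
  · refine key (wd K [14, 9] * (tS s)⁻¹) (wd K [9, 14] * (tS s)⁻¹) (Or.inr (Or.inr (Or.inl rfl)))
      (Or.inr (Or.inr (Or.inr rfl))) ?_
    rw [hI, hTT, mul_inv_rev, samep _ _ _ ct'.inv_left, ee, one_mul]
    simp [Sys.xG_zero]
  · refine key (wd K [14, 9] * (tS s)⁻¹) (wd K [14, 9] * (tS s)⁻¹) (Or.inr (Or.inr (Or.inl rfl)))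
      (Or.inr (Or.inr (Or.inl rfl))) ?_
    rw [mid, hI, hTT, mul_inv_rev, samep _ _ _ ct.inv_left, sigma_sq hq hK hq2]
    exact (ct'.inv_left.mul_left ct'.inv_left).eq

end CfsgLib.D4Cover
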