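import Cfsg.Agent.D4Cover.TwoAlg
import Cfsg.Agent.D4Cover.TwoClass

/-!
`³D₄(2)`: every non-identity element is a product of two conjugates of an element of order `21`.
-/

set_option autoImplicit false
set_option linter.unusedSectionVars false
set_option linter.unusedFintypeInType false

namespace CfsgLib.D4Cover

open Cfsg.Lie CfsgLib.Chevalley CfsgLib.TwistedLie
open scoped Matrix MatrixGroups

local notation "S" => sysD4

/-- The roots of a long unipotent product. -/
def upW (a b c : Bool) : List ℕ :=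
  (if a then [14] else []) ++ ((if b then [22] else []) ++ (if c then [23] else []))

/-- The roots of an opposite long unipotent product. -/
def dnW (a b c : Bool) : List ℕ :=
  (if a then [9] else []) ++ ((if b then [1] else []) ++ (if c then [0] else []))

/-- Conjugators for the exceptional long root parts. -/
def witW : List ((Bool × Bool × Bool × Bool × Bool × Bool) × ℕ × (Bool × Bool × Bool × Bool × Bool × Bool)) := [
  ((false, false, false, false, true, false), 0,
    (true, false, false, false, true, false)),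
  ((false, false, false, false, true, true), 9,
    (false, false, false, false, false, true)),
  ((false, false, false, true, false, false), 0,
    (false, true, false, true, false, false)),
  ((false, false, false, true, false, true), 1,
    (false, false, false, false, false, true)),
  ((false, false, true, false, true, false), 14,
    (false, true, true, false, true, true)),
  ((false, false, true, false, true, true), 14,
    (false, true, true, false, true, false)),
  ((false, false, true, true, false, false), 14,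
    (false, true, true, true, false, false)),
  ((false, false, true, true, false, true), 14,
    (false, true, true, true, false, true)),
  ((false, true, false, false, false, false), 23,
    (false, true, false, true, false, false)),
  ((false, true, false, false, false, true), 9,
    (false, true, true, false, true, true)),
  ((false, true, false, true, true, false), 23,
    (false, true, false, false, true, false)),
  ((false, true, false, true, true, true), 23,
    (false, true, false, false, true, true)),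
  ((false, true, true, false, false, false), 14,
    (false, false, true, false, false, false)),
  ((false, true, true, false, false, true), 14,
    (false, false, true, false, false, true)),
  ((false, true, true, true, true, false), 14,
    (false, false, true, true, true, true)),
  ((false, true, true, true, true, true), 14,
    (false, false, true, true, true, false)),
  ((true, false, false, false, false, false), 23,
    (true, false, false, false, true, false)),
  ((true, false, false, false, false, true), 9,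
    (true, false, false, false, true, true)),
  ((true, false, false, true, true, false), 23,
    (true, false, false, true, false, true)),
  ((true, false, false, true, true, true), 23,
    (true, false, false, true, false, false)),
  ((true, false, true, false, false, false), 22,
    (false, false, true, false, false, false)),
  ((true, false, true, false, false, true), 22,
    (false, false, true, false, false, true)),
  ((true, false, true, true, true, false), 22,
    (false, false, true, true, true, true)),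
  ((true, false, true, true, true, true), 22,
    (false, false, true, true, true, false)),
  ((true, true, false, false, true, false), 0,
    (false, true, true, false, true, false)),
  ((true, true, false, false, true, true), 9,
    (true, true, true, false, false, true)),
  ((true, true, false, true, false, false), 0,
    (true, false, false, true, false, false)),
  ((true, true, false, true, false, true), 1,
    (true, true, true, false, false, true)),
  ((true, true, true, false, true, false), 0,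
    (false, true, false, false, true, false)),
  ((true, true, true, false, true, true), 9,
    (true, true, false, false, false, true)),
  ((true, true, true, true, false, false), 0,
    (true, false, true, true, false, false)),
  ((true, true, true, true, false, true), 1,
    (true, true, false, false, false, true))]
/-- A witness improves the parity of a long product. -/
def witOk (e : (Bool × Bool × Bool × Bool × Bool × Bool) × ℕ × (Bool × Bool × Bool × Bool × Bool × Bool)) :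
    Bool :=
  let p := e.1
  let p' := e.2.2
  decide (e.2.1 ∈ longR) && (xor p'.1 p'.2.1 == xor p'.2.2.2.1 p'.2.2.2.2.1) &&
    eq2 ([e.2.1] ++ (dnW p.1 p.2.1 p.2.2.1 ++ upW p.2.2.2.1 p.2.2.2.2.1 p.2.2.2.2.2) ++ [e.2.1])
      (dnW p'.1 p'.2.1 p'.2.2.1 ++ upW p'.2.2.2.1 p'.2.2.2.2.1 p'.2.2.2.2.2)

theorem wit_chk : witW.all witOk = true := by decide +kernel

theorem wit_cover : ∀ a b c d e f : Bool, xor a b ≠ xor d e →
    (witW.map fun x => x.1).contains (a, b, c, d, e, f) = true := by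
  decide +kernel

theorem long_up : ∀ a b c : Bool, (∀ r ∈ upW a b c, r ∈ longR) ∧ ∀ r ∈ dnW a b c, r ∈ longR := by
  decide +kernel

theorem rootOf_vals : rootOf 1 = 14 ∧ rootOf 2 = 15 ∧ rootOf 3 = 16 ∧ rootOf 4 = 17 ∧ rootOf 6 = 19 ∧
    rootOf 7 = 20 ∧ rootOf 8 = 21 ∧ rootOf 9 = 22 := by decide

theorem long_six : ∀ r ∈ longR, r = 14 ∨ r = 9 ∨ r = 22 ∨ r = 23 ∨ r = 1 ∨ r = 0 := by decide

variable {K : Type*} [Field K] [Fintype K] [CharP K 2] {q : ℕ}

/-- The element with the given bit. -/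
def bk (K : Type*) [Field K] (a : Bool) : K := if a then 1 else 0

theorem bk_cases {x : K} (h : x = 0 ∨ x = 1) : ∃ a, x = bk K a := by
  rcases h with h | h
  · exact ⟨false, h⟩
  · exact ⟨true, h⟩

theorem bk_add (a b : Bool) : bk K a + bk K b = bk K (xor a b) := by
  have h2 : (2 : K) = 0 := CharTwo.two_eq_zero
  cases a <;> cases b <;> simp [bk]
  linear_combination h2

theorem bk_inj {a b : Bool} (h : bk K a = bk K b) : a = b := by
  cases a <;> cases b <;> simp [bk] at h ⊢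

theorem up_eq (a b c : Bool) :
    Sys.xG S K 14 (bk K a) * Sys.xG S K 22 (bk K b) * Sys.xG S K 23 (bk K c) = wd K (upW a b c) := by
  cases a <;> cases b <;> cases c <;>
    simp [upW, bk, wd, Sys.wG, Sys.xG_zero, mul_assoc]

theorem dn_eq (a b c : Bool) :
    n0 K * wd K (upW a b c) * (n0 K)⁻¹ = wd K (dnW a b c) := by
  have h : ∀ (r : ℕ) (hr : r < chevD4.nroots), n0 K * Sys.xG S K r (1 : K) * (n0 K)⁻¹ =
      Sys.xG S K (chevD4.neg r) 1 := fun r hr => n0_conj hr 1
  have h14 := h 14 (by decide)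
  have h22 := h 22 (by decide)
  have h23 := h 23 (by decide)
  rw [show chevD4.neg 14 = 9 by decide +kernel] at h14
  rw [show chevD4.neg 22 = 1 by decide +kernel] at h22
  rw [show chevD4.neg 23 = 0 by decide +kernel] at h23
  rw [← MulAut.conj_apply] at h14 h22 h23 ⊢
  cases a <;> cases b <;> cases c <;>
    simp only [upW, dnW, if_true, if_false, Bool.false_eq_true, List.nil_append, List.append_nil,
      wd_append, wd_single, wd_nil, map_mul, map_one, h14, h22, h23]

/-- The matrix of a table entry. -/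
noncomputable def mat8 (z : K) (Y : F8.Q8) : Matrix (Fin 2) (Fin 2) K :=
  !![F8.ev z Y.1, F8.ev z Y.2.1; F8.ev z Y.2.2.1, F8.ev z Y.2.2.2]

/-- The value at a point of the projective line. -/
noncomputable def fpt (z : K) (u : GL chevD4.Idx K) (i : Fin 9) : K :=
  if h : i.val < 8 then Fq u 1 (F8.ev z ⟨i.val, h⟩) else Fq u 0 1

variable (hq : IsPrimePow q) (hK : Fintype.card K = q ^ 3) (hq2 : q = 2)
include hq hK hq2

local notation "G1" => chevD4.genSubgroup K (d4Words K q)

/-- Conjugation by the longest element transposes across the antidiagonal. -/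
theorem n0_phiJ (Y : SL(2, K)) :
    (n0 K)⁻¹ * phiJ hq hK Y * n0 K = phiJ hq hK (SL2Rel.weyl * Y * SL2Rel.weyl⁻¹) := by
  have hinv : ∀ r (hr : r < chevD4.nroots) (t : K),
      (n0 K)⁻¹ * Sys.xG S K r t * n0 K = Sys.xG S K (chevD4.neg r) t := fun r hr t => by
    have := n0_conj ((Sys.wf S).neg_lt r hr) t
    rw [(Sys.wf S).neg_neg r hr] at this
    rw [← this]; group
  have hu : ∀ t : K, SL2Rel.weyl * SL2Rel.upper t * SL2Rel.weyl⁻¹ = lower t := fun t => by
    rw [mul_inv_eq_iff_eq_mul]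
    apply Matrix.SpecialLinearGroup.ext
    intro i j
    fin_cases i <;> fin_cases j <;>
      simp [SL2Rel.upper_val, SL2Rel.weyl_val, lower_val, Matrix.SpecialLinearGroup.coe_mul,
        Matrix.mul_apply, Fin.sum_univ_two, CharTwo.neg_eq]
  have hl : ∀ t : K, SL2Rel.weyl * lower t * SL2Rel.weyl⁻¹ = SL2Rel.upper t := fun t => by
    rw [mul_inv_eq_iff_eq_mul]
    apply Matrix.SpecialLinearGroup.ext
    intro i j
    fin_cases i <;> fin_cases j <;>
      simp [SL2Rel.upper_val, SL2Rel.weyl_val, lower_val, Matrix.SpecialLinearGroup.coe_mul,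
        Matrix.mul_apply, Fin.sum_univ_two, CharTwo.neg_eq]
  have h := sl2_induction (H := MonoidHom.eqLocus
    ((MulAut.conj (n0 K)⁻¹).toMonoidHom.comp (phiJ hq hK))
    ((phiJ hq hK).comp (MulAut.conj (SL2Rel.weyl : SL(2, K))).toMonoidHom)) (fun t => ?_) (fun t => ?_) Y
  · have h2 : ((MulAut.conj (n0 K)⁻¹).toMonoidHom.comp (phiJ hq hK)) Y =
        ((phiJ hq hK).comp (MulAut.conj (SL2Rel.weyl : SL(2, K))).toMonoidHom) Y := h
    simpa only [MonoidHom.comp_apply, MulEquiv.coe_toMonoidHom, MulAut.conj_apply, inv_inv] using h2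
  · show (n0 K)⁻¹ * phiJ hq hK (SL2Rel.upper t) * (n0 K)⁻¹⁻¹ = phiJ hq hK (_ * _ * _)
    rw [hu, phiJ_upper, phiJ_lower, inv_inv, D4.P, D4.N]
    rw [show ∀ (n a b c : GL chevD4.Idx K), n⁻¹ * (a * b * c) * n = n⁻¹ * a * n * (n⁻¹ * b * n) * (n⁻¹ * c * n)
      from fun n a b c => by group, hinv 18 (by decide), hinv 13 (by decide), hinv 12 (by decide),
      D4.neg18, D4.neg13, D4.neg12]
  · show (n0 K)⁻¹ * phiJ hq hK (lower t) * (n0 K)⁻¹⁻¹ = phiJ hq hK (_ * _ * _)
    rw [hl, phiJ_upper, phiJ_lower, inv_inv, D4.P, D4.N]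
    rw [show ∀ (n a b c : GL chevD4.Idx K), n⁻¹ * (a * b * c) * n = n⁻¹ * a * n * (n⁻¹ * b * n) * (n⁻¹ * c * n)
      from fun n a b c => by group, hinv 5 (by decide), hinv 10 (by decide), hinv 11 (by decide),
      show chevD4.neg 5 = 18 by decide +kernel, show chevD4.neg 10 = 13 by decide +kernel,
      show chevD4.neg 11 = 12 by decide +kernel]

/-- A conjugate of `g` in the big cell of the short parabolic subgroup. -/
def Form (q : ℕ) (hq : IsPrimePow q) (hK : Fintype.card K = q ^ 3) (g : GL chevD4.Idx K)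
    (w : GL chevD4.Idx K) (M : SL(2, K)) (u : GL chevD4.Idx K) : Prop :=
  w ∈ QP K q 0 ∧ u ∈ QP K q 0 ∧ ∃ h ∈ chevD4.genSubgroup K (d4Words K q),
    h * g * h⁻¹ = n0 K * w * (n0 K)⁻¹ * phiJ hq hK M * u

theorem form_conj {g w u : GL chevD4.Idx K} {M : SL(2, K)} (h : Form q hq hK g w M u) (Y : SL(2, K)) :
    Form q hq hK g
      (phiJ hq hK (SL2Rel.weyl * Y * SL2Rel.weyl⁻¹) * w *
        (phiJ hq hK (SL2Rel.weyl * Y * SL2Rel.weyl⁻¹))⁻¹)
      (Y * M * Y⁻¹) (phiJ hq hK Y * u * (phiJ hq hK Y)⁻¹) := by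
  obtain ⟨hw, hu, k, hk, e⟩ := h
  have hY := fun Y => Subgroup.mem_inf.1 (phiJ_mem hq hK Y)
  refine ⟨QP_conj (RL_le_levi 0 (hY _).2) (hY _).1 hw, QP_conj (RL_le_levi 0 (hY _).2) (hY _).1 hu,
    phiJ hq hK Y * k, mul_mem (hY Y).1 hk, ?_⟩
  rw [← n0_phiJ hq hK hq2, map_mul, map_mul, map_inv]
  calc phiJ hq hK Y * k * g * (phiJ hq hK Y * k)⁻¹ = phiJ hq hK Y * (k * g * k⁻¹) * (phiJ hq hK Y)⁻¹ := by
        group
    _ = _ := by rw [e]; group

variable (z : K) (hz : z * z * z = z + 1)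
include hz

theorem fpt_two {u : GL chevD4.Idx K} (hu : u ∈ QP K q 0) (i : Fin 9) : fpt z u i = 0 ∨ fpt z u i = 1 := by
  unfold fpt
  split_ifs with h
  · exact Fq_two' hq hK hq2 1 _ (Or.inl one_ne_zero) hu
  · exact Fq_two' hq hK hq2 0 1 (Or.inr one_ne_zero) hu

theorem fpt_sum (u : GL chevD4.Idx K) : ∑ i, fpt z u i = 0 := by
  have hb := F8.ev_bij (z := z) hz (by rw [hK, hq2]; rfl)
  rw [Fin.sum_univ_castSucc, ← Fq_sum hq hK hq2 u, ← hb.sum_comp fun x => Fq u 1 x]
  congr 1

theorem fpt_pt (u : GL chevD4.Idx K) (a b : Fin 8) (h : ¬(a = 0 ∧ b = 0)) :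
    fpt z u (F8.pt8 a b) = Fq u (F8.ev z a) (F8.ev z b) := by
  unfold F8.pt8
  split_ifs with ha
  · subst ha
    have hb : F8.ev z b ≠ 0 := fun hh => h ⟨rfl, F8.ev_inj hz (hh.trans F8.ev_zero.symm)⟩
    rw [F8.ev_zero, fpt, dif_neg (by decide)]
    have := Fq_scale hq hK hq2 u (F8.ev z b) 0 1 hb
    rw [mul_zero, mul_one] at this
    exact this.symm
  · have ha' : F8.ev z a ≠ 0 := fun hh => ha (F8.ev_inj hz (hh.trans F8.ev_zero.symm))
    have hlt : ((F8.mul8 b (F8.inv8 a)).castSucc : Fin 9).val < 8 := (F8.mul8 b (F8.inv8 a)).isLt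
    rw [fpt, dif_pos hlt]
    have := Fq_scale hq hK hq2 u (F8.ev z a) 1 (F8.ev z b * (F8.ev z a)⁻¹) ha'
    rw [mul_one, mul_comm (F8.ev z a), inv_mul_cancel_right₀ ha'] at this
    rw [this]
    congr 1
    show F8.ev z (F8.mul8 b (F8.inv8 a)) = _
    rw [F8.ev_mul hz, F8.ev_inv hz]

theorem exists_mat8 {Y : F8.Q8} (h : F8.det8 Y = 1) :
    ∃ Yk : SL(2, K), (Yk : Matrix (Fin 2) (Fin 2) K) = mat8 z Y := by
  refine ⟨⟨mat8 z Y, ?_⟩, rfl⟩
  have := congrArg (F8.ev z) h
  rw [F8.det8, F8.ev_add, F8.ev_mul hz, F8.ev_mul hz, F8.ev_one] at this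
  rw [mat8, Matrix.det_fin_two_of, sub_eq_add_neg, CharTwo.neg_eq, this]

variable (s : Kˣ) (hs : (s : K) * s = z)
include hs

theorem s_ne : (s : K) ≠ 1 := by
  intro h
  rw [h, mul_one] at hs
  rw [← hs] at hz
  exact one_ne_zero (α := K) (by linear_combination -hz)

theorem edge {g w u : GL chevD4.Idx K} {M : SL(2, K)} {m Y : F8.Q8}
    (hform : Form q hq hK g w M u) (hM : (M : Matrix (Fin 2) (Fin 2) K) = mat8 z m)
    (hY : F8.edgeOk m Y = true) (hnc : ¬ Covered G1 (xS s) g) :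
    fpt z u (F8.ptU Y) + fpt z w (F8.ptV Y) = 1 := by
  simp only [F8.edgeOk, Bool.and_eq_true, Bool.or_eq_true, decide_eq_true_eq] at hY
  obtain ⟨hdet, hcor⟩ := hY
  obtain ⟨Yk, hYk⟩ := exists_mat8 hq hK hq2 z hz hdet
  have hne : ∀ a b c d : Fin 8, F8.det8 (a, b, c, d) = 1 → ¬(c = 0 ∧ d = 0) ∧ ¬(b = 0 ∧ a = 0) := by
    decide +kernel
  obtain ⟨n1, n2⟩ := hne _ _ _ _ (show F8.det8 (Y.1, Y.2.1, Y.2.2.1, Y.2.2.2) = 1 from hdet)
  rw [F8.ptU, F8.ptV, fpt_pt hq hK hq2 z hz u _ _ n1, fpt_pt hq hK hq2 z hz w _ _ n2]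
  by_contra hsum
  apply hnc
  have h2 : (2 : K) = 0 := CharTwo.two_eq_zero
  have f1 := Fq_two' hq hK hq2 (F8.ev z Y.2.2.1) (F8.ev z Y.2.2.2) (by
    by_contra hh
    push Not at hh
    exact n1 ⟨F8.ev_inj hz (hh.1.trans F8.ev_zero.symm), F8.ev_inj hz (hh.2.trans F8.ev_zero.symm)⟩)
    hform.2.1
  have f2 := Fq_two' hq hK hq2 (F8.ev z Y.2.1) (F8.ev z Y.1) (by
    by_contra hh
    push Not at hh
    exact n2 ⟨F8.ev_inj hz (hh.1.trans F8.ev_zero.symm), F8.ev_inj hz (hh.2.trans F8.ev_zero.symm)⟩)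
    hform.1
  have heq : Fq w (F8.ev z Y.2.1) (F8.ev z Y.1) = Fq u (F8.ev z Y.2.2.1) (F8.ev z Y.2.2.2) := by
    rcases f1 with f1 | f1 <;> rcases f2 with f2 | f2 <;> rw [f1, f2] at hsum ⊢ <;>
      simp at hsum
  obtain ⟨hw', hu', h, hh, e⟩ := form_conj hq hK hq2 hform Yk
  set T := Yk * M * Yk⁻¹ with hT
  have hT0 : T.1 0 0 = F8.ev z (F8.corner8 m Y) := by
    simp [hT, F8.corner8, F8.ev_add, F8.ev_mul hz, hM, hYk, mat8, Matrix.SpecialLinearGroup.coe_mul,
      Matrix.SpecialLinearGroup.coe_inv, Matrix.adjugate_fin_two, Matrix.mul_apply, Matrix.vecMul,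
      dotProduct, Fin.sum_univ_two, CharTwo.neg_eq]
  obtain ⟨ek, he, hek⟩ : ∃ ek : Kˣ, (ek = 1 ∨ ek = s * s ∨ ek = (s * s)⁻¹) ∧ T.1 0 0 = (ek : K) := by
    rcases hcor with (hc | hc) | hc
    · exact ⟨1, Or.inl rfl, by rw [hT0, hc, F8.ev_one, Units.val_one]⟩
    · exact ⟨s * s, Or.inr (Or.inl rfl), by rw [hT0, hc, F8.ev_two, Units.val_mul, hs]⟩
    · refine ⟨(s * s)⁻¹, Or.inr (Or.inr rfl), ?_⟩
      rw [hT0, hc, Units.val_inv_eq_inv_val, Units.val_mul, hs]
      have := F8.ev_inv hz (2 : Fin 8)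
      rw [F8.ev_two] at this
      exact this
  have hTe : phiJ hq hK T = D4.N q (T.1 1 0 / (ek : K)) * tor chevD4 K (D4.cJ q ek) *
      D4.P q (T.1 0 1 / (ek : K)) := by
    conv_lhs => rw [ldu T ek hek]
    rw [map_mul, map_mul, phiJ_dia, phiJ_lower, phiJ_upper]
  rw [hTe] at e
  refine Covered.of_conj hh ?_
  set w' := phiJ hq hK (SL2Rel.weyl * Yk * SL2Rel.weyl⁻¹) * w *
    (phiJ hq hK (SL2Rel.weyl * Yk * SL2Rel.weyl⁻¹))⁻¹ with hw'def
  set γ := T.1 1 0 / (ek : K)
  set δ := T.1 0 1 / (ek : K)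
  have hP : ∀ t : K, D4.P q t ∈ uSub chevD4 K (outSet chevD4 (blkSet 1)) := fun t => by
    have h : ∀ r ∈ ([18, 13, 12] : List ℕ), ∀ v, Sys.xG S K r v ∈ uSub chevD4 K (outSet chevD4 (blkSet 1)) := by
      intro r hr v
      have hr' : 12 ≤ r ∧ r < chevD4.nroots :=
        (by decide : ∀ r ∈ ([18, 13, 12] : List ℕ), 12 ≤ r ∧ r < chevD4.nroots) r hr
      refine Sys.xG_mem_uSub S K (P := outSet chevD4 (blkSet 1)) (fun hh => ?_) hr'.1 hr'.2 v
      exact (by decide +kernel : ∀ r ∈ ([18, 13, 12] : List ℕ), ¬ ∀ m < chevD4.rank, m ∉ D4.blkN 1 →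
        (chevD4.coroot.getD r #[]).getD m 0 = 0) r hr hh.2
    exact mul_mem (mul_mem (h 18 (by simp) _) (h 13 (by simp) _)) (h 12 (by simp) _)
  have hN : D4.N q γ = n0 K * D4.P q γ * (n0 K)⁻¹ := by
    have := n0_phiJ hq hK hq2 (lower γ)
    have hl : SL2Rel.weyl * lower γ * SL2Rel.weyl⁻¹ = SL2Rel.upper γ := by
      rw [mul_inv_eq_iff_eq_mul]
      apply Matrix.SpecialLinearGroup.ext
      intro i j
      fin_cases i <;> fin_cases j <;>
        simp [SL2Rel.upper_val, SL2Rel.weyl_val, lower_val, Matrix.SpecialLinearGroup.coe_mul,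
          Matrix.mul_apply, Fin.sum_univ_two, CharTwo.neg_eq]
    rw [hl, phiJ_lower, phiJ_upper] at this
    rw [← this]; group
  have hPU : ∀ t, D4.P q t ∈ Upos K q := fun t =>
    Subgroup.mem_inf.2 ⟨uSub_le_posUnipotent K _ (hP t), D4.P_mem t⟩
  have hwU : w' ∈ Upos K q := QP_le 0 hw'
  have huU : phiJ hq hK Yk * u * (phiJ hq hK Yk)⁻¹ ∈ Upos K q := QP_le 0 hu'
  refine covered_parity hq hK hq2 s (s_ne hq hK hq2 z hz s hs)
    (v := n0 K * (w' * D4.P q γ) * (n0 K)⁻¹)
    (u := D4.P q δ * (phiJ hq hK Yk * u * (phiJ hq hK Yk)⁻¹))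
    ⟨_, mul_mem hwU (hPU γ), rfl⟩ (mul_mem (hPU δ) huU) he ?_ ?_
  · have hc2 : D4.cJ q ek = D4.cJ 2 ek := by rw [hq2]
    rw [e, hN, hc2]; group
  · rw [show (n0 K)⁻¹ * (n0 K * (w' * D4.P q γ) * (n0 K)⁻¹) * n0 K = w' * D4.P q γ by group,
      cL_mul hwU.1 (hPU γ).1, cL_mul (hPU δ).1 huU.1, cL_rad (hP γ), cL_rad (hP δ), add_zero, zero_add,
      hw'def, cL_conj hq hK hq2 _ hform.1.1, cL_conj hq hK hq2 _ hform.2.1.1]
    convert heq using 2 <;>
      simp [hYk, mat8, SL2Rel.weyl_val, Matrix.SpecialLinearGroup.coe_mul, Matrix.SpecialLinearGroup.coe_inv,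
        Matrix.adjugate_fin_two, Matrix.mul_apply, Matrix.vecMul, dotProduct, Fin.sum_univ_two, CharTwo.neg_eq]

/-- A radical element with only extreme coefficients is a product of long root elements. -/
theorem rad_long {u : GL chevD4.Idx K} (hu : u ∈ QP K q 0)
    (h : coef 2 u = 0 ∧ coef 3 u = 0 ∧ coef 4 u = 0 ∧ coef 6 u = 0 ∧ coef 7 u = 0 ∧ coef 8 u = 0) :
    ∃ a b c : Bool, u = wd K (upW a b c) ∧ coef 1 u = bk K a ∧ coef 9 u = bk K b := by
  obtain ⟨t, ht, e⟩ := Sys.exists_ordProd_half S K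
    (Sys.closed_outSet S DefCharBlocks.D4.exists_support (blkSet 0)) hu.1
  set P := outSet chevD4 (blkSet 0)
  have hmem : ∀ r, 12 ≤ r → r < chevD4.nroots → Sys.xG S K r (t r) ∈ uSub chevD4 K P := by
    intro r h1 h2
    by_cases h0 : t r = 0
    · rw [h0, Sys.xG_zero]; exact one_mem _
    · exact Sys.xG_mem_uSub S K (ht r h0).1 h1 h2 _
  have hout : ∀ r, r = 12 ∨ r = 13 ∨ r = 18 → t r = 0 := by
    intro r hr
    by_contra h0
    refine (ht r h0).1 ⟨by rcases hr with rfl | rfl | rfl <;> decide, ?_⟩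
    rcases hr with rfl | rfl | rfl
    · exact (by decide +kernel : ∀ m < chevD4.rank, m ∉ D4.blkN 0 → (chevD4.coroot.getD 12 #[]).getD m 0 = 0)
    · exact (by decide +kernel : ∀ m < chevD4.rank, m ∉ D4.blkN 0 → (chevD4.coroot.getD 13 #[]).getD m 0 = 0)
    · exact (by decide +kernel : ∀ m < chevD4.rank, m ∉ D4.blkN 0 → (chevD4.coroot.getD 18 #[]).getD m 0 = 0)
  have hprod : u = Sys.wG S K ((List.range' 12 12).map fun r => (r, t r)) := e
  have hcoef : ∀ R ∈ rowsM, ∀ L : List ℕ, (∀ r ∈ L, 12 ≤ r ∧ r < chevD4.nroots) →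
      coef R (Sys.wG S K (L.map fun r => (r, t r))) =
        (L.map fun r => if decide (r = rootOf R) then t r else 0).sum := by
    intro R hR L
    induction L with
    | nil =>
      intro
      have : rI R ≠ rI 0 := rI_ne ((by decide : ∀ R ∈ rowsM, R ≠ 0) R hR)
      simp [Sys.wG, coef, eLow_apply, this]
    | cons r L ih =>
      intro hL
      have hr := hL r (List.mem_cons_self ..)
      have hL' : ∀ x ∈ L, 12 ≤ x ∧ x < chevD4.nroots := fun x hx => hL x (List.mem_cons_of_mem _ hx)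
      have hrest : Sys.wG S K (L.map fun r => (r, t r)) ∈ uSub chevD4 K P := by
        refine list_prod_mem fun y hy => ?_
        obtain ⟨y', hy', rfl⟩ := List.mem_map.1 hy
        obtain ⟨x, hx, rfl⟩ := List.mem_map.1 hy'
        exact hmem x (hL' x hx).1 (hL' x hx).2
      have hsplit : Sys.wG S K ((r :: L).map fun r => (r, t r)) =
          Sys.xG S K r (t r) * Sys.wG S K (L.map fun r => (r, t r)) := by simp [Sys.wG]
      rw [hsplit, coef_mul (triRow_rad hR (hmem r hr.1 hr.2)) (triRow_rad hR hrest), ih hL', List.map_cons,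
        List.sum_cons]
      congr 1
      by_cases h0 : t r = 0
      · have : rI R ≠ rI 0 := rI_ne ((by decide : ∀ R ∈ rowsM, R ≠ 0) R hR)
        simp [h0, Sys.xG_zero, coef, eLow_apply, this]
      · exact coef_xG hr.2 ((by decide : ∀ R ∈ rowsM, R ≠ 0) R hR)
          (row_rad_chk ⟨r, hr.2⟩ hr.1 (fun hh => (ht r h0).1 ⟨hr.2, hh⟩) R hR) _
  have hval : ∀ R ∈ rowsM, coef R u = t (rootOf R) := by
    intro R hR
    rw [hprod, hcoef R hR _ fun r hr => by
      rw [List.mem_range'_1] at hr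
      exact ⟨hr.1, show r < 24 by omega⟩]
    simp only [decide_eq_true_eq]
    rw [show List.range' 12 12 = [12, 13, 14, 15, 16, 17, 18, 19, 20, 21, 22, 23] from rfl]
    obtain ⟨e1, e2, e3, e4, e6, e7, e8, e9⟩ := rootOf_vals
    simp only [rowsM, List.mem_cons, List.not_mem_nil, or_false] at hR
    rcases hR with rfl | rfl | rfl | rfl | rfl | rfl | rfl | rfl <;>
      simp [e1, e2, e3, e4, e6, e7, e8, e9]
  have h14 : coef 1 u = t 14 := hval 1 (by decide)
  have h22 : coef 9 u = t 22 := hval 9 (by decide)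
  have z15 : t 15 = 0 := (hval 2 (by decide)).symm.trans h.1
  have z16 : t 16 = 0 := (hval 3 (by decide)).symm.trans h.2.1
  have z17 : t 17 = 0 := (hval 4 (by decide)).symm.trans h.2.2.1
  have z19 : t 19 = 0 := (hval 6 (by decide)).symm.trans h.2.2.2.1
  have z20 : t 20 = 0 := (hval 7 (by decide)).symm.trans h.2.2.2.2.1
  have z21 : t 21 = 0 := (hval 8 (by decide)).symm.trans h.2.2.2.2.2
  have hu3 : u = Sys.xG S K 14 (t 14) * Sys.xG S K 22 (t 22) * Sys.xG S K 23 (t 23) := by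
    rw [hprod, show List.range' 12 12 = [12, 13, 14, 15, 16, 17, 18, 19, 20, 21, 22, 23] from rfl]
    simp [Sys.wG, hout 12, hout 13, hout 18, z15, z16, z17, z19, z20, z21, Sys.xG_zero, mul_assoc]
  have a1 : t 14 = 0 ∨ t 14 = 1 := by
    rw [← h14]
    exact cL_two hq hK hq2 (QP_le 0 hu)
  have a2 : t 22 = 0 ∨ t 22 = 1 := by
    rw [← h22]
    have := Fq_two' hq hK hq2 1 0 (Or.inl one_ne_zero) hu
    simpa [Fq] using this
  obtain ⟨a, ha⟩ := bk_cases a1
  obtain ⟨b, hb⟩ := bk_cases a2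
  have hfix : ∀ x : Bool, (bk K x) ^ q = bk K x := fun x => by
    rw [hq2]; cases x <;> simp [bk]
  have hG : Sys.xG S K 23 (t 23) ∈ G1 := by
    have h' : Sys.xG S K 14 (t 14) * Sys.xG S K 22 (t 22) ∈ G1 :=
      mul_mem (D4.fix_mem (Or.inl rfl) (by rw [ha]; exact hfix a))
        (D4.fix_pos_mem hq hK (Or.inr (Or.inl rfl)) (by rw [hb]; exact hfix b))
    have := mul_mem (inv_mem h') (hu3 ▸ hu.2)
    rwa [inv_mul_cancel_left] at this
  have a3 : t 23 = 0 ∨ t 23 = 1 := by
    have hσ : D4.sigma hq hK (Sys.xG S K 23 (t 23)) = Sys.xG S K 23 (t 23) := (D4.tw hq hK).σ_mem hG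
    rw [D4.sigma_x hq hK (by decide) (by decide +kernel), show D4.pA 23 = 23 by decide +kernel, hq2] at hσ
    have hx := xG_inj S K (by decide) hσ
    have : t 23 * (t 23 - 1) = 0 := by linear_combination hx
    exact (mul_eq_zero.1 this).imp id sub_eq_zero.1
  obtain ⟨c, hc⟩ := bk_cases a3
  refine ⟨a, b, c, ?_, h14.trans ha, h22.trans hb⟩
  rw [hu3, ha, hb, hc, up_eq]

/-- The diagonal exceptional forms. -/
theorem covered_dia {g w u : GL chevD4.Idx K} {M : SL(2, K)} {k : Fin 8} (hk : k = 3 ∨ k = 5)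
    (hform : Form q hq hK g w M u) (hM : (M : Matrix (Fin 2) (Fin 2) K) = mat8 z (F8.dia8 k)) :
    Covered G1 (xS s) g := by
  by_contra hnc
  have hedge : ∀ Y ∈ F8.tB k, fpt z u (F8.ptU Y) + fpt z w (F8.ptV Y) = 1 := fun Y hY =>
    edge hq hK hq2 z hz s hs hform hM (List.all_eq_true.1 (F8.tB_edge k hk) Y hY) hnc
  obtain ⟨hu1, hv1⟩ := F8.known_const (F8.tB k) hedge ([1], []) (fun i hi => by
    rw [List.mem_singleton.1 hi]) (fun j hj => absurd hj List.not_mem_nil)
  have hb := F8.ev_bij (z := z) hz (by rw [hK, hq2]; rfl)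
  have hidx : ∀ x : K, x ≠ 0 → ∃ i : Fin 9, i ≠ 0 ∧ i ≠ 8 ∧ ∀ u, fpt z u i = Fq u 1 x := by
    intro x hx
    obtain ⟨a, rfl⟩ := hb.2 x
    refine ⟨a.castSucc, fun h => hx ?_, fun h => ?_, fun u => ?_⟩
    · rw [show a = 0 from Fin.ext (show a.val = 0 from congrArg Fin.val h), F8.ev_zero]
    · have h' := Fin.ext_iff.1 h
      have := a.isLt
      simp at h'
      omega
    · simp [fpt]
  have hconst : ∀ x : K, x ≠ 0 → Fq u 1 x = fpt z u 1 ∧ Fq w 1 x = fpt z u 1 + 1 := by
    intro x hx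
    obtain ⟨i, h0, h8, hi⟩ := hidx x hx
    obtain ⟨m1, m2⟩ := F8.tB_known k hk i h0 h8
    have e1 := hu1 i (of_decide_eq_true m1)
    have e2 := hv1 i (of_decide_eq_true m2)
    rw [← hi, ← hi]
    refine ⟨e1, ?_⟩
    have h2 : (2 : K) = 0 := CharTwo.two_eq_zero
    linear_combination e2 - fpt z u 1 * h2
  obtain ⟨p2, p3, p4, p6, p7, p8, pC⟩ := Fq_const hq hK hq2 fun x hx => (hconst x hx).1
  obtain ⟨r2, r3, r4, r6, r7, r8, rC⟩ := Fq_const hq hK hq2 fun x hx => (hconst x hx).2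
  obtain ⟨d, e, f, hu', ed, ee⟩ :=
    rad_long hq hK hq2 z hz s hs hform.2.1 ⟨p2, p3, p4, p6, p7, p8⟩
  obtain ⟨a, b, c, hw', ea, eb⟩ :=
    rad_long hq hK hq2 z hz s hs hform.1 ⟨r2, r3, r4, r6, r7, r8⟩
  rw [ed, ee, bk_add] at pC
  rw [ea, eb, bk_add, ← pC] at rC
  have hne : xor a b ≠ xor d e := fun h => by
    rw [h] at rC
    exact one_ne_zero (α := K) (by linear_combination -rC)
  obtain ⟨x, hxm, hxp⟩ := List.mem_map.1 (List.contains_iff_mem.1 (wit_cover a b c d e f hne))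
  have hx := List.all_eq_true.1 wit_chk x hxm
  obtain ⟨p, r, a', b', c', d', e', f'⟩ := x
  dsimp only at hxp
  subst hxp
  simp only [witOk, Bool.and_eq_true, decide_eq_true_eq, beq_iff_eq] at hx
  obtain ⟨⟨hr, hpar⟩, heq⟩ := hx
  have hwd := eq2_sound (K := K) heq
  rw [wd_append, wd_append, wd_append, wd_append, wd_single] at hwd
  -- the Levi part centralises the long root elements
  obtain ⟨μ, hμ⟩ : ∃ μ : Kˣ, (μ : K) = F8.ev z (F8.muB k) :=
    ⟨Units.mk0 _ fun hh => (F8.yB_chk k hk).2.2 (F8.ev_inj hz (hh.trans F8.ev_zero.symm)), rfl⟩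
  have hMd : phiJ hq hK M = tor chevD4 K (D4.cJ q μ) := by
    rw [← phiJ_dia hq hK]
    congr 1
    apply Subtype.ext
    rw [hM, SL2Rel.dia_val, mat8, hμ]
    simp [F8.dia8, F8.ev_zero, F8.ev_inv hz]
  have hlong : ∀ L : List ℕ, (∀ r ∈ L, r ∈ longR) → Commute (tor chevD4 K (D4.cJ q μ)) (wd K L) := by
    intro L hL
    have := tor_wd hq hK hq2 hL μ
    rw [hq2]
    exact this
  have hrG : Sys.xG S K r (1 : K) ∈ G1 := by
    rcases long_six r hr with h | h | h | h | h | h
    · exact D4.fix_mem (Or.inl h) (one_pow q)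
    · exact D4.fix_mem (Or.inr h) (one_pow q)
    · exact D4.fix_pos_mem hq hK (Or.inr (Or.inl h)) (one_pow q)
    · exact D4.fix_pos_mem hq hK (Or.inr (Or.inr h)) (one_pow q)
    · have hm := D4.fix_pos_mem (q := q) hq hK (r := 22) (Or.inr (Or.inl rfl)) (one_pow q)
      have := mul_mem (mul_mem (n0_mem hq hK) hm) (inv_mem (n0_mem hq hK))
      rw [n0_conj (by decide), show chevD4.neg 22 = 1 by decide +kernel] at this
      rwa [h]
    · have hm := D4.fix_pos_mem (q := q) hq hK (r := 23) (Or.inr (Or.inr rfl)) (one_pow q)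
      have := mul_mem (mul_mem (n0_mem hq hK) hm) (inv_mem (n0_mem hq hK))
      rw [n0_conj (by decide), show chevD4.neg 23 = 0 by decide +kernel] at this
      rwa [h]
  have hupQ : ∀ a b c : Bool, wd K (upW a b c) ∈ QP K q 0 := by
    intro a b c
    rw [← up_eq]
    have hm : ∀ r, r = 14 ∨ r = 22 ∨ r = 23 → ∀ x : Bool, Sys.xG S K r (bk K x) ∈ QP K q 0 := by
      intro r hr x
      refine Subgroup.mem_inf.2 ⟨?_, D4.fix_pos_mem hq hK hr (by rw [hq2]; cases x <;> simp [bk])⟩
      have h2 := (by decide +kernel : ∀ r ∈ ([14, 22, 23] : List ℕ), 12 ≤ r ∧ r < chevD4.nroots ∧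
        ¬ ∀ m < chevD4.rank, m ∉ D4.blkN 0 → (chevD4.coroot.getD r #[]).getD m 0 = 0) r (by simpa using hr)
      exact Sys.xG_mem_uSub S K (P := outSet chevD4 (blkSet 0)) (fun hh => h2.2.2 hh.2) h2.1 h2.2.1 _
    exact mul_mem (mul_mem (hm 14 (Or.inl rfl) a) (hm 22 (Or.inr (Or.inl rfl)) b))
      (hm 23 (Or.inr (Or.inr rfl)) c)
  obtain ⟨h, hh, eg⟩ := hform.2.2
  have hnew : Form q hq hK g (wd K (upW a' b' c')) M (wd K (upW d' e' f')) := by
    refine ⟨hupQ _ _ _, hupQ _ _ _, Sys.xG S K r 1 * h, mul_mem hrG hh, ?_⟩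
    have cX := (hlong [r] (by simpa using hr)).eq
    rw [wd_single] at cX
    have cV := (hlong _ (long_up a b c).2).eq
    have cV' := (hlong _ (long_up a' b' c').2).eq
    rw [dn_eq, hMd]
    rw [hw', hu', dn_eq, hMd] at eg
    calc Sys.xG S K r 1 * h * g * (Sys.xG S K r 1 * h)⁻¹ =
          Sys.xG S K r 1 * (h * g * h⁻¹) * (Sys.xG S K r 1)⁻¹ := by group
      _ = Sys.xG S K r 1 * (wd K (dnW a b c) * tor chevD4 K (D4.cJ q μ)) * wd K (upW d e f) *
            Sys.xG S K r 1 := by rw [eg, xG_one_inv]; group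
      _ = tor chevD4 K (D4.cJ q μ) * (Sys.xG S K r 1 * (wd K (dnW a b c) * wd K (upW d e f)) *
            Sys.xG S K r 1) := by
          rw [← cV, ← mul_assoc (Sys.xG S K r 1), ← cX]
          simp only [mul_assoc]
      _ = wd K (dnW a' b' c') * tor chevD4 K (D4.cJ q μ) * wd K (upW d' e' f') := by
          rw [hwd, ← mul_assoc, cV', mul_assoc]
  obtain ⟨Y, hYm⟩ : ∃ Y, Y ∈ F8.tB k := by
    rcases hk with rfl | rfl <;> exact List.exists_mem_of_ne_nil _ (by decide +kernel)
  have hall := List.all_eq_true.1 (F8.tB_edge k hk)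
  have hcf : ∀ a b c : Bool, ∀ R ∈ rowsM, coef R (wd K (upW a b c)) =
      if R = 1 then bk K a else if R = 9 then bk K b else 0 := by
    intro a b c R hR
    have hne : rI R ≠ rI 0 := rI_ne ((by decide : ∀ R ∈ rowsM, R ≠ 0) R hR)
    have hone : coef R (1 : GL chevD4.Idx K) = 0 := by simp [coef, eLow_apply, hne]
    rw [← up_eq]
    have hx : ∀ r, r = 14 ∨ r = 22 ∨ r = 23 → ∀ v : K,
        coef R (Sys.xG S K r v) = if decide (r = rootOf R) then v else 0 := by
      intro r hr v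
      obtain ⟨h1, h2, h3⟩ := (by decide +kernel : ∀ r ∈ ([14, 22, 23] : List ℕ), 12 ≤ r ∧ r < chevD4.nroots ∧
        ¬ ∀ m < chevD4.rank, m ∉ D4.blkN 0 → (chevD4.coroot.getD r #[]).getD m 0 = 0) r (by simpa using hr)
      exact coef_xG h2 ((by decide : ∀ R ∈ rowsM, R ≠ 0) R hR) (row_rad_chk ⟨r, h2⟩ h1 h3 R hR) v
    have hm : ∀ r, r = 14 ∨ r = 22 ∨ r = 23 → ∀ v : K,
        Sys.xG S K r v ∈ uSub chevD4 K (outSet chevD4 (blkSet 0)) := by
      intro r hr v
      obtain ⟨h1, h2, h3⟩ := (by decide +kernel : ∀ r ∈ ([14, 22, 23] : List ℕ), 12 ≤ r ∧ r < chevD4.nroots ∧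
        ¬ ∀ m < chevD4.rank, m ∉ D4.blkN 0 → (chevD4.coroot.getD r #[]).getD m 0 = 0) r (by simpa using hr)
      exact Sys.xG_mem_uSub S K (P := outSet chevD4 (blkSet 0)) (fun hh => h3 hh.2) h1 h2 _
    rw [coef_mul (triRow_rad hR (mul_mem (hm 14 (Or.inl rfl) _) (hm 22 (Or.inr (Or.inl rfl)) _)))
        (triRow_rad hR (hm 23 (Or.inr (Or.inr rfl)) _)),
      coef_mul (triRow_rad hR (hm 14 (Or.inl rfl) _)) (triRow_rad hR (hm 22 (Or.inr (Or.inl rfl)) _)),
      hx 14 (Or.inl rfl), hx 22 (Or.inr (Or.inl rfl)), hx 23 (Or.inr (Or.inr rfl))]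
    obtain ⟨e1, e2, e3, e4, e6, e7, e8, e9⟩ := rootOf_vals
    simp only [rowsM, List.mem_cons, List.not_mem_nil, or_false] at hR
    rcases hR with rfl | rfl | rfl | rfl | rfl | rfl | rfl | rfl <;>
      simp [e1, e2, e3, e4, e6, e7, e8, e9]
  have hF : ∀ a b c : Bool, ∀ i : Fin 9, i ≠ 0 → i ≠ 8 → fpt z (wd K (upW a b c)) i = bk K (xor a b) := by
    intro a b c i h0 h8
    have hi : i.val < 8 := by
      have := i.isLt
      have : i.val ≠ 8 := fun h => h8 (Fin.ext h)
      omega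
    have hx : F8.ev z ⟨i.val, hi⟩ ≠ 0 := fun hh => h0 (Fin.ext (show i.val = 0 from
      congrArg Fin.val (F8.ev_inj hz (hh.trans F8.ev_zero.symm))))
    have h7 : F8.ev z ⟨i.val, hi⟩ ^ 7 = 1 := by
      have := FiniteField.pow_card_sub_one_eq_one _ hx
      rw [hK, hq2] at this
      exact this
    rw [fpt, dif_pos hi, Fq, hcf a b c 1 (by decide), hcf a b c 2 (by decide), hcf a b c 3 (by decide),
      hcf a b c 4 (by decide), hcf a b c 6 (by decide), hcf a b c 7 (by decide), hcf a b c 8 (by decide),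
      hcf a b c 9 (by decide), ← bk_add]
    simp
    linear_combination bk K a * h7
  have hsum := edge hq hK hq2 z hz s hs hnew hM (hall Y hYm) hnc
  have hY0 : ∀ k : Fin 8, k = 3 ∨ k = 5 →
      (F8.tB k).all (fun Y => decide (F8.ptU Y ≠ 0) && decide (F8.ptU Y ≠ 8) && decide (F8.ptV Y ≠ 0) &&
        decide (F8.ptV Y ≠ 8)) = true := by decide +kernel
  have hY1 := List.all_eq_true.1 (hY0 k hk) Y hYm
  simp only [Bool.and_eq_true, decide_eq_true_eq] at hY1
  rw [hF _ _ _ _ hY1.1.1.1 hY1.1.1.2, hF _ _ _ _ hY1.1.2 hY1.2, ← hpar] at hsum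
  have h2 : (2 : K) = 0 := CharTwo.two_eq_zero
  exact one_ne_zero (α := K) (by linear_combination -hsum + bk K (xor a' b') * h2)

theorem two_cover_of {g : GL chevD4.Idx K} (hg : g ∈ G1) (hg1 : g ≠ 1) : Covered G1 (xS s) g := by
  by_contra hnc
  obtain ⟨h, hh, v, hv, M, u, hu, e⟩ := levi_form hq hK hg hg1 (a := 1) (one_pow q)
  obtain ⟨w, hw, rfl⟩ := hv
  simp only [MulEquiv.coe_toMonoidHom, MulAut.conj_apply, show dA (1 : Kˣ) = 1 by simp [dA],
    mul_one] at e
  have hform : Form q hq hK g w M u := ⟨hw, hu, h, hh, e⟩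
  have hd := SL2Rel.det_eq M
  have hb := F8.ev_bij (z := z) hz (by rw [hK, hq2]; rfl)
  have h2 : (2 : K) = 0 := CharTwo.two_eq_zero
  by_cases hs0 : M.1 0 1 = 0 ∧ M.1 1 0 = 0 ∧ M.1 0 0 * M.1 0 0 = 1
  · obtain ⟨h01, h10, h00⟩ := hs0
    have hone : M.1 0 0 = 1 := by
      have : (M.1 0 0 - 1) * (M.1 0 0 - 1) = 0 := by linear_combination h00 - (M.1 0 0 - 1) * h2
      exact sub_eq_zero.1 (mul_self_eq_zero.1 this)
    have h11 : M.1 1 1 = 1 := by
      rw [hone, h01, zero_mul, one_mul, sub_zero] at hd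
      exact hd
    have hM : (M : Matrix (Fin 2) (Fin 2) K) = mat8 z (1, 0, 0, 1) := by
      rw [mat8, F8.ev_zero, F8.ev_one, Matrix.eta_fin_two M.1, hone, h01, h10, h11]
    exact F8.matching_false (fu := fpt z u) (fv := fpt z w) F8.mI (fun i => (F8.mI_chk i).2) F8.mI_inj
      (fpt_sum hq hK hq2 z hz u) (fpt_sum hq hK hq2 z hz w)
      fun i => edge hq hK hq2 z hz s hs hform hM (F8.mI_chk i).1 hnc
  · obtain ⟨Y, hY⟩ := exists_corner_entry (a := (1 : K)) (e := 0) one_ne_zero M hs0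
    have h1 : dconj (1 : K) one_ne_zero Y⁻¹ = Y⁻¹ := by
      apply Subtype.ext
      rw [dconj_val, inv_one, one_mul, one_mul]
      exact (Matrix.eta_fin_two _).symm
    rw [h1] at hY
    set T := Y * M * Y⁻¹ with hT
    have hTd := SL2Rel.det_eq T
    rw [hY, zero_mul, zero_sub, CharTwo.neg_eq] at hTd
    have h01 : T.1 0 1 ≠ 0 := fun hh => by rw [hh, zero_mul] at hTd; exact zero_ne_one hTd
    obtain ⟨r, hr⟩ : ∃ r : Kˣ, (r : K) = (T.1 0 1)⁻¹ ^ 4 :=
      ⟨Units.mk0 _ (pow_ne_zero 4 (inv_ne_zero h01)), rfl⟩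
    have hr2 : (r : K) * r * T.1 0 1 = 1 := by
      have h8 : (T.1 0 1)⁻¹ ^ 8 = (T.1 0 1)⁻¹ := by
        conv_rhs => rw [← FiniteField.pow_card (T.1 0 1)⁻¹, hK, hq2]
        norm_num
      rw [hr, ← pow_add, show 4 + 4 = 8 from rfl, h8, inv_mul_cancel₀ h01]
    set D := SL2Rel.dia r * T * (SL2Rel.dia r)⁻¹ with hD
    have d00 : D.1 0 0 = 0 := by
      simp [hD, SL2Rel.dia_val, Matrix.SpecialLinearGroup.coe_mul, Matrix.SpecialLinearGroup.coe_inv,
        Matrix.adjugate_fin_two, Matrix.mul_apply, Matrix.vecMul, dotProduct, Fin.sum_univ_two, hY]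
    have d01 : D.1 0 1 = 1 := by
      simp [hD, SL2Rel.dia_val, Matrix.SpecialLinearGroup.coe_mul, Matrix.SpecialLinearGroup.coe_inv,
        Matrix.adjugate_fin_two, Matrix.mul_apply, Matrix.vecMul, dotProduct, Fin.sum_univ_two]
      linear_combination hr2
    have d10 : D.1 1 0 = 1 := by
      have := SL2Rel.det_eq D
      rw [d00, d01, zero_mul, one_mul, zero_sub, CharTwo.neg_eq] at this
      exact this
    obtain ⟨k, hk⟩ := hb.2 (D.1 1 1)
    have hM : (D : Matrix (Fin 2) (Fin 2) K) = mat8 z (F8.cmp8 k) := by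
      rw [mat8, F8.cmp8, F8.ev_zero, F8.ev_one, Matrix.eta_fin_two D.1, d00, d01, d10, hk]
    have hformT := form_conj hq hK hq2 (form_conj hq hK hq2 hform Y) (SL2Rel.dia r)
    rw [← hT, ← hD] at hformT
    obtain ⟨w', u', hformD⟩ : ∃ w' u', Form q hq hK g w' D u' := ⟨_, _, hformT⟩
    by_cases hk35 : k = 3 ∨ k = 5
    · obtain ⟨hdet, hmul, -⟩ := F8.yB_chk k hk35
      obtain ⟨Yb, hYb⟩ := exists_mat8 hq hK hq2 z hz hdet
      obtain ⟨Db, hDb⟩ : ∃ Db : SL(2, K), (Db : Matrix (Fin 2) (Fin 2) K) = mat8 z (F8.dia8 k) :=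
        exists_mat8 hq hK hq2 z hz
          ((by decide +kernel : ∀ k : Fin 8, F8.det8 (F8.dia8 k) = 1) k)
      have hmm : ∀ A B : F8.Q8, mat8 z (F8.mul22 A B) = mat8 z A * mat8 z B := by
        intro A B
        simp only [mat8, F8.mul22, F8.ev_add, F8.ev_mul hz]
        ext i j
        fin_cases i <;> fin_cases j <;> simp [Matrix.mul_apply, Fin.sum_univ_two]
      have hconj : Yb * D * Yb⁻¹ = Db := by
        rw [mul_inv_eq_iff_eq_mul]
        apply Subtype.ext
        show (Yb : Matrix (Fin 2) (Fin 2) K) * (D : Matrix (Fin 2) (Fin 2) K) =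
          (Db : Matrix (Fin 2) (Fin 2) K) * (Yb : Matrix (Fin 2) (Fin 2) K)
        rw [hYb, hM, hDb, ← hmm, ← hmm, hmul]
      have hfin := form_conj hq hK hq2 hformD Yb
      rw [hconj] at hfin
      exact hnc (covered_dia hq hK hq2 z hz s hs hk35 hfin hDb)
    · push Not at hk35
      exact F8.matching_false (fu := fpt z u') (fv := fpt z w') (F8.mC k)
        (fun i => (F8.mC_chk k hk35.1 hk35.2 i).2) (F8.mC_inj k hk35.1 hk35.2)
        (fpt_sum hq hK hq2 z hz u') (fpt_sum hq hK hq2 z hz w')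
        fun i => edge hq hK hq2 z hz s hs hformD hM (F8.mC_chk k hk35.1 hk35.2 i).1 hnc

omit hz hs z s

theorem two_cover : ∃ x ∈ G1, ¬ 2 ∣ orderOf x ∧ ∀ g ∈ G1, g ≠ 1 → Covered G1 x g := by
  obtain ⟨z, hz⟩ := F8.exists_z (K := K) (by rw [hK, hq2]; rfl)
  have hz0 : z ≠ 0 := fun h => by rw [h, mul_zero, zero_add] at hz; exact zero_ne_one hz
  obtain ⟨s, hs⟩ : ∃ s : Kˣ, (s : K) = z ^ 4 := ⟨Units.mk0 _ (pow_ne_zero 4 hz0), rfl⟩
  have hss : (s : K) * s = z := by
    rw [hs, ← pow_add, show 4 + 4 = 8 from rfl]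
    conv_rhs => rw [← FiniteField.pow_card z, hK, hq2]
    norm_num
  exact ⟨xS s, xS_mem hq hK hq2 s, xS_not_dvd hq hK hq2 s,
    fun g hg hg1 => two_cover_of hq hK hq2 z hz s hss hg hg1⟩

end CfsgLib.D4Cover
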