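import Mathlib.FieldTheory.Finite.Basic
import Mathlib.Data.Fintype.BigOperators
import Mathlib.Algebra.CharP.Two

/-!
The field with eight elements on `Fin 8`, and conjugators in `SL₂(8)` certifying the covering.
-/

set_option autoImplicit false

namespace CfsgLib.D4Cover.F8

/-- A two by two matrix on `Fin 8`. -/
abbrev Q8 := Fin 8 × Fin 8 × Fin 8 × Fin 8

/-- Addition. -/
def add8 (a b : Fin 8) : Fin 8 := ⟨(a.val ^^^ b.val) % 8, Nat.mod_lt _ (by decide)⟩

/-- Multiplication by the generator `z`, `z³ = z + 1`. -/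
def mz : Fin 8 → Fin 8 := ![0, 2, 4, 6, 3, 1, 7, 5]

/-- Multiplication. -/
def mul8 (a b : Fin 8) : Fin 8 :=
  add8 (add8 (if b.val.testBit 0 then a else 0) (if b.val.testBit 1 then mz a else 0))
    (if b.val.testBit 2 then mz (mz a) else 0)

/-- Inversion. -/
def inv8 : Fin 8 → Fin 8 := ![0, 1, 5, 6, 7, 2, 3, 4]

/-- The points of the projective line. -/
def pt8 (a b : Fin 8) : Fin 9 := if a = 0 then 8 else (mul8 b (inv8 a)).castSucc

/-- The point of the positive radical attached to a conjugator. -/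
def ptU (Y : Q8) : Fin 9 := pt8 Y.2.2.1 Y.2.2.2

/-- The point of the negative radical attached to a conjugator. -/
def ptV (Y : Q8) : Fin 9 := pt8 Y.2.1 Y.1

/-- The determinant. -/
def det8 (Y : Q8) : Fin 8 := add8 (mul8 Y.1 Y.2.2.2) (mul8 Y.2.1 Y.2.2.1)

/-- The corner of `Y M Y⁻¹`. -/
def corner8 (M Y : Q8) : Fin 8 :=
  add8 (mul8 (add8 (mul8 Y.1 M.1) (mul8 Y.2.1 M.2.2.1)) Y.2.2.2)
    (mul8 (add8 (mul8 Y.1 M.2.1) (mul8 Y.2.1 M.2.2.2)) Y.2.2.1)

/-- `Y` brings `M` to an admissible corner. -/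
def edgeOk (M Y : Q8) : Bool :=
  decide (det8 Y = 1) && (decide (corner8 M Y = 1) || decide (corner8 M Y = 2) || decide (corner8 M Y = 5))

/-- The product. -/
def mul22 (A B : Q8) : Q8 :=
  (add8 (mul8 A.1 B.1) (mul8 A.2.1 B.2.2.1), add8 (mul8 A.1 B.2.1) (mul8 A.2.1 B.2.2.2),
    add8 (mul8 A.2.2.1 B.1) (mul8 A.2.2.2 B.2.2.1), add8 (mul8 A.2.2.1 B.2.1) (mul8 A.2.2.2 B.2.2.2))

/-- The companion matrix. -/
def cmp8 (k : Fin 8) : Q8 := (0, 1, 1, k)

/-- Conjugators for the companion matrices. -/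
def mC : Fin 8 → Fin 9 → Q8
  | 0 => ![(1, 5, 2, 0), (1, 2, 6, 6), (1, 0, 5, 1), (1, 7, 7, 2),
      (1, 6, 5, 2), (0, 1, 1, 5), (1, 4, 5, 3), (1, 3, 7, 3),
      (1, 1, 0, 1)]
  | 1 => ![(1, 7, 4, 0), (1, 0, 1, 1), (1, 5, 4, 3), (0, 1, 1, 3),
      (1, 3, 4, 6), (1, 6, 6, 3), (1, 2, 7, 4), (1, 4, 6, 4),
      (1, 1, 0, 1)]
  | 2 => ![(1, 6, 3, 0), (1, 7, 3, 3), (1, 3, 1, 2), (1, 4, 4, 7),
      (1, 5, 1, 4), (1, 0, 2, 1), (1, 2, 7, 4), (0, 1, 1, 7),
      (1, 1, 0, 1)]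
  | 4 => ![(1, 2, 5, 0), (1, 7, 3, 3), (1, 0, 5, 1), (1, 6, 2, 6),
      (1, 5, 1, 4), (1, 4, 1, 5), (0, 1, 1, 6), (1, 3, 7, 3),
      (1, 1, 0, 1)]
  | 6 => ![(1, 6, 3, 0), (1, 2, 6, 6), (1, 4, 3, 6), (1, 5, 3, 5),
      (1, 7, 6, 5), (1, 0, 2, 1), (1, 3, 2, 7), (0, 1, 1, 7),
      (1, 1, 0, 1)]
  | 7 => ![(1, 3, 6, 0), (1, 2, 6, 6), (0, 1, 1, 2), (1, 4, 4, 7),
      (1, 7, 6, 5), (1, 0, 2, 1), (1, 5, 6, 2), (1, 6, 1, 7),
      (1, 1, 0, 1)]
  | _ => fun _ => (1, 0, 0, 1)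

/-- Conjugators for the identity matrix. -/
def mI : Fin 9 → Q8 :=
  ![(1, 7, 4, 0), (1, 6, 4, 4), (1, 4, 3, 6), (1, 5, 3, 5),
    (1, 3, 4, 6), (1, 2, 4, 2), (0, 1, 1, 6), (1, 1, 3, 2),
    (1, 0, 0, 1)]

/-- The eigenvalue of the two exceptional companion matrices. -/
def muB (k : Fin 8) : Fin 8 := if k = 5 then 3 else 4

/-- Diagonalising conjugators. -/
def yB (k : Fin 8) : Q8 := if k = 5 then (1, 3, 2, 7) else (1, 4, 6, 4)

/-- Spanning trees for the diagonal matrices. -/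
def tB (k : Fin 8) : List Q8 :=
  if k = 5 then
    [(1, 2, 6, 6), (1, 3, 5, 5), (1, 3, 7, 3), (1, 5, 5, 6),
      (1, 7, 3, 3), (1, 7, 6, 5), (1, 1, 2, 3), (1, 1, 4, 5),
      (1, 1, 7, 6), (1, 2, 1, 3), (1, 4, 1, 5), (1, 4, 3, 6),
      (1, 6, 2, 6)]
  else
    [(1, 4, 2, 2), (1, 4, 4, 7), (1, 4, 5, 3), (1, 5, 6, 2),
      (1, 7, 3, 3), (1, 7, 5, 7), (1, 2, 1, 3), (1, 2, 3, 7),
      (1, 3, 2, 7), (1, 3, 7, 3), (1, 5, 4, 3), (1, 6, 1, 7),
      (1, 1, 2, 3)]
/-- The diagonal matrix. -/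
def dia8 (k : Fin 8) : Q8 := (muB k, 0, 0, inv8 (muB k))

/-- Knowledge propagated along a list of conjugators from the point `1`. -/
def known : List Q8 → List (Fin 9) × List (Fin 9) → List (Fin 9) × List (Fin 9)
  | [], p => p
  | Y :: L, p =>
    if ptU Y ∈ p.1 then known L (p.1, ptV Y :: p.2)
    else if ptV Y ∈ p.2 then known L (ptU Y :: p.1, p.2)
    else known L p

theorem mC_chk : ∀ k : Fin 8, k ≠ 3 → k ≠ 5 → ∀ i : Fin 9,
    edgeOk (cmp8 k) (mC k i) = true ∧ ptU (mC k i) = i := by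
  decide +kernel

theorem mC_inj : ∀ k : Fin 8, k ≠ 3 → k ≠ 5 → ∀ i j : Fin 9, ptV (mC k i) = ptV (mC k j) → i = j := by
  decide +kernel

theorem mI_chk : ∀ i : Fin 9, edgeOk (1, 0, 0, 1) (mI i) = true ∧ ptU (mI i) = i := by
  decide +kernel

theorem mI_inj : ∀ i j : Fin 9, ptV (mI i) = ptV (mI j) → i = j := by
  decide +kernel

theorem yB_chk : ∀ k : Fin 8, k = 3 ∨ k = 5 →
    det8 (yB k) = 1 ∧ mul22 (yB k) (cmp8 k) = mul22 (dia8 k) (yB k) ∧ muB k ≠ 0 := by
  decide +kernel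

theorem tB_edge : ∀ k : Fin 8, k = 3 ∨ k = 5 → (tB k).all (edgeOk (dia8 k)) = true := by
  decide +kernel

theorem tB_known : ∀ k : Fin 8, k = 3 ∨ k = 5 → ∀ i : Fin 9, i ≠ 0 → i ≠ 8 →
    decide (i ∈ (known (tB k) ([1], [])).1) = true ∧ decide (i ∈ (known (tB k) ([1], [])).2) = true := by
  decide +kernel

section

variable {K : Type*} [Field K] {fu fv : Fin 9 → K}

theorem known_const (L : List Q8) (h : ∀ Y ∈ L, fu (ptU Y) + fv (ptV Y) = 1) :
    ∀ p : List (Fin 9) × List (Fin 9), (∀ i ∈ p.1, fu i = fu 1) → (∀ j ∈ p.2, fu 1 + fv j = 1) →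
      (∀ i ∈ (known L p).1, fu i = fu 1) ∧ ∀ j ∈ (known L p).2, fu 1 + fv j = 1 := by
  induction L with
  | nil => exact fun p h1 h2 => ⟨h1, h2⟩
  | cons Y L ih =>
    intro p h1 h2
    have hY := h Y (List.mem_cons_self ..)
    have h' := ih fun Z hZ => h Z (List.mem_cons_of_mem _ hZ)
    rw [known]
    split_ifs with hu hv
    · refine h' _ h1 fun j hj => ?_
      rcases List.mem_cons.1 hj with rfl | hj
      · rw [← h1 _ hu, hY]
      · exact h2 j hj
    · refine h' _ (fun i hi => ?_) h2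
      rcases List.mem_cons.1 hi with rfl | hi
      · linear_combination hY - h2 _ hv
      · exact h1 i hi
    · exact h' _ h1 h2

/-- A matching cannot flip two functions of even weight. -/
theorem matching_false [CharP K 2] (σ : Fin 9 → Q8) (hu : ∀ i, ptU (σ i) = i)
    (hv : ∀ i j, ptV (σ i) = ptV (σ j) → i = j) (hsu : ∑ i, fu i = 0) (hsv : ∑ i, fv i = 0)
    (h : ∀ i, fu (ptU (σ i)) + fv (ptV (σ i)) = 1) : False := by
  have hb : Function.Bijective fun i => ptV (σ i) := Finite.injective_iff_bijective.1 fun i j => hv i j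
  have e : ∑ i : Fin 9, (fu i + fv (ptV (σ i))) = ∑ _i : Fin 9, (1 : K) :=
    Finset.sum_congr rfl fun i _ => by rw [← h i, hu]
  rw [Finset.sum_add_distrib, hsu, hb.sum_comp fv, hsv, Finset.sum_const, Finset.card_univ,
    Fintype.card_fin, nsmul_eq_mul, mul_one, add_zero] at e
  have h2 : (2 : K) = 0 := CharTwo.two_eq_zero
  exact one_ne_zero (α := K) (by push_cast at e; linear_combination -e - 4 * h2)

/-- The element of `K` with the given bits. -/
def ev (z : K) (a : Fin 8) : K :=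
  (if a.val.testBit 0 then 1 else 0) + (if a.val.testBit 1 then z else 0) +
    (if a.val.testBit 2 then z * z else 0)

variable [CharP K 2] {z : K}

theorem ev_zero : ev z 0 = 0 := by simp [ev]

theorem ev_one : ev z 1 = 1 := by simp [ev, Nat.testBit]

theorem ev_two : ev z 2 = z := by simp [ev, Nat.testBit]

theorem ev_add (a b : Fin 8) : ev z (add8 a b) = ev z a + ev z b := by
  have h2 : (2 : K) = 0 := CharTwo.two_eq_zero
  have hb : ∀ (p q : Bool) (c : K), (if (p ^^ q) = true then c else 0) =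
      (if p = true then c else 0) + (if q = true then c else 0) := by
    intro p q c
    cases p <;> cases q <;> simp
    linear_combination -c * h2
  have ht : ∀ i < 3, (add8 a b).val.testBit i = (a.val.testBit i ^^ b.val.testBit i) := by
    intro i hi
    show ((a.val ^^^ b.val) % 2 ^ 3).testBit i = _
    rw [Nat.testBit_mod_two_pow]
    simp [hi]
  simp only [ev, ht 0 (by decide), ht 1 (by decide), ht 2 (by decide), hb]
  ring

variable (hz : z * z * z = z + 1)
include hz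

theorem ev_mz (a : Fin 8) : ev z (mz a) = z * ev z a := by
  have h2 : (2 : K) = 0 := CharTwo.two_eq_zero
  fin_cases a <;> simp [ev, mz, Nat.testBit] <;> ring_nf <;>
    first
      | done
      | linear_combination -hz
      | linear_combination hz
      | linear_combination -hz - h2
      | linear_combination -hz + z * h2
      | linear_combination -hz - z * h2
      | linear_combination -hz - (z + 1) * h2

theorem ev_mul (a b : Fin 8) : ev z (mul8 a b) = ev z a * ev z b := by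
  rw [mul8, ev_add, ev_add]
  have hb : ev z b = (if b.val.testBit 0 then 1 else 0) + (if b.val.testBit 1 then z else 0) +
    (if b.val.testBit 2 then z * z else 0) := rfl
  rw [hb]
  cases b.val.testBit 0 <;> cases b.val.testBit 1 <;> cases b.val.testBit 2 <;>
    simp [ev_mz hz, ev_zero] <;> ring

theorem ev_inj : Function.Injective (ev z) := by
  have h : ∀ a, ev z a = 0 → a = 0 := fun a ha => by
    by_contra h0
    have := ev_mul hz a (inv8 a)
    rw [(by decide +kernel : ∀ a : Fin 8, a ≠ 0 → mul8 a (inv8 a) = 1) a h0, ev_one, ha, zero_mul] at this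
    exact one_ne_zero this
  intro a b hab
  have h2 : (2 : K) = 0 := CharTwo.two_eq_zero
  have := h (add8 a b) (by rw [ev_add, hab]; linear_combination ev z b * h2)
  exact (by decide +kernel : ∀ a b : Fin 8, add8 a b = 0 → a = b) a b this

theorem ev_inv (a : Fin 8) : ev z (inv8 a) = (ev z a)⁻¹ := by
  by_cases h0 : a = 0
  · subst h0
    rw [show inv8 0 = 0 from rfl, ev_zero, inv_zero]
  · refine eq_inv_of_mul_eq_one_right ?_
    rw [← ev_mul hz, (by decide +kernel : ∀ a : Fin 8, a ≠ 0 → mul8 a (inv8 a) = 1) a h0, ev_one]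

theorem ev_bij [Fintype K] (hK : Fintype.card K = 8) : Function.Bijective (ev z) :=
  (Fintype.bijective_iff_injective_and_card _).2 ⟨ev_inj hz, by rw [Fintype.card_fin, hK]⟩

end

theorem exists_z {K : Type*} [Field K] [Fintype K] [CharP K 2] (hK : Fintype.card K = 8) :
    ∃ z : K, z * z * z = z + 1 := by
  classical
  have h2 : (2 : K) = 0 := CharTwo.two_eq_zero
  obtain ⟨y, hy⟩ := Finset.exists_mem_notMem_of_card_lt_card (t := (Finset.univ : Finset K))
    (s := ({0, 1} : Finset K)) (lt_of_le_of_lt Finset.card_le_two (by rw [Finset.card_univ, hK]; decide))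
  have hy0 : y ≠ 0 := fun h => hy.2 (by simp [h])
  have hy1 : y ≠ 1 := fun h => hy.2 (by simp [h])
  have h8 : y ^ 8 = y := by rw [← hK, FiniteField.pow_card]
  have h7 : y ^ 7 = 1 := mul_right_cancel₀ hy0 (by rw [one_mul, ← pow_succ]; exact h8)
  have h : (y - 1) * ((y * y * y - (y + 1)) * (y * y * y + y * y + 1)) = 0 := by
    linear_combination h7 + (-(y ^ 5) + 1) * h2
  rcases mul_eq_zero.1 ((mul_eq_zero.1 h).resolve_left (sub_ne_zero.2 hy1)) with h | h
  · exact ⟨y, sub_eq_zero.1 h⟩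
  · refine ⟨y⁻¹, ?_⟩
    field_simp
    linear_combination -h + h2

end CfsgLib.D4Cover.F8
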