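import Cfsg.Agent.D4Cover.Large
import Mathlib.Algebra.CharP.Two

/-!
Coefficient functionals on the unipotent subgroups of `³D₄(2)`, and evaluation of words modulo two.
-/

set_option autoImplicit false
set_option linter.unusedSectionVars false
set_option linter.unusedFintypeInType false

namespace CfsgLib.D4Cover

open Cfsg.Lie CfsgLib.Chevalley CfsgLib.TwistedLie
open scoped Matrix MatrixGroups

local notation "S" => sysD4

/-- The index of a root. -/
def rI (s : Fin 24) : chevD4.Idx := Sum.inr ⟨s.val, s.isLt⟩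

/-- The parity of the coefficient of `t ^ n` in an entry of `x_r(t)`. -/
def coefB (r R c n : ℕ) : Bool :=
  decide ((((colTerms chevD4 r c).filter fun y => decide (y.1 = R) && decide (y.2.2 = n)).map
    fun y => y.2.1).sum % 2 = 1)

theorem deg_chk : ∀ r : Fin chevD4.nroots, ∀ c : Fin 28,
    (colTerms chevD4 (r : ℕ) (c : ℕ)).all (fun y => decide (y.2.2 < 3)) = true := by
  decide +kernel

/-- The row `R` of `x_r` is that of the identity, up to the entry in the lowest column. -/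
def rowHomB (r R : ℕ) (ε : Bool) : Bool :=
  (List.range 28).all fun c =>
    (coefB r (4 + R) c 0 == decide (c = 4 + R)) &&
      (coefB r (4 + R) c 1 == (decide (c = 4) && ε)) && !coefB r (4 + R) c 2

/-- The row `R` of `x_r` adds the row `R'`. -/
def rowAddB (r R R' : ℕ) (ε : Bool) : Bool :=
  (List.range 28).all fun c =>
    (coefB r (4 + R) c 0 == decide (c = 4 + R)) &&
      (coefB r (4 + R) c 1 == (decide (c = 4 + R') && ε)) && !coefB r (4 + R) c 2

/-- The rows of the roots of degree minus one. -/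
def rowsM : List (Fin 24) := [1, 2, 3, 4, 6, 7, 8, 9]

/-- The positive root whose coefficient is read in row `R`. -/
def rootOf : Fin 24 → ℕ := fun R => (([(1, 14), (2, 15), (3, 16), (4, 17), (6, 19), (7, 20), (8, 21),
  (9, 22)] : List (ℕ × ℕ)).lookup R.val).getD 0

theorem row_zero_chk : ∀ r : Fin chevD4.nroots, 12 ≤ (r : ℕ) → rowHomB r 0 false = true := by
  decide +kernel

theorem row_one_chk : ∀ r : Fin chevD4.nroots, 12 ≤ (r : ℕ) →
    rowHomB r 1 (decide ((r : ℕ) = 14)) = true := by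
  decide +kernel

theorem row_rad_chk : ∀ r : Fin chevD4.nroots, 12 ≤ (r : ℕ) →
    (¬ ∀ m < chevD4.rank, m ∉ D4.blkN 0 → (chevD4.coroot.getD (r : ℕ) #[]).getD m 0 = 0) →
    ∀ R ∈ rowsM, rowHomB r R.val (decide ((r : ℕ) = rootOf R)) = true := by
  decide +kernel

/-- The pairs of rows moved by a short simple root. -/
def liftPairs : List (ℕ × Fin 24 × Fin 24) :=
  [(0, 1, 6), (0, 2, 7), (0, 3, 8), (0, 4, 9), (2, 1, 3), (2, 2, 4), (2, 6, 8), (2, 7, 9),
    (3, 1, 2), (3, 3, 4), (3, 6, 7), (3, 8, 9)]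

theorem lift_chk : ∀ p ∈ liftPairs,
    (rowAddB (chevD4.simple p.1) p.2.2.val p.2.1.val true && rowHomB (chevD4.simple p.1) p.2.1.val false &&
      rowHomB (chevD4.neg (chevD4.simple p.1)) p.2.2.val false &&
      rowAddB (chevD4.neg (chevD4.simple p.1)) p.2.1.val p.2.2.val true) = true := by
  decide +kernel

theorem fix_low_chk : ∀ r : Fin chevD4.nroots,
    (∀ m < chevD4.rank, m ∉ D4.blkN 0 → (chevD4.coroot.getD (r : ℕ) #[]).getD m 0 = 0) →
    ((List.range 28).all fun R => (coefB r R 4 0 == decide (R = 4)) && !coefB r R 4 1 && !coefB r R 4 2) =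
      true := by
  decide +kernel

theorem rowHomB_spec {r R : ℕ} {ε : Bool} (h : rowHomB r R ε = true) {c : ℕ} (hc : c < 28) :
    coefB r (4 + R) c 0 = decide (c = 4 + R) ∧ coefB r (4 + R) c 1 = (decide (c = 4) && ε) ∧
      coefB r (4 + R) c 2 = false := by
  have := List.all_eq_true.1 h c (List.mem_range.2 hc)
  simp only [Bool.and_eq_true, beq_iff_eq, Bool.not_eq_true'] at this
  exact ⟨this.1.1, this.1.2, this.2⟩

theorem rowAddB_spec {r R R' : ℕ} {ε : Bool} (h : rowAddB r R R' ε = true) {c : ℕ} (hc : c < 28) :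
    coefB r (4 + R) c 0 = decide (c = 4 + R) ∧ coefB r (4 + R) c 1 = (decide (c = 4 + R') && ε) ∧
      coefB r (4 + R) c 2 = false := by
  have := List.all_eq_true.1 h c (List.mem_range.2 hc)
  simp only [Bool.and_eq_true, beq_iff_eq, Bool.not_eq_true'] at this
  exact ⟨this.1.1, this.1.2, this.2⟩

theorem fix_low_spec {r : Fin chevD4.nroots}
    (hr : ∀ m < chevD4.rank, m ∉ D4.blkN 0 → (chevD4.coroot.getD (r : ℕ) #[]).getD m 0 = 0)
    {R : ℕ} (hR : R < 28) :
    coefB r R 4 0 = decide (R = 4) ∧ coefB r R 4 1 = false ∧ coefB r R 4 2 = false := by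
  have := List.all_eq_true.1 (fix_low_chk r hr) R (List.mem_range.2 hR)
  simp only [Bool.and_eq_true, beq_iff_eq, Bool.not_eq_true'] at this
  exact ⟨this.1.1, this.1.2, this.2⟩

variable {K : Type*} [Field K] [Fintype K] [CharP K 2]

theorem int_cast_two (z : ℤ) : (z : K) = if z % 2 = 1 then 1 else 0 := by
  have h2 : (2 : K) = 0 := CharTwo.two_eq_zero
  obtain ⟨k, hk⟩ : ∃ k, z = 2 * k + z % 2 := ⟨z / 2, (Int.mul_ediv_add_emod z 2).symm⟩
  rcases Int.emod_two_eq_zero_or_one z with h | h <;> rw [h] at hk ⊢ <;> rw [hk] <;> simp [h2]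

theorem rI_ne {a b : Fin 24} (h : a ≠ b) : rI a ≠ rI b := fun hh =>
  h (Fin.ext (Fin.ext_iff.1 (Sum.inr.inj hh)))

theorem entry_eq {r : ℕ} (hr : r < chevD4.nroots) (t : K) (R j : chevD4.Idx) :
    (Sys.xG S K r t : Matrix chevD4.Idx chevD4.Idx K) R j =
      (if coefB r (enc chevD4 R) (enc chevD4 j) 0 then 1 else 0) +
        (if coefB r (enc chevD4 R) (enc chevD4 j) 1 then t else 0) +
        (if coefB r (enc chevD4 R) (enc chevD4 j) 2 then t ^ 2 else 0) := by
  have hj : enc chevD4 j < 28 := by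
    rcases j with j | j
    · exact lt_of_lt_of_le j.isLt (by decide)
    · show 4 + (j : ℕ) < 28
      have := j.isLt
      simp only [show chevD4.nroots = 24 from rfl] at this
      omega
  have hR : enc chevD4 R < 28 := by
    rcases R with R | R
    · exact lt_of_lt_of_le R.isLt (by decide)
    · show 4 + (R : ℕ) < 28
      have := R.isLt
      simp only [show chevD4.nroots = 24 from rfl] at this
      omega
  have hb : ∀ c, bv chevD4 K c R = if c = enc chevD4 R then 1 else 0 := fun c => by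
    simp only [bv, eq_comm]
  have hl : ∀ l : List (ℕ × ℤ × ℕ), (∀ y ∈ l, y.2.2 < 3) →
      (l.map ((fun v : chevD4.Idx → K => v R) ∘ fun y => ((y.2.1 : K) * t ^ y.2.2) • bv chevD4 K y.1)).sum =
      ((((l.filter fun y => decide (y.1 = enc chevD4 R) && decide (y.2.2 = 0)).map fun y => y.2.1).sum : ℤ) : K) +
      ((((l.filter fun y => decide (y.1 = enc chevD4 R) && decide (y.2.2 = 1)).map fun y => y.2.1).sum : ℤ) : K) * t +
      ((((l.filter fun y => decide (y.1 = enc chevD4 R) && decide (y.2.2 = 2)).map fun y => y.2.1).sum : ℤ) : K) * t ^ 2 := by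
    intro l hl
    induction l with
    | nil => simp
    | cons a l ih =>
      have ha := hl a (List.mem_cons_self ..)
      rw [List.map_cons, List.sum_cons, ih fun y hy => hl y (List.mem_cons_of_mem _ hy)]
      simp only [List.filter_cons, Function.comp_apply, Pi.smul_apply, smul_eq_mul, hb]
      by_cases h : a.1 = enc chevD4 R
      · obtain h' | h' | h' : a.2.2 = 0 ∨ a.2.2 = 1 ∨ a.2.2 = 2 := by omega
        all_goals simp [h, h']; ring
      · simp [h]
  have hm : (Sys.xG S K r t : Matrix chevD4.Idx chevD4.Idx K) R j =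
      ((Sys.xG S K r t : Matrix chevD4.Idx chevD4.Idx K) *ᵥ (Pi.single j 1 : chevD4.Idx → K)) R := by
    rw [Matrix.mulVec_single_one]; rfl
  rw [hm, ← bv_enc, Sys.xG_val, x_bv (Sys.wf S) hr hj, list_sum_apply, List.map_map,
    hl _ fun y hy => of_decide_eq_true (List.all_eq_true.1 (deg_chk ⟨r, hr⟩ ⟨_, hj⟩) y hy)]
  simp only [int_cast_two, coefB, decide_eq_true_eq]
  congr 1
  · congr 1
    split_ifs <;> simp
  · split_ifs <;> simp

attribute [irreducible] coefB rowHomB rowAddB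

theorem enc_inj {R R' : chevD4.Idx} (h : enc chevD4 R = enc chevD4 R') : R = R' := by
  rcases R with a | a <;> rcases R' with b | b <;> simp only [enc, show chevD4.rank = 4 from rfl] at h
  · exact congrArg Sum.inl (Fin.ext h)
  · have := a.isLt; simp only [show chevD4.rank = 4 from rfl] at this; omega
  · have := b.isLt; simp only [show chevD4.rank = 4 from rfl] at this; omega
  · exact congrArg Sum.inr (Fin.ext (by omega))

theorem enc_lt (R : chevD4.Idx) : enc chevD4 R < 28 := by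
  rcases R with R | R
  · exact lt_of_lt_of_le R.isLt (by decide)
  · show 4 + (R : ℕ) < 28
    have := R.isLt
    simp only [show chevD4.nroots = 24 from rfl] at this
    omega

theorem enc_rI (R : Fin 24) : enc chevD4 (rI R) = 4 + R.val := rfl

theorem rowHom_apply {r : ℕ} (hr : r < chevD4.nroots) {R : Fin 24} {ε : Bool}
    (h : rowHomB r R.val ε = true) (t : K) (v : chevD4.Idx → K) :
    ((Sys.xG S K r t : Matrix chevD4.Idx chevD4.Idx K) *ᵥ v) (rI R) =
      v (rI R) + (if ε then t else 0) * v (rI 0) := by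
  have e : ∀ j, (Sys.xG S K r t : Matrix chevD4.Idx chevD4.Idx K) (rI R) j =
      (if j = rI R then 1 else 0) + (if j = rI 0 then (if ε then t else 0) else 0) := by
    intro j
    obtain ⟨a0, a1, a2⟩ := rowHomB_spec h (enc_lt j)
    rw [entry_eq hr, enc_rI, a0, a1, a2]
    have h1 : (enc chevD4 j = 4 + R.val) ↔ j = rI R :=
      ⟨fun hh => enc_inj hh, fun hh => by rw [hh, enc_rI]⟩
    have h0 : (enc chevD4 j = 4) ↔ j = rI 0 := ⟨fun hh => enc_inj hh, fun hh => by rw [hh]; rfl⟩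
    cases ε <;> simp [h1, h0]
  show ∑ j, _ * v j = _
  simp only [e, add_mul, ite_mul, one_mul, zero_mul, Finset.sum_add_distrib, Finset.sum_ite_eq',
    Finset.mem_univ, if_true]

theorem rowAdd_apply {r : ℕ} (hr : r < chevD4.nroots) {R R' : Fin 24}
    (h : rowAddB r R.val R'.val true = true) (t : K) (v : chevD4.Idx → K) :
    ((Sys.xG S K r t : Matrix chevD4.Idx chevD4.Idx K) *ᵥ v) (rI R) = v (rI R) + t * v (rI R') := by
  have e : ∀ j, (Sys.xG S K r t : Matrix chevD4.Idx chevD4.Idx K) (rI R) j =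
      (if j = rI R then 1 else 0) + (if j = rI R' then t else 0) := by
    intro j
    obtain ⟨a0, a1, a2⟩ := rowAddB_spec h (enc_lt j)
    rw [entry_eq hr, enc_rI, a0, a1, a2]
    have h1 : (enc chevD4 j = 4 + R.val) ↔ j = rI R :=
      ⟨fun hh => enc_inj hh, fun hh => by rw [hh, enc_rI]⟩
    have h2 : (enc chevD4 j = 4 + R'.val) ↔ j = rI R' :=
      ⟨fun hh => enc_inj hh, fun hh => by rw [hh, enc_rI]⟩
    simp [h1, h2]
  show ∑ j, _ * v j = _
  simp only [e, add_mul, ite_mul, one_mul, zero_mul, Finset.sum_add_distrib, Finset.sum_ite_eq',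
    Finset.mem_univ, if_true]

/-- The lowest root vector. -/
noncomputable def eLow (K : Type*) [Field K] : chevD4.Idx → K := bv chevD4 K (chevD4.rank + 0)

theorem eLow_apply (R : chevD4.Idx) : eLow K R = if R = rI 0 then 1 else 0 := by
  rw [eLow, show chevD4.rank + 0 = enc chevD4 (rI 0) from rfl, bv_enc, Pi.single_apply]

/-- The coefficient read in row `R` of the lowest column. -/
noncomputable def coef (R : Fin 24) (u : GL chevD4.Idx K) : K :=
  ((u : Matrix chevD4.Idx chevD4.Idx K) *ᵥ eLow K) (rI R)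

/-- The row of `R` is triangular. -/
def TriRow (R : Fin 24) (u : GL chevD4.Idx K) : Prop :=
  ∀ v : chevD4.Idx → K,
    ((u : Matrix chevD4.Idx chevD4.Idx K) *ᵥ v) (rI 0) = v (rI 0) ∧
      ((u : Matrix chevD4.Idx chevD4.Idx K) *ᵥ v) (rI R) = v (rI R) + coef R u * v (rI 0)

theorem coef_xG {r : ℕ} (hr : r < chevD4.nroots) {R : Fin 24} (hR : R ≠ 0) {ε : Bool}
    (h : rowHomB r R.val ε = true) (t : K) : coef R (Sys.xG S K r t) = if ε then t else 0 := by
  rw [coef, rowHom_apply hr h, eLow_apply, eLow_apply, if_pos rfl, mul_one, if_neg, zero_add]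
  exact rI_ne hR

theorem triRow_of {R : Fin 24} (hR : R ≠ 0) {P : Set ℕ}
    (h : ∀ r : Fin chevD4.nroots, 12 ≤ (r : ℕ) → (r : ℕ) ∈ P → ∃ ε, rowHomB r R.val ε = true)
    {u : GL chevD4.Idx K} (hu : u ∈ uSub chevD4 K P) : TriRow R u := by
  induction hu using Subgroup.closure_induction with
  | mem x hx =>
    obtain ⟨r, t, ⟨hrP, hpos⟩, hx⟩ := hx
    obtain ⟨h1, h2⟩ := (Sys.pos_iff S r).1 hpos
    rw [Sys.eq_xG S K hx]
    obtain ⟨ε, hε⟩ := h ⟨r, h2⟩ h1 hrP
    intro v
    refine ⟨?_, by rw [rowHom_apply h2 hε, coef_xG h2 hR hε]⟩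
    rw [rowHom_apply (R := (0 : Fin 24)) (ε := false) h2 (row_zero_chk ⟨r, h2⟩ h1)]
    simp only [Bool.false_eq_true, if_false, zero_mul, add_zero]
  | one =>
    intro v
    have hne : rI R ≠ rI 0 := rI_ne hR
    simp [coef, eLow_apply, hne]
  | mul x y _ _ hx hy =>
    intro v
    have hxy : coef R (x * y) = coef R y + coef R x := by
      rw [coef, Units.val_mul, ← Matrix.mulVec_mulVec, (hx _).2, (hy _).1, eLow_apply, if_pos rfl, mul_one]
      rfl
    rw [Units.val_mul, ← Matrix.mulVec_mulVec, (hx _).1, (hx _).2, (hy v).1, (hy v).2, hxy]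
    exact ⟨rfl, by ring⟩
  | inv x _ hx =>
    intro v
    have key : ∀ v, ((x⁻¹ : GL chevD4.Idx K).1 *ᵥ v) (rI 0) = v (rI 0) ∧
        ((x⁻¹ : GL chevD4.Idx K).1 *ᵥ v) (rI R) = v (rI R) - coef R x * v (rI 0) := by
      intro v
      obtain ⟨h1, h2⟩ := hx ((x⁻¹ : GL chevD4.Idx K).1 *ᵥ v)
      rw [Matrix.mulVec_mulVec, ← Units.val_mul, mul_inv_cancel, Units.val_one, Matrix.one_mulVec] at h1 h2
      exact ⟨h1.symm, by linear_combination -h2 + coef R x * h1⟩
    refine ⟨(key v).1, ?_⟩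
    rw [(key v).2]
    have hne : rI R ≠ rI 0 := rI_ne hR
    have : coef R x⁻¹ = -coef R x := by
      rw [coef, (key _).2, eLow_apply, eLow_apply, if_pos rfl, if_neg hne]
      simp
    rw [this]; ring

theorem coef_mul {R : Fin 24} {x y : GL chevD4.Idx K} (hx : TriRow R x) (hy : TriRow R y) :
    coef R (x * y) = coef R x + coef R y := by
  rw [coef, Units.val_mul, ← Matrix.mulVec_mulVec, (hx _).2, (hy _).1, eLow_apply, if_pos rfl, mul_one]
  exact add_comm _ _

theorem triRow_pos {u : GL chevD4.Idx K} (hu : u ∈ chevD4.posUnipotent K) : TriRow 1 u := by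
  rw [← uSub_univ] at hu
  exact triRow_of (R := (1 : Fin 24)) (P := Set.univ) (by decide) (fun r h12 _ => ⟨_, row_one_chk r h12⟩) hu

theorem triRow_rad {R : Fin 24} (hR : R ∈ rowsM) {u : GL chevD4.Idx K}
    (hu : u ∈ uSub chevD4 K (outSet chevD4 (blkSet 0))) : TriRow R u :=
  triRow_of ((by decide : ∀ R ∈ rowsM, R ≠ 0) R hR)
    (P := outSet chevD4 (blkSet 0))
    (fun r h12 hP => ⟨_, row_rad_chk r h12 (fun hh => hP ⟨r.isLt, hh⟩) R hR⟩) hu

/-- The coefficient at `14`. -/
noncomputable def cL (u : GL chevD4.Idx K) : K := coef 1 u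

theorem cL_mul {x y : GL chevD4.Idx K} (hx : x ∈ chevD4.posUnipotent K) (hy : y ∈ chevD4.posUnipotent K) :
    cL (x * y) = cL x + cL y := coef_mul (triRow_pos hx) (triRow_pos hy)

theorem cL_x14 (t : K) : cL (Sys.xG S K 14 t) = t := by
  rw [cL, coef_xG (r := 14) (R := (1 : Fin 24)) (by decide) (by decide) (row_one_chk (⟨14, by decide⟩ : Fin chevD4.nroots) (by decide +kernel))]
  exact if_pos (decide_eq_true rfl)

theorem cL_rad {u : GL chevD4.Idx K} (hu : u ∈ uSub chevD4 K (outSet chevD4 (blkSet 1))) : cL u = 0 := by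
  induction hu using Subgroup.closure_induction with
  | mem x hx =>
    obtain ⟨r, t, ⟨hrP, hpos⟩, hx⟩ := hx
    obtain ⟨h1, h2⟩ := (Sys.pos_iff S r).1 hpos
    rw [Sys.eq_xG S K hx, cL, coef_xG (R := (1 : Fin 24)) h2 (by decide) (row_one_chk ⟨r, h2⟩ h1)]
    rw [if_neg]
    simp only [decide_eq_true_eq]
    intro h14
    exact hrP ⟨h2, h14 ▸ (by decide +kernel : ∀ m < chevD4.rank, m ∉ D4.blkN 1 →
      (chevD4.coroot.getD 14 #[]).getD m 0 = 0)⟩
  | one =>
    have : rI (1 : Fin 24) ≠ rI 0 := rI_ne (by decide)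
    simp [cL, coef, eLow_apply, this]
  | mul x y hx hy ex ey =>
    rw [cL_mul (uSub_le_posUnipotent K _ hx) (uSub_le_posUnipotent K _ hy), ex, ey, add_zero]
  | inv x hx ex =>
    have hxp := uSub_le_posUnipotent K _ hx
    have h := cL_mul (inv_mem hxp) hxp
    rw [inv_mul_cancel, ex, add_zero] at h
    rw [← h]
    have : rI (1 : Fin 24) ≠ rI 0 := rI_ne (by decide)
    simp [cL, coef, eLow_apply, this]

theorem fix_low {y : GL chevD4.Idx K} (hy : y ∈ RL K 0) :
    (y : Matrix chevD4.Idx chevD4.Idx K) *ᵥ eLow K = eLow K := by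
  induction hy using Subgroup.closure_induction with
  | mem x hx =>
    obtain ⟨r, t, hr, rfl⟩ := hx
    funext R
    rw [eLow, show chevD4.rank + 0 = enc chevD4 (rI 0) from rfl, bv_enc, Matrix.mulVec_single_one,
      Matrix.col_apply, entry_eq hr.1, enc_rI]
    obtain ⟨a0, a1, a2⟩ := fix_low_spec (r := ⟨r, hr.1⟩) hr.2 (enc_lt R)
    simp only [show 4 + ((0 : Fin 24) : ℕ) = 4 from rfl, a0, a1, a2, Pi.single_apply]
    by_cases h : R = rI 0
    · subst h; simp [enc_rI]
    · have : enc chevD4 R ≠ 4 := fun hh => h (enc_inj hh)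
      simp [h, this]
  | one => simp
  | mul x y _ _ hx hy => rw [Units.val_mul, ← Matrix.mulVec_mulVec, hy, hx]
  | inv x _ hx =>
    conv_lhs => rw [← hx]
    rw [Matrix.mulVec_mulVec, ← Units.val_mul, inv_mul_cancel, Units.val_one, Matrix.one_mulVec]

/-- The two rows of a pair transform as the natural module of `SL₂`. -/
theorem lift_rows {i : ℕ} (hi : i < chevD4.rank) {lo hh : Fin 24} (hp : (i, lo, hh) ∈ liftPairs)
    (g : SL(2, K)) (v : chevD4.Idx → K) :
    (((Sys.sl2Rel S K hi).lift g : GL chevD4.Idx K).1 *ᵥ v) (rI hh) = g.1 0 0 * v (rI hh) + g.1 0 1 * v (rI lo) ∧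
      (((Sys.sl2Rel S K hi).lift g : GL chevD4.Idx K).1 *ᵥ v) (rI lo) =
        g.1 1 0 * v (rI hh) + g.1 1 1 * v (rI lo) := by
  have hc := lift_chk _ hp
  simp only [Bool.and_eq_true] at hc
  obtain ⟨⟨⟨c1, c2⟩, c3⟩, c4⟩ := hc
  have hr : chevD4.simple i < chevD4.nroots := (Sys.wf S).simple_lt i hi
  have hn : chevD4.neg (chevD4.simple i) < chevD4.nroots := (Sys.wf S).neg_lt _ hr
  let P : SL(2, K) → Prop := fun g => ∀ v : chevD4.Idx → K,
    (((Sys.sl2Rel S K hi).lift g : GL chevD4.Idx K).1 *ᵥ v) (rI hh) = g.1 0 0 * v (rI hh) + g.1 0 1 * v (rI lo) ∧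
      (((Sys.sl2Rel S K hi).lift g : GL chevD4.Idx K).1 *ᵥ v) (rI lo) =
        g.1 1 0 * v (rI hh) + g.1 1 1 * v (rI lo)
  have h1 : P 1 := fun v => by simp
  have hm : ∀ g g', P g → P g' → P (g * g') := by
    intro g g' hg hg' v
    rw [map_mul, Units.val_mul, ← Matrix.mulVec_mulVec, (hg _).1, (hg _).2, (hg' v).1, (hg' v).2]
    simp only [Matrix.SpecialLinearGroup.coe_mul, Matrix.mul_apply, Fin.sum_univ_two]
    constructor <;> ring
  let H : Subgroup (SL(2, K)) :=
    { carrier := {g | P g ∧ P g⁻¹}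
      one_mem' := ⟨h1, by rw [inv_one]; exact h1⟩
      mul_mem' := fun {a b} ha hb => ⟨hm _ _ ha.1 hb.1, by rw [mul_inv_rev]; exact hm _ _ hb.2 ha.2⟩
      inv_mem' := fun {a} ha => ⟨ha.2, by rw [inv_inv]; exact ha.1⟩ }
  have hP1 : ∀ t, P (SL2Rel.upper t) := by
    intro t v
    rw [SL2Rel.lift_upper (Sys.sl2Rel S K hi) (g := SL2Rel.upper t) rfl, SL2Rel.upper_val]
    show ((Sys.xG S K (chevD4.simple i) t).1 *ᵥ v) _ = _ ∧ ((Sys.xG S K (chevD4.simple i) t).1 *ᵥ v) _ = _
    rw [rowAdd_apply hr c1, rowHom_apply hr c2]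
    simp
  have hP2 : ∀ t, P (lower t) := by
    intro t v
    rw [SL2Rel.lift_lower (Sys.sl2Rel S K hi) (g := lower t) rfl, lower_val]
    show ((Sys.xG S K (chevD4.neg (chevD4.simple i)) t).1 *ᵥ v) _ = _ ∧
      ((Sys.xG S K (chevD4.neg (chevD4.simple i)) t).1 *ᵥ v) _ = _
    rw [rowAdd_apply hn c4, rowHom_apply hn c3]
    simp [add_comm]
  have hi1 : ∀ t : K, (SL2Rel.upper t)⁻¹ = SL2Rel.upper (-t) := fun t => by
    apply inv_eq_of_mul_eq_one_right
    apply Matrix.SpecialLinearGroup.ext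
    intro a b
    fin_cases a <;> fin_cases b <;>
      simp [SL2Rel.upper_val, Matrix.SpecialLinearGroup.coe_mul, Matrix.mul_apply, Fin.sum_univ_two]
  have hi2 : ∀ t : K, (lower t)⁻¹ = lower (-t) := fun t => by
    apply inv_eq_of_mul_eq_one_right
    apply Matrix.SpecialLinearGroup.ext
    intro a b
    fin_cases a <;> fin_cases b <;>
      simp [lower_val, Matrix.SpecialLinearGroup.coe_mul, Matrix.mul_apply, Fin.sum_univ_two]
  exact (sl2_induction (H := H) (fun t => ⟨hP1 t, by rw [hi1]; exact hP1 _⟩)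
    (fun t => ⟨hP2 t, by rw [hi2]; exact hP2 _⟩) g).1 v

/-- The cubic form of a radical element at `(c, d)`. -/
noncomputable def Fq (u : GL chevD4.Idx K) (c d : K) : K :=
  coef 1 u * (d * d ^ 2 * d ^ 4) + coef 2 u * (d * d ^ 2 * c ^ 4) + coef 3 u * (d * c ^ 2 * d ^ 4) +
    coef 4 u * (d * c ^ 2 * c ^ 4) + coef 6 u * (c * d ^ 2 * d ^ 4) + coef 7 u * (c * d ^ 2 * c ^ 4) +
    coef 8 u * (c * c ^ 2 * d ^ 4) + coef 9 u * (c * c ^ 2 * c ^ 4)

variable {q : ℕ} (hq : IsPrimePow q) (hK : Fintype.card K = q ^ 3) (hq2 : q = 2)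
include hq hK hq2

theorem cL_conj (Y : SL(2, K)) {u : GL chevD4.Idx K}
    (hu : u ∈ uSub chevD4 K (outSet chevD4 (blkSet 0))) :
    cL (phiJ hq hK Y * u * (phiJ hq hK Y)⁻¹) = Fq u (Y.1 1 0) (Y.1 1 1) := by
  have hy : phiJ hq hK Y ∈ RL K 0 := (Subgroup.mem_inf.1 (phiJ_mem hq hK Y)).2
  set w := (u : Matrix chevD4.Idx chevD4.Idx K) *ᵥ eLow K with hw
  rw [cL, coef, Units.val_mul, Units.val_mul, ← Matrix.mulVec_mulVec, ← Matrix.mulVec_mulVec,
    fix_low (inv_mem hy), ← hw, phiJ_apply, Units.val_mul, Units.val_mul, ← Matrix.mulVec_mulVec,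
    ← Matrix.mulVec_mulVec]
  simp only [(lift_rows _ (show ((0 : ℕ), (1 : Fin 24), (6 : Fin 24)) ∈ liftPairs by decide) _ _).2,
    (lift_rows _ (show ((2 : ℕ), (1 : Fin 24), (3 : Fin 24)) ∈ liftPairs by decide) _ _).2,
    (lift_rows _ (show ((2 : ℕ), (6 : Fin 24), (8 : Fin 24)) ∈ liftPairs by decide) _ _).2,
    (lift_rows _ (show ((3 : ℕ), (1 : Fin 24), (2 : Fin 24)) ∈ liftPairs by decide) _ _).2,
    (lift_rows _ (show ((3 : ℕ), (3 : Fin 24), (4 : Fin 24)) ∈ liftPairs by decide) _ _).2,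
    (lift_rows _ (show ((3 : ℕ), (6 : Fin 24), (7 : Fin 24)) ∈ liftPairs by decide) _ _).2,
    (lift_rows _ (show ((3 : ℕ), (8 : Fin 24), (9 : Fin 24)) ∈ liftPairs by decide) _ _).2]
  have hm : ∀ (φ : K →+* K) (g : SL(2, K)) a b, (Matrix.SpecialLinearGroup.map φ g).1 a b = φ (g.1 a b) :=
    fun φ g a b => rfl
  simp only [hm, D4.phi_apply, Fq, coef, ← hw]
  subst hq2
  ring

/-- Values of the cubic form scale. -/
theorem Fq_scale (u : GL chevD4.Idx K) (l c d : K) (hl : l ≠ 0) : Fq u (l * c) (l * d) = Fq u c d := by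
  have h7 : l ^ 7 = 1 := by
    have := FiniteField.pow_card_sub_one_eq_one l hl
    simpa [hK, hq2] using this
  simp only [Fq]
  linear_combination (coef 1 u * (d * d ^ 2 * d ^ 4) + coef 2 u * (d * d ^ 2 * c ^ 4) +
    coef 3 u * (d * c ^ 2 * d ^ 4) + coef 4 u * (d * c ^ 2 * c ^ 4) + coef 6 u * (c * d ^ 2 * d ^ 4) +
    coef 7 u * (c * d ^ 2 * c ^ 4) + coef 8 u * (c * c ^ 2 * d ^ 4) + coef 9 u * (c * c ^ 2 * c ^ 4)) * h7

/-- The coefficient at `14` of a fixed positive element is `0` or `1`. -/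
theorem cL_two {u : GL chevD4.Idx K} (hu : u ∈ Upos K q) : cL u = 0 ∨ cL u = 1 := by
  obtain ⟨a, ha, x, hx, rfl⟩ := Upos_split hq hK 1 hu
  obtain ⟨t, ht, rfl⟩ := (D4.mem_XX1 hq hK).1 hx
  rw [cL_mul (uSub_le_posUnipotent K _ ha.1) (D4.pos_of _ (by norm_num) (by decide) _), cL_rad ha.1,
    cL_x14, zero_add]
  rw [hq2] at ht
  have : t * (t - 1) = 0 := by linear_combination ht
  rcases mul_eq_zero.1 this with h | h
  · exact Or.inl h
  · exact Or.inr (sub_eq_zero.1 h)

theorem Fq_two (Y : SL(2, K)) {u : GL chevD4.Idx K} (hu : u ∈ QP K q 0) :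
    Fq u (Y.1 1 0) (Y.1 1 1) = 0 ∨ Fq u (Y.1 1 0) (Y.1 1 1) = 1 := by
  obtain ⟨hG, hL⟩ := Subgroup.mem_inf.1 (phiJ_mem hq hK Y)
  rw [← cL_conj hq hK hq2 Y hu.1]
  exact cL_two hq hK hq2 (QP_le 0 (QP_conj (RL_le_levi 0 hL) hG hu))

theorem Fq_two' (c d : K) (hcd : c ≠ 0 ∨ d ≠ 0) {u : GL chevD4.Idx K} (hu : u ∈ QP K q 0) :
    Fq u c d = 0 ∨ Fq u c d = 1 := by
  by_cases hc : c = 0
  · have hd := hcd.resolve_left (not_not.2 hc)
    have := Fq_two hq hK hq2 ⟨!![d⁻¹, 0; c, d], by rw [Matrix.det_fin_two_of, hc]; simp [hd]⟩ hu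
    simpa using this
  · have := Fq_two hq hK hq2 ⟨!![0, -c⁻¹; c, d], by rw [Matrix.det_fin_two_of]; simp [hc]⟩ hu
    simpa using this

/-- The cubic form has even weight. -/
theorem Fq_sum (u : GL chevD4.Idx K) : ∑ x : K, Fq u 1 x + Fq u 0 1 = 0 := by
  have h2 : (2 : K) = 0 := CharTwo.two_eq_zero
  have hs : ∀ i < Fintype.card K - 1, ∑ x : K, x ^ i = 0 := fun i hi =>
    FiniteField.sum_pow_lt_card_sub_one (K := K) i hi
  have h7 : ∑ x : K, x ^ 7 = 1 := by
    classical
    have : ∀ x : K, x ^ 7 = if x = 0 then 0 else 1 := fun x => by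
      by_cases hx : x = 0
      · simp [hx]
      · rw [if_neg hx]
        have := FiniteField.pow_card_sub_one_eq_one x hx
        simpa [hK, hq2] using this
    rw [Finset.sum_congr rfl fun x _ => this x, Finset.sum_ite]
    simp only [Finset.sum_const_zero, zero_add, Finset.sum_const, nsmul_eq_mul, mul_one]
    have hc : (Finset.univ.filter fun x : K => ¬ x = 0).card = 7 := by
      rw [Finset.filter_ne', Finset.card_erase_of_mem (Finset.mem_univ _), Finset.card_univ, hK, hq2]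
      rfl
    rw [hc]
    push_cast
    linear_combination 3 * h2
  have h8 : Fintype.card K - 1 = 7 := by rw [hK, hq2]; rfl
  rw [h8] at hs
  have e : ∀ x : K, Fq u 1 x = coef 1 u * x ^ 7 + coef 2 u * x ^ 3 + coef 3 u * x ^ 5 + coef 4 u * x ^ 1 +
      coef 6 u * x ^ 6 + coef 7 u * x ^ 2 + coef 8 u * x ^ 4 + coef 9 u * x ^ 0 := fun x => by
    simp only [Fq]; ring
  rw [Finset.sum_congr rfl fun x _ => e x]
  simp only [Finset.sum_add_distrib, ← Finset.mul_sum, h7, hs 3 (by omega), hs 5 (by omega),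
    hs 1 (by omega), hs 6 (by omega), hs 2 (by omega), hs 4 (by omega), hs 0 (by omega)]
  simp only [Fq]
  linear_combination coef 1 u * h2

/-- A cubic form constant off the two coordinate points has only extreme coefficients. -/
theorem Fq_const {u : GL chevD4.Idx K} {C : K} (h : ∀ x : K, x ≠ 0 → Fq u 1 x = C) :
    coef 2 u = 0 ∧ coef 3 u = 0 ∧ coef 4 u = 0 ∧ coef 6 u = 0 ∧ coef 7 u = 0 ∧ coef 8 u = 0 ∧
      coef 1 u + coef 9 u = C := by
  classical
  let f : Fin 7 → K := ![coef 1 u + coef 9 u - C, coef 4 u, coef 7 u, coef 2 u, coef 8 u, coef 3 u, coef 6 u]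
  have hcard : Fintype.card Kˣ = 7 := by rw [Fintype.card_units, hK, hq2]; rfl
  let e := (Fintype.equivFinOfCardEq hcard).symm
  have hz : f = 0 := by
    refine Matrix.eq_zero_of_forall_index_sum_mul_pow_eq_zero (f := fun i => ((e i : Kˣ) : K)) ?_ fun i => ?_
    · intro a b hab
      exact e.injective (Units.ext hab)
    · have hx := (e i).ne_zero
      have hh := h _ hx
      have h7 : ((e i : Kˣ) : K) ^ 7 = 1 := by
        have := FiniteField.pow_card_sub_one_eq_one _ hx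
        simpa [hK, hq2] using this
      simp only [Fin.sum_univ_seven, f]
      simp only [Fq] at hh
      simp
      linear_combination hh - coef 1 u * h7
  have g := fun i => congrFun hz i
  refine ⟨g 3, g 5, g 1, g 6, g 2, g 4, ?_⟩
  have := g 0
  simp [f] at this
  linear_combination this

end CfsgLib.D4Cover
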